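import Cfsg.Agent.H22.ReeCube
import Cfsg.Agent.H22.ReeBN
/-!
`²G₂(q)` is generated by two elements (helper22).
-/
set_option autoImplicit false
open Cfsg Cfsg.Lie

namespace Cfsg.Agent.H22.Ree

open Cfsg.Agent.H22 Cfsg.Agent.H22.GEx

namespace Ctx

variable {K : Type*} [Field K] [CharP K 3] {e : ℕ} (C : Ctx K e)

theorem E'_congr (x y a b c d a' b' c' d' : K) (ha : a = a') (hb : b = b') (hc : c = c')
    (hd : d = d') : C.SP.E' x y a b c d = C.SP.E' x y a' b' c' d' := by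
  rw [ha, hb, hc, hd]

theorem R_congr (t u v t' u' v' : K) (ht : t = t') (hu : u = u') (hv : v = v') :
    C.SP.R C.τ t u v = C.SP.R C.τ t' u' v' := by
  rw [ht, hu, hv]

/-- the product of two Ree words -/
theorem R_mul (t u v t' u' v' : K) :
    C.SP.R C.τ t u v * C.SP.R C.τ t' u' v' =
      C.SP.R C.τ (t + t') (u + u' - C.τ t' ^ 3 * t)
        (v + v' - t' * u + C.τ t' ^ 3 * t * t' - C.τ t' ^ 3 * t ^ 2) := by
  have h3 : (3 : K) = 0 := by exact_mod_cast CharP.cast_eq_zero K 3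
  unfold USys.R
  rw [(extPos K C.θ).E'_mul]
  have he1 : C.SP.e1 = 1 := rfl
  have he2 : C.SP.e2 = 1 := rfl
  have he3 : C.SP.e3 = -1 := rfl
  have he4 : C.SP.e4 = -1 := rfl
  rw [he1, he2, he3, he4]
  have k3 : C.τ (u + u' - C.τ t' ^ 3 * t) = C.τ u + C.τ u' - t' * C.τ t := by
    rw [map_sub, map_add, map_mul, map_pow, C.hτ]
  have k4 : C.τ (v + v' - t' * u + C.τ t' ^ 3 * t * t' - C.τ t' ^ 3 * t ^ 2) =
      C.τ v + C.τ v' - C.τ t' * C.τ u + t' * C.τ t * C.τ t' - t' * C.τ t ^ 2 := by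
    simp only [map_sub, map_add, map_mul, map_pow, C.hτ]
  rw [k3, k4, map_add]
  apply C.E'_congr
  · ring
  · linear_combination (-(C.τ t * C.τ t' * t' - C.τ t' * C.τ u)) * h3
  · ring
  · ring

theorem R_zero : C.SP.R C.τ 0 0 0 = 1 := by
  have h := congrArg (fun z : ↥(chevG2.posUnipotent K ⊓ twistedG2 K e) => (z : GL chevG2.Idx K))
    C.reeEl_zero
  exact Subtype.ext h

/-- conjugating a Ree word by an element of `H¹` -/
theorem conj_R [Fintype K] {m : ℕ} (hK : Fintype.card K = 3 ^ (2 * m + 1)) (s : K) (hs : s ≠ 0)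
    (t u v : K) :
    ∃ u' v' : K, (C.hh (C.τ s) s : GL chevG2.Idx K) * (C.SP.R C.τ t u v : GL chevG2.Idx K) *
        (C.hh (C.τ s) s : GL chevG2.Idx K)⁻¹ =
      (C.SP.R C.τ (chi (C.τ s) s 6 * t) u' v' : GL chevG2.Idx K) := by
  have hτs : C.τ s ≠ 0 := (map_ne_zero C.τ).mpr hs
  have h1 : C.hh (C.τ s) s * C.SP.R C.τ t u v * (C.hh (C.τ s) s)⁻¹ =
      C.SP.E (chi (C.τ s) s 6 * t) (chi (C.τ s) s 7 * C.τ t) (chi (C.τ s) s 8 * C.τ u)
        (chi (C.τ s) s 9 * C.τ v) (chi (C.τ s) s 10 * (u + C.τ t ^ 3 * t))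
        (chi (C.τ s) s 11 * (v + C.τ t ^ 3 * t ^ 2)) := by
    rw [USys.R_eq_E (signs_pos K C.θ), C.hh_mul_E _ _ hτs hs, mul_inv_cancel_right]
  have hmem : ((C.hh (C.τ s) s * C.SP.R C.τ t u v * (C.hh (C.τ s) s)⁻¹ : ↥(chevG2.group K)) :
      GL chevG2.Idx K) ∈ chevG2.posUnipotent K ⊓ twistedG2 K e := by
    constructor
    · rw [h1]; exact C.E_mem_U _ _ _ _ _ _
    · show (C.hh (C.τ s) s : GL chevG2.Idx K) * (C.SP.R C.τ t u v : GL chevG2.Idx K) *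
        (C.hh (C.τ s) s : GL chevG2.Idx K)⁻¹ ∈ twistedG2 K e
      exact mul_mem (mul_mem (C.hh_mem hK s hs) (C.RP_mem t u v)) (inv_mem (C.hh_mem hK s hs))
  obtain ⟨⟨t', u', v'⟩, hq⟩ := C.reeEl_bij.2 ⟨_, hmem⟩
  have hq' : (C.SP.R C.τ t' u' v' : GL chevG2.Idx K) =
      ((C.hh (C.τ s) s * C.SP.R C.τ t u v * (C.hh (C.τ s) s)⁻¹ : ↥(chevG2.group K)) :
        GL chevG2.Idx K) :=
    congrArg (fun z : ↥(chevG2.posUnipotent K ⊓ twistedG2 K e) => (z : GL chevG2.Idx K)) hq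
  have hq'' : C.SP.R C.τ t' u' v' =
      C.SP.E (chi (C.τ s) s 6 * t) (chi (C.τ s) s 7 * C.τ t) (chi (C.τ s) s 8 * C.τ u)
        (chi (C.τ s) s 9 * C.τ v) (chi (C.τ s) s 10 * (u + C.τ t ^ 3 * t))
        (chi (C.τ s) s 11 * (v + C.τ t ^ 3 * t ^ 2)) := by
    rw [← h1]; exact Subtype.ext hq'
  rw [USys.R_eq_E (signs_pos K C.θ)] at hq''
  obtain ⟨a6, -⟩ := C.E_inj _ _ _ _ _ _ _ _ _ _ _ _ hq''
  refine ⟨u', v', ?_⟩
  rw [← a6]
  exact hq'.symm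

/-- every non-zero `μ` is a value of the character on the root `b` -/
theorem chi6_val (μ : K) (hμ : μ ≠ 0) :
    chi (C.τ (μ ^ 2 * C.τ μ ^ 3)) (μ ^ 2 * C.τ μ ^ 3) 6 = μ := by
  have hτμ : C.τ μ ≠ 0 := (map_ne_zero C.τ).mpr hμ
  rw [(chi_vals _ _).1, map_mul, map_pow, map_pow, C.hτ, zpow_neg, zpow_ofNat, zpow_ofNat]
  field_simp

theorem RP_zero_mem (M : Subgroup (GL chevG2.Idx K)) :
    (C.SP.R C.τ 0 0 0 : GL chevG2.Idx K) ∈ M := by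
  rw [C.R_zero]; exact one_mem M

/-- two Ree words in `M` with the same first parameter differ by an element of `M` -/
theorem quot_mem (M : Subgroup (GL chevG2.Idx K)) (T U V U' V' δ ν : K)
    (hx : (C.SP.R C.τ T U V : GL chevG2.Idx K) ∈ M)
    (hy : (C.SP.R C.τ T U' V' : GL chevG2.Idx K) ∈ M)
    (hδ : δ = U - U') (hν : ν = V - V' + T * δ) : (C.SP.R C.τ 0 δ ν : GL chevG2.Idx K) ∈ M := by
  have h : C.SP.R C.τ 0 δ ν * C.SP.R C.τ T U' V' = C.SP.R C.τ T U V := by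
    rw [C.R_mul]
    apply C.R_congr
    · exact zero_add T
    · rw [hδ]; ring
    · rw [hν]; ring
  have h' : (C.SP.R C.τ 0 δ ν : GL chevG2.Idx K) =
      (C.SP.R C.τ T U V : GL chevG2.Idx K) * (C.SP.R C.τ T U' V' : GL chevG2.Idx K)⁻¹ := by
    rw [← h, Subgroup.coe_mul, mul_inv_cancel_right]
  rw [h']
  exact mul_mem hx (inv_mem hy)

/-- all first parameters occur -/
theorem stage1 [Fintype K] {m : ℕ} (hK : Fintype.card K = 3 ^ (2 * m + 1))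
    (M : Subgroup (GL chevG2.Idx K))
    (hH : ∀ s : K, s ≠ 0 → (C.hh (C.τ s) s : GL chevG2.Idx K) ∈ M)
    (tc uc vc : K) (htc : tc ≠ 0) (hc : (C.SP.R C.τ tc uc vc : GL chevG2.Idx K) ∈ M) (t : K) :
    ∃ u v : K, (C.SP.R C.τ t u v : GL chevG2.Idx K) ∈ M := by
  by_cases ht : t = 0
  · refine ⟨0, 0, ?_⟩
    rw [ht]
    exact C.RP_zero_mem M
  · have hμ : t / tc ≠ 0 := div_ne_zero ht htc
    have hs : (t / tc) ^ 2 * C.τ (t / tc) ^ 3 ≠ 0 :=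
      mul_ne_zero (pow_ne_zero _ hμ) (pow_ne_zero _ ((map_ne_zero C.τ).mpr hμ))
    obtain ⟨u', v', h⟩ := C.conj_R hK _ hs tc uc vc
    refine ⟨u', v', ?_⟩
    have e1 : chi (C.τ ((t / tc) ^ 2 * C.τ (t / tc) ^ 3)) ((t / tc) ^ 2 * C.τ (t / tc) ^ 3) 6 * tc =
        t := by
      rw [C.chi6_val _ hμ]
      field_simp
    rw [e1] at h
    rw [← h]
    exact mul_mem (mul_mem (hH _ hs) hc) (inv_mem (hH _ hs))

omit [CharP K 3] in
/-- a generator of `Kˣ`, not of order dividing 2 -/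
theorem exists_prim [Fintype K] {m : ℕ} (hm : 1 ≤ m) (hK : Fintype.card K = 3 ^ (2 * m + 1)) :
    ∃ g : Kˣ, (∀ x : Kˣ, x ∈ Subgroup.zpowers g) ∧ g * g ≠ 1 := by
  obtain ⟨g, hg⟩ := IsCyclic.exists_generator (α := Kˣ)
  refine ⟨g, hg, ?_⟩
  intro h
  have h1 : orderOf g = Nat.card Kˣ := orderOf_eq_card_of_forall_mem_zpowers hg
  rw [Nat.card_units, Nat.card_eq_fintype_card, hK] at h1
  have h2 : orderOf g ∣ 2 := orderOf_dvd_of_pow_eq_one (by rw [pow_two]; exact h)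
  have h3 : orderOf g ≤ 2 := Nat.le_of_dvd (by norm_num) h2
  have h4 : 3 ^ 3 ≤ 3 ^ (2 * m + 1) := Nat.pow_le_pow_right (by norm_num) (by omega)
  omega

include C in
theorem exists_beta [Fintype K] {m : ℕ} (hm : 1 ≤ m) (hK : Fintype.card K = 3 ^ (2 * m + 1)) :
    ∃ t₁ : K, t₁ - C.τ t₁ ^ 3 ≠ 0 := by
  obtain ⟨g, -, hg2⟩ := exists_prim hm hK
  have ht2 : (g : K) * (g : K) ≠ 1 := by
    intro h
    apply hg2
    apply Units.ext
    rw [Units.val_mul, h, Units.val_one]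
  have ht3 : (g : K) ^ 3 ≠ (g : K) := by
    intro h
    apply ht2
    have h' : (g : K) * ((g : K) * (g : K) - 1) = 0 := by linear_combination h
    rcases mul_eq_zero.mp h' with h0 | h0
    · exact absurd h0 g.ne_zero
    · exact sub_eq_zero.mp h0
  by_cases h1 : C.τ (g : K) ^ 3 = (g : K)
  · refine ⟨C.τ (g : K), ?_⟩
    rw [C.hτ]
    intro h
    have h2 : C.τ (g : K) = (g : K) := sub_eq_zero.mp h
    rw [h2] at h1
    exact ht3 h1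
  · refine ⟨(g : K), ?_⟩
    intro h
    exact h1 (sub_eq_zero.mp h).symm

/-- commutators of elements of `M` -/
theorem stage2a (M : Subgroup (GL chevG2.Idx K))
    (h1 : ∀ t : K, ∃ u v : K, (C.SP.R C.τ t u v : GL chevG2.Idx K) ∈ M) (t₁ x : K) :
    ∃ v : K, (C.SP.R C.τ 0 (C.τ x ^ 3 * x * (t₁ - C.τ t₁ ^ 3)) v : GL chevG2.Idx K) ∈ M := by
  obtain ⟨u1, v1, hw1⟩ := h1 x
  obtain ⟨u2, v2, hw2⟩ := h1 (x * t₁)
  have p12 := mul_mem hw1 hw2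
  have p21 := mul_mem hw2 hw1
  rw [← Subgroup.coe_mul, C.R_mul] at p12 p21
  rw [add_comm (x * t₁) x] at p21
  exact ⟨_, C.quot_mem M _ _ _ _ _ _ _ p12 p21 (by rw [map_mul]; ring) rfl⟩

/-- all second parameters occur -/
theorem stage2 [Fintype K] {m : ℕ} (hm : 1 ≤ m) (hK : Fintype.card K = 3 ^ (2 * m + 1))
    (M : Subgroup (GL chevG2.Idx K))
    (h1 : ∀ t : K, ∃ u v : K, (C.SP.R C.τ t u v : GL chevG2.Idx K) ∈ M) (u : K) :
    ∃ v : K, (C.SP.R C.τ 0 u v : GL chevG2.Idx K) ∈ M := by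
  obtain ⟨t₁, hβ⟩ := C.exists_beta hm hK
  have hsq : ∀ ν : K, ν ≠ 0 →
      ∃ v : K, (C.SP.R C.τ 0 (ν ^ 2 * (t₁ - C.τ t₁ ^ 3)) v : GL chevG2.Idx K) ∈ M := by
    intro ν hν
    obtain ⟨v, hv⟩ := C.stage2a M h1 t₁ (C.τ ν ^ 3 * ν⁻¹)
    refine ⟨v, ?_⟩
    have e1 : C.τ (C.τ ν ^ 3 * ν⁻¹) ^ 3 * (C.τ ν ^ 3 * ν⁻¹) = ν ^ 2 := by
      have hτν : C.τ ν ≠ 0 := (map_ne_zero C.τ).mpr hν
      rw [map_mul, map_pow, map_inv₀, mul_pow, ← pow_mul, mul_comm 3 3, pow_mul, C.hτ]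
      field_simp
    rw [e1] at hv
    exact hv
  by_cases hu : u = 0
  · refine ⟨0, ?_⟩
    rw [hu]
    exact C.RP_zero_mem M
  · obtain ⟨x, hx, h | h⟩ := sq_or_neg_sq hK (u / (t₁ - C.τ t₁ ^ 3)) (div_ne_zero hu hβ)
    · obtain ⟨v, hv⟩ := hsq x hx
      refine ⟨v, ?_⟩
      have e1 : x ^ 2 * (t₁ - C.τ t₁ ^ 3) = u := by rw [← h]; field_simp
      rw [e1] at hv
      exact hv
    · obtain ⟨v, hv⟩ := hsq x hx
      have e1 : u = 0 - x ^ 2 * (t₁ - C.τ t₁ ^ 3) := by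
        have : u = u / (t₁ - C.τ t₁ ^ 3) * (t₁ - C.τ t₁ ^ 3) := by field_simp
        rw [this, h]; ring
      exact ⟨_, C.quot_mem M 0 0 0 _ v _ _ (C.RP_zero_mem M) hv e1 rfl⟩

/-- all third parameters occur -/
theorem stage3 (M : Subgroup (GL chevG2.Idx K))
    (h1 : ∀ t : K, ∃ u v : K, (C.SP.R C.τ t u v : GL chevG2.Idx K) ∈ M)
    (h2 : ∀ u : K, ∃ v : K, (C.SP.R C.τ 0 u v : GL chevG2.Idx K) ∈ M) (v : K) :
    (C.SP.R C.τ 0 0 v : GL chevG2.Idx K) ∈ M := by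
  obtain ⟨u1, v1, hw⟩ := h1 1
  obtain ⟨v2, hz⟩ := h2 v
  have p1 := mul_mem hw hz
  have p2 := mul_mem hz hw
  rw [← Subgroup.coe_mul, C.R_mul] at p1 p2
  rw [add_zero] at p1
  rw [zero_add] at p2
  exact C.quot_mem M _ _ _ _ _ 0 v p1 p2 (by rw [map_zero, map_one]; ring)
    (by rw [map_zero, map_one]; ring)

/-- a subgroup containing `H¹` and a Ree word with non-zero first parameter contains `U¹` -/
theorem gen_U [Fintype K] {m : ℕ} (hm : 1 ≤ m) (hK : Fintype.card K = 3 ^ (2 * m + 1))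
    (M : Subgroup (GL chevG2.Idx K))
    (hH : ∀ s : K, s ≠ 0 → (C.hh (C.τ s) s : GL chevG2.Idx K) ∈ M)
    (tc uc vc : K) (htc : tc ≠ 0) (hc : (C.SP.R C.τ tc uc vc : GL chevG2.Idx K) ∈ M)
    (t u v : K) : (C.SP.R C.τ t u v : GL chevG2.Idx K) ∈ M := by
  have h1 := C.stage1 hK M hH tc uc vc htc hc
  have h2 := C.stage2 hm hK M h1
  have h3 := C.stage3 M h1 h2
  obtain ⟨u1, v1, hw⟩ := h1 t
  obtain ⟨v2, hz2⟩ := h2 (u - u1)
  have hz3 := h3 (v - (v2 + v1 - t * (u - u1)))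
  have p := mul_mem hz3 (mul_mem hz2 hw)
  rw [← Subgroup.coe_mul, ← Subgroup.coe_mul, C.R_mul, C.R_mul] at p
  have e1 : C.SP.R C.τ t u v = C.SP.R C.τ (0 + (0 + t)) (0 + (u - u1 + u1 - C.τ t ^ 3 * 0) -
      C.τ (0 + t) ^ 3 * 0) (v - (v2 + v1 - t * (u - u1)) +
        (v2 + v1 - t * (u - u1) + C.τ t ^ 3 * 0 * t - C.τ t ^ 3 * 0 ^ 2) - (0 + t) * 0 +
        C.τ (0 + t) ^ 3 * 0 * (0 + t) - C.τ (0 + t) ^ 3 * 0 ^ 2) := by
    apply C.R_congr <;> ring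
  rw [e1]
  exact p

theorem R_inv_100 : C.SP.R C.τ 1 0 0 * C.SP.R C.τ (-1) (-1) 1 = 1 := by
  have h3 : (3 : K) = 0 := by exact_mod_cast CharP.cast_eq_zero K 3
  rw [C.R_mul, ← C.R_zero]
  apply C.R_congr
  · ring
  · rw [map_neg, map_one]; ring
  · rw [map_neg, map_one]; linear_combination h3

include C in
/-- `²G₂(q)` is generated by two elements -/
theorem two_gen [Fintype K] {m : ℕ} (hm : 1 ≤ m) (hK : Fintype.card K = 3 ^ (2 * m + 1)) :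
    ∃ a b : ↥(twistedG2 K e), Subgroup.closure ({a, b} : Set ↥(twistedG2 K e)) = ⊤ := by
  obtain ⟨g, hg, hg2⟩ := exists_prim hm hK
  have haG : (C.eta g : GL chevG2.Idx K) ∈ twistedG2 K e := by
    rw [C.eta_apply]; exact C.hh_mem hK _ g.ne_zero
  have hbG : (C.SP.R C.τ 1 0 0 : GL chevG2.Idx K) * (C.n0 : GL chevG2.Idx K) ∈ twistedG2 K e :=
    mul_mem (C.RP_mem 1 0 0) C.n0_mem
  refine ⟨⟨_, haG⟩, ⟨_, hbG⟩, ?_⟩
  obtain ⟨M, hM⟩ : ∃ M : Subgroup (GL chevG2.Idx K), M = Subgroup.closure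
      {C.eta g, (C.SP.R C.τ 1 0 0 : GL chevG2.Idx K) * (C.n0 : GL chevG2.Idx K)} := ⟨_, rfl⟩
  have haM : C.eta g ∈ M := by
    rw [hM]; exact Subgroup.subset_closure (Set.mem_insert _ _)
  have hbM : (C.SP.R C.τ 1 0 0 : GL chevG2.Idx K) * (C.n0 : GL chevG2.Idx K) ∈ M := by
    rw [hM]; exact Subgroup.subset_closure (Set.mem_insert_of_mem _ rfl)
  have hH : ∀ s : K, s ≠ 0 → (C.hh (C.τ s) s : GL chevG2.Idx K) ∈ M := by
    intro s hs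
    obtain ⟨k, hk⟩ := Subgroup.mem_zpowers_iff.mp (hg (Units.mk0 s hs))
    have e1 : (C.hh (C.τ s) s : GL chevG2.Idx K) = C.eta g ^ k := by
      rw [← map_zpow, hk, C.eta_apply]; rfl
    rw [e1]
    exact zpow_mem haM k
  have haH : C.eta g ∈ chevG2.diagonalSubgroup K := by
    rw [C.eta_apply]; exact C.hh_mem_H _ _ ((map_ne_zero C.τ).mpr g.ne_zero) g.ne_zero
  have ha'H := (N_conj_H _ _ C.n0_mem_N haH).1
  have ha'G : (C.n0 : GL chevG2.Idx K) * C.eta g * (C.n0 : GL chevG2.Idx K)⁻¹ ∈ twistedG2 K e :=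
    mul_mem (mul_mem C.n0_mem haG) (inv_mem C.n0_mem)
  obtain ⟨s₁, hs₁, ha'⟩ := C.exists_of_mem_H1 _ ⟨ha'H, ha'G⟩
  have ha'M : (C.n0 : GL chevG2.Idx K) * C.eta g * (C.n0 : GL chevG2.Idx K)⁻¹ ∈ M := by
    rw [ha']; exact hH s₁ hs₁
  have hs₁sq : s₁ ^ 2 ≠ 1 := by
    intro h
    apply hg2
    apply C.eta_injective
    rw [map_mul, map_one]
    have h1 : (C.hh (C.τ s₁) s₁ : GL chevG2.Idx K) * (C.hh (C.τ s₁) s₁ : GL chevG2.Idx K) = 1 := by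
      have e1 : (C.hh (C.τ s₁) s₁ : GL chevG2.Idx K) = C.eta (Units.mk0 s₁ hs₁) := by
        rw [C.eta_apply]; rfl
      rw [e1, ← map_mul]
      have e2 : Units.mk0 s₁ hs₁ * Units.mk0 s₁ hs₁ = 1 := by
        apply Units.ext
        rw [Units.val_mul, Units.val_mk0, Units.val_one, ← pow_two, h]
      rw [e2, map_one]
    rw [← ha'] at h1
    calc C.eta g * C.eta g = (C.n0 : GL chevG2.Idx K)⁻¹ *
          ((C.n0 : GL chevG2.Idx K) * C.eta g * (C.n0 : GL chevG2.Idx K)⁻¹ *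
            ((C.n0 : GL chevG2.Idx K) * C.eta g * (C.n0 : GL chevG2.Idx K)⁻¹)) *
          (C.n0 : GL chevG2.Idx K) := by group
      _ = 1 := by rw [h1]; group
  have hχ : chi (C.τ s₁) s₁ 6 ≠ 1 := fun h => hs₁sq ((C.sq_eq_one_of_chi s₁ hs₁).1 h)
  obtain ⟨u', v', hconj⟩ := C.conj_R hK s₁ hs₁ (-1) (-1) 1
  have hu0inv : (C.SP.R C.τ (-1) (-1) 1 : GL chevG2.Idx K) =
      (C.SP.R C.τ 1 0 0 : GL chevG2.Idx K)⁻¹ := by
    apply eq_inv_of_mul_eq_one_right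
    rw [← Subgroup.coe_mul, C.R_inv_100]
    rfl
  have hcM : ((C.SP.R C.τ 1 0 0 * C.SP.R C.τ (chi (C.τ s₁) s₁ 6 * (-1)) u' v' :
      ↥(chevG2.group K)) : GL chevG2.Idx K) ∈ M := by
    rw [Subgroup.coe_mul, ← hconj, ← ha', hu0inv]
    have e1 : (C.SP.R C.τ 1 0 0 : GL chevG2.Idx K) *
        ((C.n0 : GL chevG2.Idx K) * C.eta g * (C.n0 : GL chevG2.Idx K)⁻¹ *
          (C.SP.R C.τ 1 0 0 : GL chevG2.Idx K)⁻¹ *
          ((C.n0 : GL chevG2.Idx K) * C.eta g * (C.n0 : GL chevG2.Idx K)⁻¹)⁻¹) =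
        (C.SP.R C.τ 1 0 0 : GL chevG2.Idx K) * (C.n0 : GL chevG2.Idx K) * C.eta g *
          ((C.SP.R C.τ 1 0 0 : GL chevG2.Idx K) * (C.n0 : GL chevG2.Idx K))⁻¹ *
          ((C.n0 : GL chevG2.Idx K) * C.eta g * (C.n0 : GL chevG2.Idx K)⁻¹)⁻¹ := by group
    rw [e1]
    exact mul_mem (mul_mem (mul_mem hbM haM) (inv_mem hbM)) (inv_mem ha'M)
  rw [C.R_mul] at hcM
  have htc : (1 : K) + chi (C.τ s₁) s₁ 6 * (-1) ≠ 0 := by
    intro h
    apply hχ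
    linear_combination -h
  have hU := C.gen_U hm hK M hH _ _ _ htc hcM
  have hn0M : (C.n0 : GL chevG2.Idx K) ∈ M := by
    have e1 : (C.n0 : GL chevG2.Idx K) = (C.SP.R C.τ 1 0 0 : GL chevG2.Idx K)⁻¹ *
        ((C.SP.R C.τ 1 0 0 : GL chevG2.Idx K) * (C.n0 : GL chevG2.Idx K)) := by group
    rw [e1]
    exact mul_mem (inv_mem (hU 1 0 0)) hbM
  have hle : twistedG2 K e ≤ M := by
    unfold twistedG2 ChevalleyDatum.genSubgroup
    rw [Subgroup.closure_le]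
    rintro y ⟨w, ⟨t, u, v, hw | hw⟩, hyw⟩
    · have hy' : y = (C.SP.R C.τ t u v : GL chevG2.Idx K) :=
        Units.ext (by rw [hyw, hw, C.R_val])
      rw [hy']
      exact hU t u v
    · have hy' : y = (C.SN.R C.τ t u v : GL chevG2.Idx K) :=
        Units.ext (by rw [hyw, hw, C.RN_val])
      rw [hy', C.RN_eq_conj, Subgroup.coe_mul, Subgroup.coe_mul, Subgroup.coe_inv]
      exact mul_mem (mul_mem hn0M (hU t u v)) (inv_mem hn0M)
  rw [eq_top_iff]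
  intro x _
  have hx : (x : GL chevG2.Idx K) ∈ M := hle x.2
  rw [hM] at hx
  have himg : ({C.eta g, (C.SP.R C.τ 1 0 0 : GL chevG2.Idx K) * (C.n0 : GL chevG2.Idx K)} :
      Set (GL chevG2.Idx K)) = (twistedG2 K e).subtype '' {⟨_, haG⟩, ⟨_, hbG⟩} := by
    rw [Set.image_pair]
    rfl
  rw [himg, ← MonoidHom.map_closure] at hx
  obtain ⟨y, hy, hyx⟩ := Subgroup.mem_map.mp hx
  have hyx' : y = x := Subtype.ext hyx
  rw [← hyx']
  exact hy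

end Ctx

end Cfsg.Agent.H22.Ree
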