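import Cfsg.Agent.H22.TF4Tor
/-!
`|H ∩ ²F₄(q)| = (q - 1)²` (helper22).
-/
set_option autoImplicit false
open Cfsg Cfsg.Lie

namespace Cfsg.Agent.H22.TF4

open Cfsg.Agent.H22 Cfsg.Agent.H22.GEx

theorem card_H1 {K : Type*} [Field K] [Fintype K] {m : ℕ}
    (hK : Fintype.card K = 2 ^ (2 * m + 1))
    (θ : chevF4.SteinbergGroup K →* ↥(chevF4.group K)) (hs : Function.Surjective θ)
    (hk : θ.ker = Subgroup.center (chevF4.SteinbergGroup K))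
    (hx : ∀ (r : ℕ) (t : K), r < chevF4.nroots →
      ((θ (chevF4.stGen K r t) : GL chevF4.Idx K) : Matrix chevF4.Idx chevF4.Idx K) =
        chevF4.x K r t) :
    Nat.card ↥(chevF4.diagonalSubgroup K ⊓ twistedF4 K (2 ^ m)) = (2 ^ (2 * m + 1) - 1) ^ 2 := by
  have hc2 : CharP K 2 := charP_two_of_card (n := 2 * m) hK
  have h2 : (2 : K) = 0 := CharTwo.two_eq_zero
  have hp2 : Fact (Nat.Prime 2) := ⟨Nat.prime_two⟩
  obtain ⟨τ, τ_eq⟩ : ∃ τ : K →+* K, ∀ c : K, τ c = c ^ 2 ^ m :=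
    ⟨iterateFrobenius K 2 m, fun c => iterateFrobenius_def 2 m c⟩
  have hτ : ∀ c : K, τ (τ c) ^ 2 = c := by
    intro c
    rw [τ_eq, τ_eq, ← pow_mul, ← pow_mul]
    have h1 : 2 ^ m * (2 ^ m * 2) = Fintype.card K := by rw [hK]; ring
    rw [h1, FiniteField.pow_card]
  have hbij : Function.Bijective τ :=
    ⟨τ.injective, fun c => ⟨τ c ^ 2, by rw [map_pow]; exact hτ c⟩⟩
  have hperf : ∀ x : K, ∃ y : K, y ^ 2 = x := fun x => ⟨τ (τ x), hτ x⟩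
  obtain ⟨σ, ψ, hσψ, hψ⟩ :=
    twist_of_theta chevF4 K rhoF4 lamF4 2 chk_F4 chk2_F4 hperf τ hbij θ hs hk
  obtain ⟨Θ, hΘ⟩ : ∃ Θ : chevF4.SteinbergGroup K →* GL chevF4.Idx K,
      ∀ w, Θ w = (θ w : GL chevF4.Idx K) := ⟨(chevF4.group K).subtype.comp θ, fun w => rfl⟩
  have hxΘ : ∀ (r : ℕ) (t : K), r < chevF4.nroots →
      ((Θ (chevF4.stGen K r t) : GL chevF4.Idx K) : Matrix chevF4.Idx chevF4.Idx K) =
        chevF4.x K r t := fun r t hr => by rw [hΘ]; exact hx r t hr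
  -- the generators
  have hPp : ∀ t : K, Pp K Θ τ t ∈ twistedF4 K (2 ^ m) := fun t =>
    Subgroup.subset_closure ⟨_, Or.inl ⟨t, Or.inl rfl⟩, Pp_val K Θ hxΘ τ (2 ^ m) τ_eq t⟩
  have hPm : ∀ t : K, Pm K Θ τ t ∈ twistedF4 K (2 ^ m) := fun t =>
    Subgroup.subset_closure ⟨_, Or.inl ⟨t, Or.inr rfl⟩, Pm_val K Θ hxΘ τ (2 ^ m) τ_eq t⟩
  have hBp : ∀ t u : K, (sysP K Θ).W τ t u ∈ twistedF4 K (2 ^ m) := fun t u =>
    Subgroup.subset_closure ⟨_, Or.inr ⟨t, u, Or.inl rfl⟩, Bp_val K Θ hxΘ τ (2 ^ m) τ_eq t u⟩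
  have hBm : ∀ t u : K, (sysM K Θ).W τ t u ∈ twistedF4 K (2 ^ m) := fun t u =>
    Subgroup.subset_closure ⟨_, Or.inr ⟨t, u, Or.inr rfl⟩, Bm_val K Θ hxΘ τ (2 ^ m) τ_eq t u⟩
  -- elements of the twisted group are fixed
  have hfix : ∀ x ∈ twistedF4 K (2 ^ m),
      ∃ w : chevF4.SteinbergGroup K, Θ w = x ∧ Θ (ψ w) = x := by
    intro x hx'
    unfold twistedF4 ChevalleyDatum.genSubgroup at hx'
    induction hx' using Subgroup.closure_induction with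
    | mem y hy =>
      obtain ⟨w, hw, hyw⟩ := hy
      rcases hw with ⟨t, hw | hw⟩ | ⟨t, u, hw | hw⟩
      · have hy' : y = Pp K Θ τ t := Units.ext (by rw [hyw, hw, Pp_val K Θ hxΘ τ (2 ^ m) τ_eq t])
        rw [hy']
        exact ⟨PpS K τ t, (Pp_eq K Θ τ t).symm, by
          rw [psi_PpS K τ ψ hψ hτ t]; exact (Pp_eq K Θ τ t).symm⟩
      · have hy' : y = Pm K Θ τ t := Units.ext (by rw [hyw, hw, Pm_val K Θ hxΘ τ (2 ^ m) τ_eq t])
        rw [hy']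
        exact ⟨PmS K τ t, (Pm_eq K Θ τ t).symm, by
          rw [psi_PmS K τ ψ hψ hτ t]; exact (Pm_eq K Θ τ t).symm⟩
      · have hy' : y = (sysP K Θ).W τ t u :=
          Units.ext (by rw [hyw, hw, Bp_val K Θ hxΘ τ (2 ^ m) τ_eq t u])
        rw [hy']
        exact ⟨BpS K τ t u, (Wp_eq K Θ τ t u).symm, psi_Wp K Θ τ ψ hψ hτ t u⟩
      · have hy' : y = (sysM K Θ).W τ t u :=
          Units.ext (by rw [hyw, hw, Bm_val K Θ hxΘ τ (2 ^ m) τ_eq t u])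
        rw [hy']
        exact ⟨BmS K τ t u, (Wm_eq K Θ τ t u).symm, psi_Wm K Θ τ ψ hψ hτ t u⟩
    | one => exact ⟨1, map_one _, by rw [map_one, map_one]⟩
    | mul a b _ _ iha ihb =>
      obtain ⟨wa, ha1, ha2⟩ := iha
      obtain ⟨wb, hb1, hb2⟩ := ihb
      exact ⟨wa * wb, by rw [map_mul, ha1, hb1], by rw [map_mul, map_mul, ha2, hb2]⟩
    | inv a _ iha =>
      obtain ⟨wa, ha1, ha2⟩ := iha
      exact ⟨wa⁻¹, by rw [map_inv, ha1], by rw [map_inv, map_inv, ha2]⟩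
  -- the two tori
  have hTP : ∀ s : K, Θ (hEl chevF4 K 33 (τ s) * hEl chevF4 K 24 s) ∈ twistedF4 K (2 ^ m) := by
    intro s
    rw [torus_eq K τ s]
    simp only [map_mul, ← Pp_eq, ← Pm_eq]
    exact mul_mem (mul_mem (mul_mem (hPp _) (hPm _)) (hPp _))
      (mul_mem (mul_mem (hPp _) (hPm _)) (hPp _))
  have hTB : ∀ u : K, u ≠ 0 →
      Θ (hEl chevF4 K 25 (u ^ 2 * (τ u ^ 2)⁻¹) * hEl chevF4 K 30 (τ u ^ 2)) ∈
        twistedF4 K (2 ^ m) :=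
    fun u hu => TB_mem K Θ hxΘ τ hτ (twistedF4 K (2 ^ m)) hBp hBm u hu
  have hHel : ∀ (r : ℕ), r < chevF4.nroots → chevF4.neg r < chevF4.nroots → ∀ t : K, t ≠ 0 →
      Θ (hEl chevF4 K r t) ∈ chevF4.diagonalSubgroup K := fun r hr hr' t ht =>
    Subgroup.subset_closure ⟨r, t, hr, ht, hElF_val K Θ hxΘ r hr hr' t⟩
  have hτ0 : ∀ c : K, c ≠ 0 → τ c ≠ 0 := fun c hc => (map_ne_zero τ).mpr hc
  -- the parametrisation
  obtain ⟨F, hF⟩ : ∃ F : K → K → GL chevF4.Idx K, ∀ a b : K, F a b =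
      Θ (hEl chevF4 K 33 (τ b) * hEl chevF4 K 24 b) *
        Θ (hEl chevF4 K 25 (τ (τ a) ^ 2 * (τ (τ (τ a)) ^ 2)⁻¹) *
          hEl chevF4 K 30 (τ (τ (τ a)) ^ 2)) := ⟨_, fun a b => rfl⟩
  have mF : ∀ a b : K, a ≠ 0 → b ≠ 0 →
      ((F a b : GL chevF4.Idx K) : Matrix chevF4.Idx chevF4.Idx K) = dgF (τ b) (τ a) a b := by
    intro a b ha hb
    have e1 : τ (τ (τ a)) ^ 2 = τ a := hτ (τ a)
    rw [hF, e1, hτ a, Units.val_mul, map_mul, map_mul, Units.val_mul, Units.val_mul,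
      hElF_val K Θ hxΘ 33 (by decide) (by decide), hElF_val K Θ hxΘ 24 (by decide) (by decide),
      hElF_val K Θ hxΘ 25 (by decide) (by decide), hElF_val K Θ hxΘ 30 (by decide) (by decide),
      hMat33 _ (hτ0 b hb), hMat24 _ hb,
      hMat25 _ (mul_ne_zero ha (inv_ne_zero (hτ0 a ha))), hMat30 _ (hτ0 a ha),
      dgF_mul, dgF_mul, dgF_mul]
    simp only [mul_one, one_mul]
    rw [inv_mul_cancel_right₀ (hτ0 a ha)]
  have hFmem : ∀ a b : K, a ≠ 0 → b ≠ 0 →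
      F a b ∈ chevF4.diagonalSubgroup K ⊓ twistedF4 K (2 ^ m) := by
    intro a b ha hb
    have hu : τ (τ a) ≠ 0 := hτ0 _ (hτ0 a ha)
    have hv : τ (τ (τ a)) ^ 2 ≠ 0 := pow_ne_zero _ (hτ0 _ hu)
    rw [hF]
    refine ⟨mul_mem ?_ ?_, mul_mem (hTP b) (hTB _ hu)⟩
    · rw [map_mul]
      exact mul_mem (hHel 33 (by decide) (by decide) _ (hτ0 b hb))
        (hHel 24 (by decide) (by decide) _ hb)
    · rw [map_mul]
      exact mul_mem (hHel 25 (by decide) (by decide) _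
        (mul_ne_zero (pow_ne_zero _ hu) (inv_ne_zero hv)))
        (hHel 30 (by decide) (by decide) _ hv)
  have hsurj : ∀ g : GL chevF4.Idx K, g ∈ chevF4.diagonalSubgroup K ⊓ twistedF4 K (2 ^ m) →
      ∃ a b : K, a ≠ 0 ∧ b ≠ 0 ∧ g = F a b := by
    intro g hg
    obtain ⟨c, hc, hgc⟩ := exists_torusDiag (D := chevF4) (by simp) g hg.1
    rw [torusDiagF_cc] at hgc
    have hgc' : (g : Matrix chevF4.Idx chevF4.Idx K) = dgF (c 0) (c 1) (c 2) (c 3) := hgc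
    obtain ⟨wh, hwh⟩ : ∃ wh : chevF4.SteinbergGroup K, wh = hEl chevF4 K 33 (c 0) *
        hEl chevF4 K 27 (c 1) * hEl chevF4 K 25 (c 2) * hEl chevF4 K 24 (c 3) := ⟨_, rfl⟩
    have mwh : ((Θ wh : GL chevF4.Idx K) : Matrix chevF4.Idx chevF4.Idx K) =
        dgF (c 0) (c 1) (c 2) (c 3) := by
      rw [hwh, map_mul, map_mul, map_mul, Units.val_mul, Units.val_mul, Units.val_mul,
        hElF_val K Θ hxΘ 33 (by decide) (by decide), hElF_val K Θ hxΘ 27 (by decide) (by decide),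
        hElF_val K Θ hxΘ 25 (by decide) (by decide), hElF_val K Θ hxΘ 24 (by decide) (by decide),
        hMat33 _ (hc 0), hMat27 _ (hc 1), hMat25 _ (hc 2), hMat24 _ (hc 3),
        dgF_mul, dgF_mul, dgF_mul]
      simp only [mul_one, one_mul]
    have hgw : g = Θ wh := Units.ext (hgc'.trans mwh.symm)
    obtain ⟨w, hw1, hw2⟩ := hfix g hg.2
    have e1 : θ w = θ wh := Subtype.ext (by rw [← hΘ, ← hΘ, hw1, hgw])
    have e2 : θ (ψ w) = θ (ψ wh) := by rw [← hσψ, ← hσψ, e1]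
    have e3 : Θ (ψ wh) = g := by rw [hΘ, ← e2, ← hΘ, hw2]
    have e4 : ψ wh = hEl chevF4 K 24 (τ (c 0) ^ 2) * hEl chevF4 K 25 (τ (c 1) ^ 2) *
        hEl chevF4 K 27 (τ (c 2) ^ 1) * hEl chevF4 K 33 (τ (c 3) ^ 1) := by
      rw [hwh, map_mul, map_mul, map_mul,
        hEl_map chevF4 K rhoF4 lamF4 2 chk_F4 τ ψ hψ 33 (by decide),
        hEl_map chevF4 K rhoF4 lamF4 2 chk_F4 τ ψ hψ 27 (by decide),
        hEl_map chevF4 K rhoF4 lamF4 2 chk_F4 τ ψ hψ 25 (by decide),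
        hEl_map chevF4 K rhoF4 lamF4 2 chk_F4 τ ψ hψ 24 (by decide)]
      rfl
    have m2 : ((Θ (ψ wh) : GL chevF4.Idx K) : Matrix chevF4.Idx chevF4.Idx K) =
        dgF (τ (c 3) ^ 1) (τ (c 2) ^ 1) (τ (c 1) ^ 2) (τ (c 0) ^ 2) := by
      rw [e4, map_mul, map_mul, map_mul, Units.val_mul, Units.val_mul, Units.val_mul,
        hElF_val K Θ hxΘ 24 (by decide) (by decide), hElF_val K Θ hxΘ 25 (by decide) (by decide),
        hElF_val K Θ hxΘ 27 (by decide) (by decide), hElF_val K Θ hxΘ 33 (by decide) (by decide),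
        hMat24 _ (pow_ne_zero _ (hτ0 _ (hc 0))), hMat25 _ (pow_ne_zero _ (hτ0 _ (hc 1))),
        hMat27 _ (pow_ne_zero _ (hτ0 _ (hc 2))), hMat33 _ (pow_ne_zero _ (hτ0 _ (hc 3))),
        dgF_mul, dgF_mul, dgF_mul]
      simp only [mul_one, one_mul]
    have e5 : dgF (τ (c 3) ^ 1) (τ (c 2) ^ 1) (τ (c 1) ^ 2) (τ (c 0) ^ 2) =
        dgF (c 0) (c 1) (c 2) (c 3) := by rw [← m2, e3, hgc']
    obtain ⟨i0, i1, -, -⟩ := dgF_inj _ _ _ _ _ _ _ _ (pow_ne_zero _ (hτ0 _ (hc 3)))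
      (pow_ne_zero _ (hτ0 _ (hc 2))) (pow_ne_zero _ (hτ0 _ (hc 1)))
      (pow_ne_zero _ (hτ0 _ (hc 0))) (hc 0) (hc 1) (hc 2) (hc 3) e5
    refine ⟨c 2, c 3, hc 2, hc 3, Units.ext ?_⟩
    rw [mF _ _ (hc 2) (hc 3), hgc', ← i0, ← i1, pow_one, pow_one]
  -- counting
  obtain ⟨φ, hφ⟩ : ∃ φ : Kˣ × Kˣ → ↥(chevF4.diagonalSubgroup K ⊓ twistedF4 K (2 ^ m)),
      ∀ p, (φ p : GL chevF4.Idx K) = F (p.1 : K) (p.2 : K) :=
    ⟨fun p => ⟨F (p.1 : K) (p.2 : K), hFmem _ _ p.1.ne_zero p.2.ne_zero⟩, fun p => rfl⟩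
  have hφbij : Function.Bijective φ := by
    constructor
    · rintro ⟨a, b⟩ ⟨a', b'⟩ hab
      have h1 : F (a : K) (b : K) = F (a' : K) (b' : K) := by
        rw [← hφ (a, b), ← hφ (a', b'), hab]
      have h3 : dgF (τ (b : K)) (τ (a : K)) (a : K) (b : K) =
          dgF (τ (b' : K)) (τ (a' : K)) (a' : K) (b' : K) := by
        rw [← mF _ _ a.ne_zero b.ne_zero, ← mF _ _ a'.ne_zero b'.ne_zero, h1]
      obtain ⟨-, -, i2, i3⟩ := dgF_inj _ _ _ _ _ _ _ _ (hτ0 _ b.ne_zero) (hτ0 _ a.ne_zero)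
        a.ne_zero b.ne_zero (hτ0 _ b'.ne_zero) (hτ0 _ a'.ne_zero) a'.ne_zero b'.ne_zero h3
      rw [Units.ext i2, Units.ext i3]
    · rintro ⟨g, hg⟩
      obtain ⟨a, b, ha, hb, hgF⟩ := hsurj g hg
      refine ⟨(Units.mk0 a ha, Units.mk0 b hb), Subtype.ext ?_⟩
      rw [hφ]
      exact hgF.symm
  rw [← Nat.card_congr (Equiv.ofBijective φ hφbij), Nat.card_prod, Nat.card_units,
    Nat.card_eq_fintype_card, hK]
  ring

end Cfsg.Agent.H22.TF4
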