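import Cfsg.Agent.H22.TF4Abs
/-!
Two-generation of `²F₄`: the abstract part (helper22).  A torus element `h` acting with the
characters `lam`, `lam⁻¹` on a class-word family and on a commuting additive family, together with
the element `W(1,0) P(1) n`, generates both families and `n`.
-/
set_option autoImplicit false

namespace Cfsg.Agent.H22.TF4

theorem two_gen_abs {K : Type*} [Field K] {Γ : Type*} [Group Γ]
    (S S' : BSys K Γ) (τ : K →+* K) (h2 : (2 : K) = 0) (hτ : ∀ c, τ (τ c) ^ 2 = c)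
    (P P' : K → Γ) (hP : ∀ s t, P (s + t) = P s * P t)
    (hcomm : ∀ t u s, S.W τ t u * P s = P s * S.W τ t u)
    (h n : Γ) (hhc : h * (n * h * n⁻¹) = (n * h * n⁻¹) * h)
    (lam nu nu' : K) (hl0 : lam ≠ 0) (hl1 : lam ≠ 1) (hl3 : lam ^ 2 + lam + 1 ≠ 0)
    (hgen : ∀ x : K, x ≠ 0 → ∃ k : ℕ, x = lam ^ k)
    (hsurj : ∀ y : K, ∃ x : K, τ x * x = y)
    (hn1 : ∀ t u, n * S'.W τ t u * n⁻¹ = S.W τ t u)
    (hn2 : ∀ t, n * P' t * n⁻¹ = P t)
    (hW : ∀ t u, h * S.W τ t u * h⁻¹ = S.W τ (lam * t) (nu * u))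
    (hW' : ∀ t u, h * S'.W τ t u * h⁻¹ = S'.W τ (lam⁻¹ * t) (nu' * u))
    (hPc : ∀ t, h * P t * h⁻¹ = P (lam⁻¹ * t))
    (hPc' : ∀ t, h * P' t * h⁻¹ = P' (lam * t))
    (M : Subgroup Γ) (hM : h ∈ M) (hb : S.W τ 1 0 * P 1 * n ∈ M) :
    (∀ t u, S.W τ t u ∈ M) ∧ (∀ t, P t ∈ M) ∧ n ∈ M := by
  have hP0 : P 0 = 1 := by
    have e := hP 0 0
    rw [add_zero] at e
    exact (mul_left_cancel (a := P 0) (by rw [mul_one]; exact e.symm))
  have hW0 : S.W τ 0 0 = 1 := by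
    have e := S.W_mul τ h2 hτ 0 0 0 0
    simp only [add_zero, map_zero, mul_zero] at e
    exact (mul_left_cancel (a := S.W τ 0 0) (by rw [mul_one]; exact e))
  have hl0' : lam⁻¹ ≠ 0 := inv_ne_zero hl0
  have hl1' : lam + 1 ≠ 0 := fun hh => hl1 (by linear_combination hh - h2)
  -- the product family
  obtain ⟨E, hEdef⟩ : ∃ E : K → K → K → Γ, ∀ t u s, E t u s = S.W τ t u * P s :=
    ⟨_, fun _ _ _ => rfl⟩
  have hEeq : ∀ a b c a' b' c' : K, a = a' → b = b' → c = c' → E a b c = E a' b' c' := by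
    intro a b c a' b' c' h1 h2' h3
    rw [h1, h2', h3]
  have hE : ∀ t u s t' u' s' : K,
      E t u s * E t' u' s' = E (t + t') (u + u' + τ t * t') (s + s') := by
    intro t u s t' u' s'
    rw [hEdef, hEdef, hEdef, ← S.W_mul τ h2 hτ, hP]
    calc S.W τ t u * P s * (S.W τ t' u' * P s')
        = S.W τ t u * (P s * S.W τ t' u') * P s' := by simp only [mul_assoc]
      _ = S.W τ t u * (S.W τ t' u' * P s) * P s' := by rw [hcomm]
      _ = _ := by simp only [mul_assoc]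
  have hEc : ∀ t u s : K, h * E t u s * h⁻¹ = E (lam * t) (nu * u) (lam⁻¹ * s) := by
    intro t u s
    rw [hEdef, hEdef, ← hW, ← hPc]
    group
  obtain ⟨h', hh'⟩ : ∃ h' : Γ, h' = n * h * n⁻¹ := ⟨_, rfl⟩
  have hEc' : ∀ t u s : K, h' * E t u s * h'⁻¹ = E (lam⁻¹ * t) (nu' * u) (lam * s) := by
    intro t u s
    rw [hEdef, hEdef, ← hn1 t u, ← hn1 (lam⁻¹ * t) (nu' * u), ← hW' t u, ← hn2 s,
      ← hn2 (lam * s), ← hPc' s, hh']
    group
  have hcomm' : h * h' * h⁻¹ = h' := by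
    rw [hh', hhc]; group
  -- step 1: an element of the product family in `M`
  obtain ⟨c, hc⟩ : ∃ c : K, c = lam + lam⁻¹ := ⟨_, rfl⟩
  have hc0 : c ≠ 0 := by
    intro h0
    have e : (lam + 1) ^ 2 = 0 := by
      have e1 : lam * c = lam ^ 2 + 1 := by rw [hc]; field_simp
      have e2 : lam ^ 2 + 1 = 0 := by rw [← e1, h0, mul_zero]
      linear_combination e2 + lam * h2
    exact hl1' (pow_eq_zero_iff (by norm_num) |>.mp e)
  have hb' : E 1 0 1 * n ∈ M := by rw [hEdef]; exact hb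
  have hg1 : E 1 0 1 * h' * (E 1 0 1)⁻¹ ∈ M := by
    have e : E 1 0 1 * h' * (E 1 0 1)⁻¹ = (E 1 0 1 * n) * h * (E 1 0 1 * n)⁻¹ := by
      rw [hh']; group
    rw [e]
    exact M.mul_mem (M.mul_mem hb' hM) (M.inv_mem hb')
  have hE1 : h * E 1 0 1 * h⁻¹ = E lam 0 lam⁻¹ := by
    rw [hEc]; exact hEeq _ _ _ _ _ _ (mul_one _) (mul_zero _) (mul_one _)
  obtain ⟨u2, hu2⟩ : ∃ u2 : K, u2 = nu' * (τ lam * (1 + lam)) + τ lam * (lam⁻¹ * (1 + lam)) + τ c :=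
    ⟨_, rfl⟩
  have hA0 : E c u2 c ∈ M := by
    have hF : E lam 0 lam⁻¹ * E (1 + lam) (τ lam * (1 + lam)) (1 + lam⁻¹) = E 1 0 1 := by
      rw [hE]
      refine hEeq _ _ _ _ _ _ ?_ ?_ ?_
      · linear_combination lam * h2
      · linear_combination (τ lam * (1 + lam)) * h2
      · linear_combination lam⁻¹ * h2
    have hF' : h' * E (1 + lam) (τ lam * (1 + lam)) (1 + lam⁻¹) * h'⁻¹ =
        E (lam⁻¹ * (1 + lam)) (nu' * (τ lam * (1 + lam))) (lam * (1 + lam⁻¹)) := hEc' _ _ _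
    have key1 : E c u2 c * E 1 0 1 =
        E lam 0 lam⁻¹ * E (lam⁻¹ * (1 + lam)) (nu' * (τ lam * (1 + lam))) (lam * (1 + lam⁻¹)) := by
      rw [hE, hE]
      refine hEeq _ _ _ _ _ _ ?_ ?_ ?_
      · rw [hc]; field_simp; ring
      · rw [hu2]; simp only [mul_one, zero_add, add_zero]
        linear_combination (τ c) * h2
      · rw [hc]; field_simp; ring
    have e : E c u2 c = h * (E 1 0 1 * h' * (E 1 0 1)⁻¹) * h⁻¹ * (E 1 0 1 * h' * (E 1 0 1)⁻¹)⁻¹ := by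
      have e1 : h * (E 1 0 1 * h' * (E 1 0 1)⁻¹) * h⁻¹ =
          (h * E 1 0 1 * h⁻¹) * (h * h' * h⁻¹) * (h * E 1 0 1 * h⁻¹)⁻¹ := by group
      rw [e1, hE1, hcomm']
      have e2 : E lam 0 lam⁻¹ * h' * (E lam 0 lam⁻¹)⁻¹ * (E 1 0 1 * h' * (E 1 0 1)⁻¹)⁻¹ =
          E lam 0 lam⁻¹ * (h' * ((E lam 0 lam⁻¹)⁻¹ * E 1 0 1) * h'⁻¹) * (E 1 0 1)⁻¹ := by group
      have e3 : (E lam 0 lam⁻¹)⁻¹ * E 1 0 1 = E (1 + lam) (τ lam * (1 + lam)) (1 + lam⁻¹) := by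
        rw [← hF]; group
      rw [e2, e3, hF', ← key1]
      group
    rw [e]
    exact M.mul_mem (M.mul_mem (M.mul_mem hM hg1) (M.inv_mem hM)) (M.inv_mem hg1)
  -- step 2: the set of first and third coordinates
  have hAadd : ∀ x y x' y' : K, (∃ u, E x u y ∈ M) → (∃ u, E x' u y' ∈ M) →
      ∃ u, E (x + x') u (y + y') ∈ M := by
    rintro x y x' y' ⟨u, hu⟩ ⟨u', hu'⟩
    exact ⟨_, by rw [← hE]; exact M.mul_mem hu hu'⟩
  have hAh : ∀ x y : K, (∃ u, E x u y ∈ M) → ∃ u, E (lam * x) u (lam⁻¹ * y) ∈ M := by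
    rintro x y ⟨u, hu⟩
    exact ⟨_, by rw [← hEc]; exact M.mul_mem (M.mul_mem hM hu) (M.inv_mem hM)⟩
  have hApow : ∀ (k : ℕ) (x y : K), (∃ u, E x u y ∈ M) →
      ∃ u, E (lam ^ k * x) u (lam⁻¹ ^ k * y) ∈ M := by
    intro k
    induction k with
    | zero => intro x y hxy; simpa using hxy
    | succ k ih =>
      intro x y hxy
      have h3 := hAh _ _ (ih x y hxy)
      have e1 : lam * (lam ^ k * x) = lam ^ (k + 1) * x := by ring
      have e2 : lam⁻¹ * (lam⁻¹ ^ k * y) = lam⁻¹ ^ (k + 1) * y := by ring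
      rwa [e1, e2] at h3
  have hA1 : ∀ x : K, x ≠ 0 → ∃ u, E x u (c ^ 2 * x⁻¹) ∈ M := by
    intro x hx
    obtain ⟨k, hk⟩ := hgen (x * c⁻¹) (mul_ne_zero hx (inv_ne_zero hc0))
    have h3 := hApow k c c ⟨u2, hA0⟩
    have e1 : lam ^ k * c = x := by rw [← hk]; field_simp
    have e2 : lam⁻¹ ^ k * c = c ^ 2 * x⁻¹ := by
      rw [inv_pow, ← hk]; field_simp
    rwa [e1, e2] at h3
  have hone : (1 : Γ) = E 0 0 0 := by rw [hEdef, hW0, hP0, mul_one]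
  have hA00 : ∃ u, E 0 u 0 ∈ M := ⟨0, by rw [← hone]; exact M.one_mem⟩
  obtain ⟨e, he⟩ : ∃ e : K, e = c ^ 2 * (1 : K)⁻¹ + c ^ 2 * lam⁻¹ + c ^ 2 * (1 + lam)⁻¹ := ⟨_, rfl⟩
  have hl1'' : (1 : K) + lam ≠ 0 := by rw [add_comm]; exact hl1'
  have he0 : e ≠ 0 := by
    have e1 : e * (lam * (1 + lam)) = c ^ 2 * (lam ^ 2 + lam + 1) := by
      rw [he]; field_simp
      linear_combination lam * h2
    intro h0
    rw [h0, zero_mul] at e1
    exact mul_ne_zero (pow_ne_zero 2 hc0) hl3 e1.symm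
  have hA2 : ∃ u, E 0 u e ∈ M := by
    have h3 := hAadd _ _ _ _ (hAadd _ _ _ _ (hA1 1 one_ne_zero) (hA1 lam hl0))
      (hA1 (1 + lam) hl1'')
    have e1 : (1 : K) + lam + (1 + lam) = 0 := by linear_combination (1 + lam) * h2
    rwa [e1, ← he] at h3
  have hA3 : ∀ y : K, ∃ u, E 0 u y ∈ M := by
    intro y
    by_cases hy : y = 0
    · rw [hy]; exact hA00
    · obtain ⟨k, hk⟩ := hgen (e * y⁻¹) (mul_ne_zero he0 (inv_ne_zero hy))
      have h3 := hApow k 0 e hA2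
      have e2 : lam⁻¹ ^ k * e = y := by
        rw [inv_pow, ← hk]; field_simp
      rwa [mul_zero, e2] at h3
  have hA4 : ∀ x : K, ∃ u, E x u 0 ∈ M := by
    intro x
    by_cases hx : x = 0
    · rw [hx]; exact hA00
    · have h3 := hAadd _ _ _ _ (hA1 x hx) (hA3 (c ^ 2 * x⁻¹))
      have e1 : c ^ 2 * x⁻¹ + c ^ 2 * x⁻¹ = 0 := by linear_combination (c ^ 2 * x⁻¹) * h2
      rwa [add_zero, e1] at h3
  -- step 3: the centre
  have hZ : ∀ v : K, S.W τ 0 v ∈ M := by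
    intro v
    obtain ⟨x, hx⟩ := hsurj v
    obtain ⟨u, hu⟩ := hA4 x
    rw [hEdef, hP0, mul_one] at hu
    have h3 := M.mul_mem hu hu
    rw [S.W_mul τ h2 hτ] at h3
    have e1 : x + x = 0 := by linear_combination x * h2
    have e2 : u + u + τ x * x = v := by rw [hx]; linear_combination u * h2
    rwa [e1, e2] at h3
  -- step 4
  have hWm : ∀ t u : K, S.W τ t u ∈ M := by
    intro t u
    obtain ⟨u0, hu0⟩ := hA4 t
    rw [hEdef, hP0, mul_one] at hu0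
    have h3 := M.mul_mem (hZ (u + u0)) hu0
    rw [S.W_mul τ h2 hτ] at h3
    have e1 : (0 : K) + t = t := zero_add t
    have e2 : u + u0 + u0 + τ 0 * t = u := by
      rw [map_zero]; linear_combination u0 * h2
    rwa [e1, e2] at h3
  have hPm : ∀ y : K, P y ∈ M := by
    intro y
    obtain ⟨u, hu⟩ := hA3 y
    rw [hEdef] at hu
    have h3 := M.mul_mem (M.inv_mem (hZ u)) hu
    rwa [inv_mul_cancel_left] at h3
  refine ⟨hWm, hPm, ?_⟩
  have h3 := M.mul_mem (M.inv_mem (M.mul_mem (hWm 1 0) (hPm 1))) hb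
  rwa [inv_mul_cancel_left] at h3

end Cfsg.Agent.H22.TF4
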