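import Cfsg.Agent.H22.TF4Oc
import Cfsg.Agent.H22.TF4Ga
/-!
Two-generation of `²F₄(2^(2m+1))`, `m ≥ 1` (helper22): the torus element
`h_{p₁}(s^θ) h_{p₄}(s) h_b(u²/v) h_{2a+b}(v)` acting by `ζ`, `ζ⁻¹` on the positive class words and
the negative pair words, and the element `W(1,0) P⁻(1) n_{w₀}`.
-/
set_option autoImplicit false
open Cfsg Cfsg.Lie

namespace Cfsg.Agent.H22.TF4

open Cfsg.Agent.H22 Cfsg.Agent.H22.GEx Cfsg.Agent.H23

theorem cokG_27_14 : commOK chevF4 2 27 14 := by decide +kernel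
theorem cokG_27_23 : commOK chevF4 2 27 23 := by decide +kernel
theorem cokG_25_14 : commOK chevF4 2 25 14 := by decide +kernel
theorem cokG_25_23 : commOK chevF4 2 25 23 := by decide +kernel
theorem cokG_28_14 : commOK chevF4 2 28 14 := by decide +kernel
theorem cokG_28_23 : commOK chevF4 2 28 23 := by decide +kernel
theorem cokG_30_14 : commOK chevF4 2 30 14 := by decide +kernel
theorem cokG_30_23 : commOK chevF4 2 30 23 := by decide +kernel

theorem reflW8 : reflW chevF4 (altPB 8).flatten 20 = 27 ∧ reflW chevF4 (altPB 8).flatten 22 = 25 ∧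
    reflW chevF4 (altPB 8).flatten 19 = 28 ∧ reflW chevF4 (altPB 8).flatten 17 = 30 ∧
    reflW chevF4 (altPB 8).flatten 33 = 14 ∧ reflW chevF4 (altPB 8).flatten 24 = 23 := by
  decide +kernel

/-- the character of `h_b(c) h_{2a+b}(d)` on the root `r` -/
def chiB {K : Type*} [Field K] (c d : K) (r : ℕ) : K :=
  c ^ pairZ chevF4 25 r * d ^ pairZ chevF4 30 r

theorem chiB_vals {K : Type*} [Field K] (c d : K) :
    (chiB c d 27 = c⁻¹ * d ∧ chiB c d 25 = c ^ 2 ∧ chiB c d 28 = c * d ∧ chiB c d 30 = d ^ 2) ∧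
    (chiB c d 20 = c * d⁻¹ ∧ chiB c d 22 = (c ^ 2)⁻¹ ∧ chiB c d 19 = c⁻¹ * d⁻¹ ∧
      chiB c d 17 = (d ^ 2)⁻¹) ∧
    (chiB c d 14 = d ∧ chiB c d 23 = c * d ∧ chiB c d 33 = d⁻¹ ∧ chiB c d 24 = c⁻¹ * d⁻¹) := by
  have p1 : pairZ chevF4 25 27 = -1 := by decide +kernel
  have q1 : pairZ chevF4 30 27 = 1 := by decide +kernel
  have p2 : pairZ chevF4 25 25 = 2 := by decide +kernel
  have q2 : pairZ chevF4 30 25 = 0 := by decide +kernel
  have p3 : pairZ chevF4 25 28 = 1 := by decide +kernel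
  have q3 : pairZ chevF4 30 28 = 1 := by decide +kernel
  have p4 : pairZ chevF4 25 30 = 0 := by decide +kernel
  have q4 : pairZ chevF4 30 30 = 2 := by decide +kernel
  have p5 : pairZ chevF4 25 20 = 1 := by decide +kernel
  have q5 : pairZ chevF4 30 20 = -1 := by decide +kernel
  have p6 : pairZ chevF4 25 22 = -2 := by decide +kernel
  have q6 : pairZ chevF4 30 22 = 0 := by decide +kernel
  have p7 : pairZ chevF4 25 19 = -1 := by decide +kernel
  have q7 : pairZ chevF4 30 19 = -1 := by decide +kernel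
  have p8 : pairZ chevF4 25 17 = 0 := by decide +kernel
  have q8 : pairZ chevF4 30 17 = -2 := by decide +kernel
  have p9 : pairZ chevF4 25 14 = 0 := by decide +kernel
  have q9 : pairZ chevF4 30 14 = 1 := by decide +kernel
  have p10 : pairZ chevF4 25 23 = 1 := by decide +kernel
  have q10 : pairZ chevF4 30 23 = 1 := by decide +kernel
  have p11 : pairZ chevF4 25 33 = 0 := by decide +kernel
  have q11 : pairZ chevF4 30 33 = -1 := by decide +kernel
  have p12 : pairZ chevF4 25 24 = -1 := by decide +kernel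
  have q12 : pairZ chevF4 30 24 = -1 := by decide +kernel
  unfold chiB
  rw [p1, q1, p2, q2, p3, q3, p4, q4, p5, q5, p6, q6, p7, q7, p8, q8, p9, q9, p10, q10, p11, q11,
    p12, q12]
  have z2 : ∀ x : K, x ^ (2 : ℤ) = x ^ 2 := fun x => zpow_ofNat x 2
  have zm2 : ∀ x : K, x ^ (-2 : ℤ) = (x ^ 2)⁻¹ := fun x => by rw [zpow_neg, z2]
  refine ⟨⟨?_, ?_, ?_, ?_⟩, ⟨?_, ?_, ?_, ?_⟩, ⟨?_, ?_, ?_, ?_⟩⟩ <;>
    simp only [z2, zm2, zpow_zero, zpow_one, zpow_neg_one, mul_one, one_mul]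

theorem hq_pow {K : Type*} [Field K] [Fintype K] {m : ℕ}
    (hK : Fintype.card K = 2 ^ (2 * m + 1)) (x : K) : x ^ (2 * (2 ^ m) ^ 2) = x := by
  have h := FiniteField.pow_card x
  rw [hK] at h
  have e : 2 ^ (2 * m + 1) = 2 * (2 ^ m) ^ 2 := by ring
  rwa [e] at h

/-- a generator of the multiplicative group -/
theorem exists_gen {K : Type*} [Field K] [Fintype K] {m : ℕ}
    (hK : Fintype.card K = 2 ^ (2 * m + 1)) (hm : 1 ≤ m) :
    ∃ ζ : K, ζ ≠ 0 ∧ ζ ≠ 1 ∧ ζ ^ 2 + ζ + 1 ≠ 0 ∧ ∀ x : K, x ≠ 0 → ∃ k : ℕ, x = ζ ^ k := by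
  obtain ⟨g, hg⟩ := IsCyclic.exists_generator (α := Kˣ)
  have h1 : orderOf g = Nat.card Kˣ := orderOf_eq_card_of_forall_mem_zpowers hg
  rw [Nat.card_units, Nat.card_eq_fintype_card, hK] at h1
  have h8 : 8 ≤ 2 ^ (2 * m + 1) := by
    calc 8 = 2 ^ 3 := by norm_num
      _ ≤ 2 ^ (2 * m + 1) := Nat.pow_le_pow_right (by norm_num) (by omega)
  refine ⟨(g : K), g.ne_zero, ?_, ?_, ?_⟩
  · intro h
    have hg1 : g = 1 := Units.ext h
    rw [hg1, orderOf_one] at h1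
    omega
  · intro h
    have h3 : (g : K) ^ 3 = 1 := by linear_combination ((g : K) - 1) * h
    have hg3 : g ^ 3 = 1 := Units.ext (by rw [Units.val_pow_eq_pow_val, h3, Units.val_one])
    have h5 : orderOf g ≤ 3 := Nat.le_of_dvd (by norm_num) (orderOf_dvd_of_pow_eq_one hg3)
    omega
  · intro x hx
    have hmem : Units.mk0 x hx ∈ Subgroup.zpowers g := hg _
    obtain ⟨k, hk⟩ := (Submonoid.mem_powers_iff _ _).mp (mem_powers_iff_mem_zpowers.mpr hmem)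
    refine ⟨k, ?_⟩
    have h3 := congrArg (fun y : Kˣ => (y : K)) hk
    simp only [Units.val_pow_eq_pow_val, Units.val_mk0] at h3
    exact h3.symm

/-- `t ↦ t^θ t` is onto -/
theorem tau_surj {K : Type*} [Field K] [Fintype K] {m : ℕ}
    (hK : Fintype.card K = 2 ^ (2 * m + 1)) (τ : K →+* K) (τ_eq : ∀ c : K, τ c = c ^ 2 ^ m)
    (y : K) : ∃ x : K, τ x * x = y := by
  by_cases hy : y = 0
  · exact ⟨0, by rw [hy, map_zero, zero_mul]⟩
  · obtain ⟨T', hT'⟩ : ∃ T', 2 ^ m = T' + 1 :=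
      ⟨2 ^ m - 1, by have := Nat.one_le_two_pow (n := m); omega⟩
    refine ⟨(y ^ (2 * T'))⁻¹, ?_⟩
    have hq := hq_pow hK y
    rw [hT'] at hq
    have e : 2 * (T' + 1) ^ 2 = 2 * T' * (T' + 1 + 1) + 1 + 1 := by ring
    rw [e, pow_succ, pow_succ] at hq
    have h1 : y ^ (2 * T' * (T' + 1 + 1)) * y = 1 := by
      apply mul_right_cancel₀ hy
      rw [one_mul]; exact hq
    rw [τ_eq, hT', ← pow_succ, inv_pow, ← pow_mul]
    exact inv_eq_of_mul_eq_one_right h1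

/-- the arithmetic behind the choice of the torus element -/
theorem key_arith {K : Type*} [Field K] [Fintype K] {m : ℕ}
    (hK : Fintype.card K = 2 ^ (2 * m + 1)) (ζ : K) :
    (ζ ^ (4 * (2 ^ m) ^ 3 + 3 * (2 ^ m) ^ 2)) ^ 6 =
      ζ * ((ζ ^ (4 * (2 ^ m) ^ 3 + 3 * (2 ^ m) ^ 2)) ^ 2 ^ m) ^ 8 := by
  have hq := hq_pow hK ζ
  have hq2 := hq_pow hK (ζ ^ (2 * (2 ^ m) ^ 2))
  generalize 2 ^ m = T at hq hq2 ⊢
  rw [← pow_mul, ← pow_mul, ← pow_mul]
  have e1 : (4 * T ^ 3 + 3 * T ^ 2) * 6 = 24 * T ^ 3 + (2 * T ^ 2) * 9 := by ring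
  have e2 : (4 * T ^ 3 + 3 * T ^ 2) * (T * 8) = 24 * T ^ 3 + (2 * T ^ 2) * (2 * T ^ 2) * 8 := by
    ring
  have a1 : ζ ^ (2 * T ^ 2 * 9) = ζ ^ 9 := by rw [pow_mul, hq]
  have a2 : ζ ^ (2 * T ^ 2 * (2 * T ^ 2) * 8) = ζ ^ 8 := by rw [pow_mul, pow_mul, hq, hq]
  rw [e1, e2, pow_add, pow_add, a1, a2]
  ring

section GLsec

variable (K : Type*) [Field K] (Θ : chevF4.SteinbergGroup K →* GL chevF4.Idx K)

/-- the torus element `h_b(c) h_{2a+b}(d)` -/
def hb (c d : K) : GL chevF4.Idx K := Θ (hEl chevF4 K 25 c * hEl chevF4 K 30 d)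

/-- an element acting on the root elements by a character acts on the positive class words -/
theorem conj_W_pos [CharP K 2] (τ : K →+* K) (g : GL chevF4.Idx K) (χ : ℕ → K)
    (hχ : ∀ r, r < chevF4.nroots → ∀ t : K, g * xf K Θ r t * g⁻¹ = xf K Θ r (χ r * t))
    (lam nu : K) (e27 : χ 27 = τ lam) (e25 : χ 25 = lam) (e28 : χ 28 = nu)
    (e30 : χ 30 = τ nu ^ 2) (enu : nu = τ lam * lam) (t u : K) :
    g * (sysP K Θ).W τ t u * g⁻¹ = (sysP K Θ).W τ (lam * t) (nu * u) := by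
  show g * (xf K Θ 27 (τ t) * xf K Θ 25 t * (xf K Θ 28 (τ t * t + u) * xf K Θ 30 (τ u ^ 2))) *
      g⁻¹ = xf K Θ 27 (τ (lam * t)) * xf K Θ 25 (lam * t) *
        (xf K Θ 28 (τ (lam * t) * (lam * t) + nu * u) * xf K Θ 30 (τ (nu * u) ^ 2))
  have em : ∀ x y : GL chevF4.Idx K, g * (x * y) * g⁻¹ = (g * x * g⁻¹) * (g * y * g⁻¹) :=
    fun x y => by group
  have a1 : τ lam * τ t = τ (lam * t) := by rw [map_mul]
  have a2 : nu * (τ t * t + u) = τ (lam * t) * (lam * t) + nu * u := by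
    rw [map_mul, enu]; ring
  have a3 : τ nu ^ 2 * τ u ^ 2 = τ (nu * u) ^ 2 := by rw [map_mul]; ring
  rw [em, em, em, hχ 27 (by decide), hχ 25 (by decide), hχ 28 (by decide), hχ 30 (by decide),
    e27, e25, e28, e30, a1, a2, a3]

/-- an element acting on the root elements by a character acts on the negative class words -/
theorem conj_W_neg [CharP K 2] (τ : K →+* K) (g : GL chevF4.Idx K) (χ : ℕ → K)
    (hχ : ∀ r, r < chevF4.nroots → ∀ t : K, g * xf K Θ r t * g⁻¹ = xf K Θ r (χ r * t))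
    (lam nu : K) (e20 : χ 20 = τ lam) (e22 : χ 22 = lam) (e19 : χ 19 = nu)
    (e17 : χ 17 = τ nu ^ 2) (enu : nu = τ lam * lam) (t u : K) :
    g * (sysM K Θ).W τ t u * g⁻¹ = (sysM K Θ).W τ (lam * t) (nu * u) := by
  show g * (xf K Θ 20 (τ t) * xf K Θ 22 t * (xf K Θ 19 (τ t * t + u) * xf K Θ 17 (τ u ^ 2))) *
      g⁻¹ = xf K Θ 20 (τ (lam * t)) * xf K Θ 22 (lam * t) *
        (xf K Θ 19 (τ (lam * t) * (lam * t) + nu * u) * xf K Θ 17 (τ (nu * u) ^ 2))
  have em : ∀ x y : GL chevF4.Idx K, g * (x * y) * g⁻¹ = (g * x * g⁻¹) * (g * y * g⁻¹) :=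
    fun x y => by group
  have a1 : τ lam * τ t = τ (lam * t) := by rw [map_mul]
  have a2 : nu * (τ t * t + u) = τ (lam * t) * (lam * t) + nu * u := by
    rw [map_mul, enu]; ring
  have a3 : τ nu ^ 2 * τ u ^ 2 = τ (nu * u) ^ 2 := by rw [map_mul]; ring
  rw [em, em, em, hχ 20 (by decide), hχ 22 (by decide), hχ 19 (by decide), hχ 17 (by decide),
    e20, e22, e19, e17, a1, a2, a3]

theorem conj_Pm (τ : K →+* K) (g : GL chevF4.Idx K) (χ : ℕ → K)
    (hχ : ∀ r, r < chevF4.nroots → ∀ t : K, g * xf K Θ r t * g⁻¹ = xf K Θ r (χ r * t))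
    (mu : K) (e14 : χ 14 = τ mu) (e23 : χ 23 = mu) (t : K) :
    g * Pm K Θ τ t * g⁻¹ = Pm K Θ τ (mu * t) := by
  unfold Pm
  have em : ∀ x y : GL chevF4.Idx K, g * (x * y) * g⁻¹ = (g * x * g⁻¹) * (g * y * g⁻¹) :=
    fun x y => by group
  rw [em, hχ 14 (by decide), hχ 23 (by decide), e14, e23, map_mul]

theorem conj_Pp (τ : K →+* K) (g : GL chevF4.Idx K) (χ : ℕ → K)
    (hχ : ∀ r, r < chevF4.nroots → ∀ t : K, g * xf K Θ r t * g⁻¹ = xf K Θ r (χ r * t))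
    (mu : K) (e33 : χ 33 = τ mu) (e24 : χ 24 = mu) (t : K) :
    g * Pp K Θ τ t * g⁻¹ = Pp K Θ τ (mu * t) := by
  unfold Pp
  have em : ∀ x y : GL chevF4.Idx K, g * (x * y) * g⁻¹ = (g * x * g⁻¹) * (g * y * g⁻¹) :=
    fun x y => by group
  rw [em, hχ 33 (by decide), hχ 24 (by decide), e33, e24, map_mul]

/-- the positive class words commute with the negative pair words -/
theorem W_Pm_comm [CharP K 2] (τ : K →+* K) (t u s : K) :
    (sysP K Θ).W τ t u * Pm K Θ τ s = Pm K Θ τ s * (sysP K Θ).W τ t u := by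
  have c1 : ∀ (k : ℕ) (x : K), commOK chevF4 2 k 14 → commOK chevF4 2 k 23 →
      xf K Θ k x * Pm K Θ τ s = Pm K Θ τ s * xf K Θ k x := by
    intro k x h14 h23
    unfold Pm
    rw [← mul_assoc, ← xf_comm K Θ k 14 h14, mul_assoc, ← xf_comm K Θ k 23 h23, mul_assoc]
  show xf K Θ 27 (τ t) * xf K Θ 25 t * (xf K Θ 28 (τ t * t + u) * xf K Θ 30 (τ u ^ 2)) *
      Pm K Θ τ s = Pm K Θ τ s *
        (xf K Θ 27 (τ t) * xf K Θ 25 t * (xf K Θ 28 (τ t * t + u) * xf K Θ 30 (τ u ^ 2)))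
  have d27 := c1 27 (τ t) cokG_27_14 cokG_27_23
  have d25 := c1 25 t cokG_25_14 cokG_25_23
  have d28 := c1 28 (τ t * t + u) cokG_28_14 cokG_28_23
  have d30 := c1 30 (τ u ^ 2) cokG_30_14 cokG_30_23
  calc xf K Θ 27 (τ t) * xf K Θ 25 t * (xf K Θ 28 (τ t * t + u) * xf K Θ 30 (τ u ^ 2)) *
        Pm K Θ τ s
      = xf K Θ 27 (τ t) * (xf K Θ 25 t * (xf K Θ 28 (τ t * t + u) *
          (xf K Θ 30 (τ u ^ 2) * Pm K Θ τ s))) := by simp only [mul_assoc]
    _ = xf K Θ 27 (τ t) * (xf K Θ 25 t * ((xf K Θ 28 (τ t * t + u) * Pm K Θ τ s) *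
          xf K Θ 30 (τ u ^ 2))) := by rw [d30]; simp only [mul_assoc]
    _ = xf K Θ 27 (τ t) * ((xf K Θ 25 t * Pm K Θ τ s) * (xf K Θ 28 (τ t * t + u) *
          xf K Θ 30 (τ u ^ 2))) := by rw [d28]; simp only [mul_assoc]
    _ = (xf K Θ 27 (τ t) * Pm K Θ τ s) * (xf K Θ 25 t * (xf K Θ 28 (τ t * t + u) *
          xf K Θ 30 (τ u ^ 2))) := by rw [d25]; simp only [mul_assoc]
    _ = _ := by rw [d27]; simp only [mul_assoc]

variable (hx : ∀ (r : ℕ) (t : K), r < chevF4.nroots →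
  ((Θ (chevF4.stGen K r t) : GL chevF4.Idx K) : Matrix chevF4.Idx chevF4.Idx K) = chevF4.x K r t)

include hx

theorem hb_val (c d : K) :
    ((hb K Θ c d : GL chevF4.Idx K) : Matrix chevF4.Idx chevF4.Idx K) =
      chevF4.hMat K 25 c * chevF4.hMat K 30 d := by
  unfold hb
  rw [map_mul, Units.val_mul, hElF_val K Θ hx 25 (by decide) (by decide),
    hElF_val K Θ hx 30 (by decide) (by decide)]

theorem hb_conj (c d : K) (hc : c ≠ 0) (hd : d ≠ 0) (r : ℕ) (hr : r < chevF4.nroots) (t : K) :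
    hb K Θ c d * xf K Θ r t * (hb K Θ c d)⁻¹ = xf K Θ r (chiB c d r * t) := by
  have hD : chevF4 ∈ [chevG2, chevB2, chevD4, chevF4, chevE6, chevE7, chevE8] := by simp
  have e : hb K Θ c d * xf K Θ r t = xf K Θ r (chiB c d r * t) * hb K Θ c d := by
    apply Units.ext
    rw [Units.val_mul, Units.val_mul, xf_val K Θ hx r hr, xf_val K Θ hx r hr, hb_val K Θ hx,
      mul_assoc, hMat_mul_x chevF4 hD 30 r (by decide) hr d hd, ← mul_assoc,
      hMat_mul_x chevF4 hD 25 r (by decide) hr c hc, mul_assoc]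
    unfold chiB
    rw [mul_assoc]
  rw [e, mul_inv_cancel_right]

/-- the longest element of the twisted Weyl group maps root elements to the opposite ones -/
theorem rep8_conj [CharP K 2] (r r' : ℕ) (hr : r < chevF4.nroots) (hr' : r' < chevF4.nroots)
    (hrr : reflW chevF4 (altPB 8).flatten r = r') (t : K) :
    repW K 8 * xf K Θ r t * (repW K 8)⁻¹ = xf K Θ r' t := by
  have hP := packF K
  obtain ⟨c, hc, hcj⟩ := nWU_conj hP.sem hP.semN hP.tab (altPB 8).flatten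
    (blocks_lt _ (altPB_blocks 8)) r hr
  have e1 : xf K Θ r t = xU hP.sem r t := Units.ext (by rw [xf_val K Θ hx r hr]; rfl)
  have e2 : xf K Θ r' t = xU hP.sem r' t := Units.ext (by rw [xf_val K Θ hx r' hr']; rfl)
  have hc1 : c = 1 := by
    rcases hc with h | h
    · exact h
    · rw [h]; exact CharTwo.neg_eq 1
  have h3 := hcj t
  rw [hrr, hc1, one_mul] at h3
  rw [e1, e2]
  exact h3

theorem rep8_W [CharP K 2] (τ : K →+* K) (t u : K) :
    repW K 8 * (sysM K Θ).W τ t u * (repW K 8)⁻¹ = (sysP K Θ).W τ t u := by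
  show repW K 8 * (xf K Θ 20 (τ t) * xf K Θ 22 t *
      (xf K Θ 19 (τ t * t + u) * xf K Θ 17 (τ u ^ 2))) * (repW K 8)⁻¹ =
    xf K Θ 27 (τ t) * xf K Θ 25 t * (xf K Θ 28 (τ t * t + u) * xf K Θ 30 (τ u ^ 2))
  have em : ∀ x y : GL chevF4.Idx K, repW K 8 * (x * y) * (repW K 8)⁻¹ =
      (repW K 8 * x * (repW K 8)⁻¹) * (repW K 8 * y * (repW K 8)⁻¹) := fun x y => by group
  obtain ⟨r20, r22, r19, r17, -, -⟩ := reflW8
  rw [em, em, em, rep8_conj K Θ hx 20 27 (by decide) (by decide) r20,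
    rep8_conj K Θ hx 22 25 (by decide) (by decide) r22,
    rep8_conj K Θ hx 19 28 (by decide) (by decide) r19,
    rep8_conj K Θ hx 17 30 (by decide) (by decide) r17]

theorem rep8_P [CharP K 2] (τ : K →+* K) (t : K) :
    repW K 8 * Pp K Θ τ t * (repW K 8)⁻¹ = Pm K Θ τ t := by
  unfold Pp Pm
  have em : ∀ x y : GL chevF4.Idx K, repW K 8 * (x * y) * (repW K 8)⁻¹ =
      (repW K 8 * x * (repW K 8)⁻¹) * (repW K 8 * y * (repW K 8)⁻¹) := fun x y => by group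
  obtain ⟨-, -, -, -, r33, r24⟩ := reflW8
  rw [em, rep8_conj K Θ hx 33 14 (by decide) (by decide) r33,
    rep8_conj K Θ hx 24 23 (by decide) (by decide) r24]

end GLsec

end Cfsg.Agent.H22.TF4
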