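import Cfsg.Agent.H22.TF4Oc
import Cfsg.Agent.H22.TF4Gb
/-!
The twisted group `²F₄`: the unipotent subgroup `U ∩ ²F₄` is generated by elements whose squares
lie in its derived subgroup (helper22).
-/
set_option autoImplicit false
open Cfsg Cfsg.Lie

namespace Cfsg.Agent.H22.TF4

open Cfsg.Agent.H22 Cfsg.Agent.H22.GEx

open Cfsg.Agent.H23
open scoped commutatorElement

theorem pos_tabP : ∀ j ∈ [0, 2, 4, 6], ∀ r ∈ [33, 24],
    chevF4.IsPosRoot (reflW chevF4 (altPB j).flatten r) := by decide +kernel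

theorem pos_tabB : ∀ j ∈ [1, 3, 5, 7], ∀ r ∈ [27, 25, 28, 30],
    chevF4.IsPosRoot (reflW chevF4 (altPB j).flatten r) := by decide +kernel

/-- the commutator of two class words -/
theorem BSys.W_comm {K : Type*} [Field K] {Γ : Type*} [Group Γ] (S : BSys K Γ) (τ : K →+* K)
    (h2 : (2 : K) = 0) (hτ : ∀ c, τ (τ c) ^ 2 = c) (c d : K) :
    S.W τ c 0 * S.W τ d 0 * (S.W τ c 0)⁻¹ * (S.W τ d 0)⁻¹ = S.W τ 0 (τ c * d + τ d * c) := by
  have e : S.W τ c 0 * S.W τ d 0 = S.W τ 0 (τ c * d + τ d * c) * (S.W τ d 0 * S.W τ c 0) := by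
    rw [S.W_mul τ h2 hτ, S.W_mul τ h2 hτ, S.W_mul τ h2 hτ]
    have e1 : (0 : K) + (d + c) = c + d := by ring
    have e2 : τ c * d + τ d * c + (0 + 0 + τ d * c) + τ 0 * (d + c) = 0 + 0 + τ c * d := by
      rw [map_zero]; linear_combination (τ d * c) * h2
    rw [e1, e2]
  rw [e]
  group

/-- the square of a class word -/
theorem BSys.W_sq {K : Type*} [Field K] {Γ : Type*} [Group Γ] (S : BSys K Γ) (τ : K →+* K)
    (h2 : (2 : K) = 0) (hτ : ∀ c, τ (τ c) ^ 2 = c) (t u : K) :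
    S.W τ t u * S.W τ t u = S.W τ 0 (τ t * t) := by
  rw [S.W_mul τ h2 hτ]
  have e1 : t + t = 0 := by linear_combination t * h2
  have e2 : u + u + τ t * t = τ t * t := by linear_combination u * h2
  rw [e1, e2]

namespace Ctx4

variable {K : Type*} [Field K] [CharP K 2] {e : ℕ} (C : Ctx4 K e)

/-- the peeling step: surjectivity -/
theorem step_surj (w L : List ℕ) (hw : ∀ i ∈ w, i < chevF4.rank) (hneg : NegChain chevF4 w L)
    (hnw : C.Fx (nWU (packF K).sem w)) (hnL : C.Fx (nWU (packF K).sem L))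
    {P : Type*} (Xf : P → GL chevF4.Idx K)
    (hσX : ∀ l : List K, l.length = L.length →
      ∃ hG : XL (packF K).sem L l ∈ chevF4.group K, ∃ l' : List K, l'.length = L.length ∧
        (C.σ ⟨XL (packF K).sem L l, hG⟩ : GL chevF4.Idx K) = XL (packF K).sem L l')
    (hfixX : ∀ l : List K, l.length = L.length → C.Fx (XL (packF K).sem L l) →
      ∃ p, XL (packF K).sem L l = Xf p) :
    ∀ u ∈ C.FS w, ∃ u' ∈ C.FS (w ++ L), ∃ p : P,
      u = nWU (packF K).sem L * u' * (nWU (packF K).sem L)⁻¹ * Xf p := by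
  have hP := packF K
  have hV := semVF K
  have hS := hP.sem
  have hnwL : C.Fx (nWU hS (w ++ L)) := by rw [nWU_append]; exact hnw.mul hnL
  rintro u ⟨huU, hGu, hfu⟩
  obtain ⟨u', hu', l, hl, hu⟩ := gpeel_exists hP hV tabT_F4 tabL_F4 L w hw hneg u huU
  obtain ⟨hGX, l', hl', hσl⟩ := hσX l hl
  obtain ⟨hGL, hfL⟩ := hnL
  obtain ⟨hGwL, hfwL⟩ := hnwL
  obtain ⟨ug, hug⟩ : ∃ ug : ↥(chevF4.group K), ug =
      (⟨nWU hS L, hGL⟩ : ↥(chevF4.group K))⁻¹ * ⟨u, hGu⟩ *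
        (⟨XL hS L l, hGX⟩ : ↥(chevF4.group K))⁻¹ * ⟨nWU hS L, hGL⟩ := ⟨_, rfl⟩
  have hugc : (ug : GL chevF4.Idx K) = u' := by
    rw [hug]
    show (nWU hS L)⁻¹ * u * (XL hS L l)⁻¹ * nWU hS L = u'
    rw [hu]; group
  have hσug : (C.σ ug : GL chevF4.Idx K) =
      (nWU hS L)⁻¹ * u * (XL hS L l')⁻¹ * nWU hS L := by
    rw [hug, map_mul, map_mul, map_mul, map_inv, map_inv, hfL, hfu]
    show (nWU hS L)⁻¹ * u * ((C.σ ⟨XL hS L l, hGX⟩ : ↥(chevF4.group K)) :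
      GL chevF4.Idx K)⁻¹ * nWU hS L = _
    rw [hσl]
  have hmem : (C.σ ug : GL chevF4.Idx K) ∈ UmG chevF4 K (nWU hS (w ++ L)) := by
    have h1 := C.sig_UmG ⟨nWU hS (w ++ L), hGwL⟩ ug (by rw [hugc]; exact hu')
    rw [hfwL] at h1
    exact h1
  have e2 : nWU hS L * u' * (nWU hS L)⁻¹ * XL hS L l =
      nWU hS L * (C.σ ug : GL chevF4.Idx K) * (nWU hS L)⁻¹ * XL hS L l' := by
    rw [← hu, hσug]; group
  obtain ⟨h3, h4⟩ := gpeel_unique hP hV L w hw hneg u' hu' _ hmem l l' hl hl' e2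
  have hfu' : C.Fx u' := by
    refine ⟨by rw [← hugc]; exact ug.2, ?_⟩
    have e3 : (⟨u', by rw [← hugc]; exact ug.2⟩ : ↥(chevF4.group K)) = ug :=
      Subtype.ext hugc.symm
    rw [e3]
    exact Subtype.ext (by rw [← h3, hugc])
  have hfX : C.Fx (XL hS L l) :=
    ⟨hGX, Subtype.ext (hσl.trans (congrArg (XL hS L) h4).symm)⟩
  obtain ⟨p, hp⟩ := hfixX l hl hfX
  exact ⟨u', ⟨hu', hfu'⟩, p, by rw [← hp]; exact hu⟩

theorem surjP (w : List ℕ) (hw : ∀ i ∈ w, i < chevF4.rank) (hneg : NegChain chevF4 w LP)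
    (hnw : C.Fx (nWU (packF K).sem w)) :
    ∀ u ∈ C.FS w, ∃ u' ∈ C.FS (w ++ LP), ∃ t : K,
      u = nWU (packF K).sem LP * u' * (nWU (packF K).sem LP)⁻¹ * Pp K C.Θ C.τ t := by
  have hXf : ∀ t : K, Pp K C.Θ C.τ t = XL (packF K).sem LP [C.τ t, t] := by
    intro t
    rw [C.XL_LP]
    exact (xf_comm K C.Θ 33 24 cokF_33_24 _ _).symm
  exact C.step_surj w LP hw hneg hnw C.Fx_nLP (P := K) (fun t => Pp K C.Θ C.τ t)
    (by
      intro l hl
      obtain ⟨t₁, t₂, rfl⟩ := len2 l hl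
      obtain ⟨hG, h⟩ := C.sig_XLP t₁ t₂
      exact ⟨hG, _, rfl, h⟩)
    (by
      intro l hl hfx
      obtain ⟨t₁, t₂, rfl⟩ := len2 l hl
      obtain ⟨hG, h⟩ := C.sig_XLP t₁ t₂
      obtain ⟨hG', h'⟩ := hfx
      have e1 : XL (packF K).sem LP [C.τ t₂, C.τ t₁ ^ 2] = XL (packF K).sem LP [t₁, t₂] := by
        rw [← h, h']
      have e2 := XL_inj (K := K) w LP hw hneg _ _ rfl rfl e1
      have e3 : C.τ t₂ = t₁ := (List.cons.inj e2).1
      exact ⟨t₂, by rw [hXf, e3]⟩)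

theorem surjB (w : List ℕ) (hw : ∀ i ∈ w, i < chevF4.rank) (hneg : NegChain chevF4 w LB)
    (hnw : C.Fx (nWU (packF K).sem w)) :
    ∀ u ∈ C.FS w, ∃ u' ∈ C.FS (w ++ LB), ∃ p : K × K,
      u = nWU (packF K).sem LB * u' * (nWU (packF K).sem LB)⁻¹ *
        (sysP K C.Θ).W C.τ p.1 p.2 := by
  have hXf : ∀ p : K × K, (sysP K C.Θ).W C.τ p.1 p.2 =
      XL (packF K).sem LB [p.1, C.τ p.1 * p.1 + p.2, C.τ p.2 ^ 2, C.τ p.1] := by
    intro p
    rw [C.XL_LB]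
    rfl
  exact C.step_surj w LB hw hneg hnw C.Fx_nLB (P := K × K)
    (fun p => (sysP K C.Θ).W C.τ p.1 p.2)
    (by
      intro l hl
      obtain ⟨t₁, t₂, t₃, t₄, rfl⟩ := len4 l hl
      obtain ⟨hG, h⟩ := C.sig_XLB t₁ t₂ t₃ t₄
      exact ⟨hG, _, rfl, h⟩)
    (by
      intro l hl hfx
      obtain ⟨t₁, t₂, t₃, t₄, rfl⟩ := len4 l hl
      obtain ⟨hG, h⟩ := C.sig_XLB t₁ t₂ t₃ t₄
      obtain ⟨hG', h'⟩ := hfx
      have e1 : XL (packF K).sem LB [C.τ t₄ ^ 2, C.τ t₁ * C.τ t₄ ^ 2 + C.τ t₃,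
          C.τ t₁ ^ 2 * C.τ t₄ ^ 2 + C.τ t₂ ^ 2, C.τ t₁] =
          XL (packF K).sem LB [t₁, t₂, t₃, t₄] := by
        rw [← h, h']
      have e2 := XL_inj (K := K) w LB hw hneg _ _ rfl rfl e1
      have q1 : C.τ t₄ ^ 2 = t₁ := (List.cons.inj e2).1
      have q2 : C.τ t₁ * C.τ t₄ ^ 2 + C.τ t₃ = t₂ := (List.cons.inj (List.cons.inj e2).2).1
      have q4 : C.τ t₁ = t₄ :=
        (List.cons.inj (List.cons.inj (List.cons.inj (List.cons.inj e2).2).2).2).1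
      refine ⟨(t₁, C.τ t₃), ?_⟩
      rw [hXf]
      show _ = XL (packF K).sem LB [t₁, C.τ t₁ * t₁ + C.τ t₃, C.τ (C.τ t₃) ^ 2, C.τ t₁]
      rw [C.hτ, q4, ← q2, q1, q4])

/-- conjugation of a root element by a representative of the twisted Weyl group -/
theorem rep_conj (j r r' : ℕ) (hr : r < chevF4.nroots) (hr' : r' < chevF4.nroots)
    (hrr : reflW chevF4 (altPB j).flatten r = r') (t : K) :
    repW K j * xf K C.Θ r t * (repW K j)⁻¹ = xf K C.Θ r' t := by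
  have hP := packF K
  obtain ⟨c, hc, hcj⟩ := nWU_conj hP.sem hP.semN hP.tab (altPB j).flatten
    (blocks_lt _ (altPB_blocks j)) r hr
  have e1 : xf K C.Θ r t = xU hP.sem r t := Units.ext (by rw [xf_val K C.Θ C.hxΘ r hr]; rfl)
  have e2 : xf K C.Θ r' t = xU hP.sem r' t :=
    Units.ext (by rw [xf_val K C.Θ C.hxΘ r' hr']; rfl)
  have hc1 : c = 1 := by
    rcases hc with h | h
    · exact h
    · rw [h]; exact CharTwo.neg_eq 1
  have h3 := hcj t
  rw [hrr, hc1, one_mul] at h3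
  rw [e1, e2]
  exact h3

/-- a conjugate of a positive-root element by a representative, when the image root is positive,
lies in `U` -/
theorem rep_conj_mem (j r : ℕ) (hr : r < chevF4.nroots)
    (hpos : chevF4.IsPosRoot (reflW chevF4 (altPB j).flatten r)) (t : K) :
    repW K j * xf K C.Θ r t * (repW K j)⁻¹ ∈ chevF4.posUnipotent K := by
  rw [C.rep_conj j r _ hr hpos.1 rfl t]
  exact C.xg_mem_U _ hpos t

theorem rep_Pp_mem (j : ℕ)
    (hpos : ∀ r ∈ [33, 24], chevF4.IsPosRoot (reflW chevF4 (altPB j).flatten r)) (t : K) :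
    repW K j * Pp K C.Θ C.τ t * (repW K j)⁻¹ ∈ chevF4.posUnipotent K ⊓ twistedF4 K e := by
  refine Subgroup.mem_inf.mpr ⟨?_, mul_mem (mul_mem (C.rep_mem j) (C.Pp_mem t))
    (inv_mem (C.rep_mem j))⟩
  have em : ∀ x y : GL chevF4.Idx K, repW K j * (x * y) * (repW K j)⁻¹ =
      (repW K j * x * (repW K j)⁻¹) * (repW K j * y * (repW K j)⁻¹) := fun x y => by group
  unfold Pp
  rw [em]
  exact mul_mem (C.rep_conj_mem j 33 (by decide) (hpos 33 (by simp)) _)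
    (C.rep_conj_mem j 24 (by decide) (hpos 24 (by simp)) _)

theorem rep_W_mem (j : ℕ)
    (hpos : ∀ r ∈ [27, 25, 28, 30], chevF4.IsPosRoot (reflW chevF4 (altPB j).flatten r))
    (t u : K) :
    repW K j * (sysP K C.Θ).W C.τ t u * (repW K j)⁻¹ ∈
      chevF4.posUnipotent K ⊓ twistedF4 K e := by
  refine Subgroup.mem_inf.mpr ⟨?_, mul_mem (mul_mem (C.rep_mem j) (C.Bp_mem t u))
    (inv_mem (C.rep_mem j))⟩
  have em : ∀ x y : GL chevF4.Idx K, repW K j * (x * y) * (repW K j)⁻¹ =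
      (repW K j * x * (repW K j)⁻¹) * (repW K j * y * (repW K j)⁻¹) := fun x y => by group
  show repW K j * (xf K C.Θ 27 (C.τ t) * xf K C.Θ 25 t *
      (xf K C.Θ 28 (C.τ t * t + u) * xf K C.Θ 30 (C.τ u ^ 2))) * (repW K j)⁻¹ ∈ _
  rw [em, em, em]
  exact mul_mem (mul_mem (C.rep_conj_mem j 27 (by decide) (hpos 27 (by simp)) _)
    (C.rep_conj_mem j 25 (by decide) (hpos 25 (by simp)) _))
    (mul_mem (C.rep_conj_mem j 28 (by decide) (hpos 28 (by simp)) _)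
      (C.rep_conj_mem j 30 (by decide) (hpos 30 (by simp)) _))

/-- the generating set: elements of `U ∩ ²F₄` with square in the derived subgroup -/
def sqGen : Set (GL chevF4.Idx K) :=
  {t | t ∈ chevF4.posUnipotent K ⊓ twistedF4 K e ∧
    t ^ 2 ∈ ⁅chevF4.posUnipotent K ⊓ twistedF4 K e, chevF4.posUnipotent K ⊓ twistedF4 K e⁆}

include C in
theorem gen_P (j : ℕ)
    (hpos : ∀ r ∈ [33, 24], chevF4.IsPosRoot (reflW chevF4 (altPB j).flatten r)) (t : K) :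
    repW K j * Pp K C.Θ C.τ t * (repW K j)⁻¹ ∈ Subgroup.closure (sqGen (K := K) (e := e)) := by
  refine Subgroup.subset_closure ⟨C.rep_Pp_mem j hpos t, ?_⟩
  have h0 : Pp K C.Θ C.τ 0 = 1 := by
    have e0 := Pp_add K C.Θ C.τ 0 0
    rw [add_zero] at e0
    exact (mul_left_cancel (a := Pp K C.Θ C.τ 0) (by rw [mul_one]; exact e0.symm))
  have e1 : (repW K j * Pp K C.Θ C.τ t * (repW K j)⁻¹) ^ 2 = 1 := by
    rw [pow_two]
    have e2 : repW K j * Pp K C.Θ C.τ t * (repW K j)⁻¹ *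
        (repW K j * Pp K C.Θ C.τ t * (repW K j)⁻¹) =
        repW K j * (Pp K C.Θ C.τ t * Pp K C.Θ C.τ t) * (repW K j)⁻¹ := by group
    rw [e2, ← Pp_add, CharTwo.add_self_eq_zero, h0]
    group
  rw [e1]
  exact one_mem _

include C in
theorem gen_B (hne : ∃ c₀ : K, C.τ c₀ + c₀ ≠ 0) (hsurj : ∀ y : K, ∃ x : K, C.τ x * x = y)
    (j : ℕ)
    (hpos : ∀ r ∈ [27, 25, 28, 30], chevF4.IsPosRoot (reflW chevF4 (altPB j).flatten r))
    (t u : K) :
    repW K j * (sysP K C.Θ).W C.τ t u * (repW K j)⁻¹ ∈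
      Subgroup.closure (sqGen (K := K) (e := e)) := by
  have h2 : (2 : K) = 0 := CharTwo.two_eq_zero
  refine Subgroup.subset_closure ⟨C.rep_W_mem j hpos t u, ?_⟩
  obtain ⟨c₀, hc₀⟩ := hne
  obtain ⟨lam, hlam⟩ := hsurj (C.τ t * t * (C.τ c₀ + c₀)⁻¹)
  have hv : C.τ (lam * c₀) * lam + C.τ lam * (lam * c₀) = C.τ t * t := by
    have e1 : C.τ (lam * c₀) * lam + C.τ lam * (lam * c₀) = C.τ lam * lam * (C.τ c₀ + c₀) := by
      rw [map_mul]; ring
    rw [e1, hlam, inv_mul_cancel_right₀ hc₀]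
  have e1 : (repW K j * (sysP K C.Θ).W C.τ t u * (repW K j)⁻¹) ^ 2 =
      ⁅repW K j * (sysP K C.Θ).W C.τ (lam * c₀) 0 * (repW K j)⁻¹,
        repW K j * (sysP K C.Θ).W C.τ lam 0 * (repW K j)⁻¹⁆ := by
    rw [pow_two, commutatorElement_def]
    have e2 : repW K j * (sysP K C.Θ).W C.τ t u * (repW K j)⁻¹ *
        (repW K j * (sysP K C.Θ).W C.τ t u * (repW K j)⁻¹) =
        repW K j * ((sysP K C.Θ).W C.τ t u * (sysP K C.Θ).W C.τ t u) * (repW K j)⁻¹ := by group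
    have e3 : repW K j * (sysP K C.Θ).W C.τ (lam * c₀) 0 * (repW K j)⁻¹ *
        (repW K j * (sysP K C.Θ).W C.τ lam 0 * (repW K j)⁻¹) *
        (repW K j * (sysP K C.Θ).W C.τ (lam * c₀) 0 * (repW K j)⁻¹)⁻¹ *
        (repW K j * (sysP K C.Θ).W C.τ lam 0 * (repW K j)⁻¹)⁻¹ =
        repW K j * ((sysP K C.Θ).W C.τ (lam * c₀) 0 * (sysP K C.Θ).W C.τ lam 0 *
          ((sysP K C.Θ).W C.τ (lam * c₀) 0)⁻¹ * ((sysP K C.Θ).W C.τ lam 0)⁻¹) *
          (repW K j)⁻¹ := by group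
    rw [e2, e3, BSys.W_sq _ C.τ h2 C.hτ, BSys.W_comm _ C.τ h2 C.hτ, hv]
  rw [e1]
  exact Subgroup.commutator_mem_commutator (C.rep_W_mem j hpos _ _) (C.rep_W_mem j hpos _ _)

/-- one step of the induction, pair block -/
theorem genStepP (j : ℕ) (hj : j % 2 = 0) (hlt : ∀ i ∈ Vw j, i < chevF4.rank)
    (hneg : NegChain chevF4 (Vw j) LP) (hsucc : Vw (j + 1) = Vw j ++ LP)
    (hfx : C.Fx (nWU (packF K).sem (Vw j)))
    (hpos : ∀ r ∈ [33, 24], chevF4.IsPosRoot (reflW chevF4 (altPB j).flatten r))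
    (hQ : ∀ u ∈ C.FS (Vw (j + 1)), repW K (j + 1) * u * (repW K (j + 1))⁻¹ ∈
      Subgroup.closure (sqGen (K := K) (e := e))) :
    ∀ u ∈ C.FS (Vw j), repW K j * u * (repW K j)⁻¹ ∈
      Subgroup.closure (sqGen (K := K) (e := e)) := by
  intro u hu
  obtain ⟨u', hu', t, hut⟩ := C.surjP (Vw j) hlt hneg hfx u hu
  rw [← hsucc] at hu'
  have h1 := hQ u' hu'
  have hrs : repW K (j + 1) = repW K j * nWU (packF K).sem LP := by
    rw [repW_succ, if_pos hj]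
  rw [hrs] at h1
  have e1 : repW K j * u * (repW K j)⁻¹ =
      (repW K j * nWU (packF K).sem LP * u' * (repW K j * nWU (packF K).sem LP)⁻¹) *
        (repW K j * Pp K C.Θ C.τ t * (repW K j)⁻¹) := by
    rw [hut]; group
  rw [e1]
  exact mul_mem h1 (C.gen_P j hpos t)

/-- one step of the induction, class block -/
theorem genStepB (hne : ∃ c₀ : K, C.τ c₀ + c₀ ≠ 0) (hsurj : ∀ y : K, ∃ x : K, C.τ x * x = y)
    (j : ℕ) (hj : ¬ j % 2 = 0) (hlt : ∀ i ∈ Vw j, i < chevF4.rank)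
    (hneg : NegChain chevF4 (Vw j) LB) (hsucc : Vw (j + 1) = Vw j ++ LB)
    (hfx : C.Fx (nWU (packF K).sem (Vw j)))
    (hpos : ∀ r ∈ [27, 25, 28, 30], chevF4.IsPosRoot (reflW chevF4 (altPB j).flatten r))
    (hQ : ∀ u ∈ C.FS (Vw (j + 1)), repW K (j + 1) * u * (repW K (j + 1))⁻¹ ∈
      Subgroup.closure (sqGen (K := K) (e := e))) :
    ∀ u ∈ C.FS (Vw j), repW K j * u * (repW K j)⁻¹ ∈
      Subgroup.closure (sqGen (K := K) (e := e)) := by
  intro u hu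
  obtain ⟨u', hu', p, hut⟩ := C.surjB (Vw j) hlt hneg hfx u hu
  rw [← hsucc] at hu'
  have h1 := hQ u' hu'
  have hrs : repW K (j + 1) = repW K j * nWU (packF K).sem LB := by
    rw [repW_succ, if_neg hj]
  rw [hrs] at h1
  have e1 : repW K j * u * (repW K j)⁻¹ =
      (repW K j * nWU (packF K).sem LB * u' * (repW K j * nWU (packF K).sem LB)⁻¹) *
        (repW K j * (sysP K C.Θ).W C.τ p.1 p.2 * (repW K j)⁻¹) := by
    rw [hut]; group
  rw [e1]
  exact mul_mem h1 (C.gen_B hne hsurj j hpos p.1 p.2)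

include C in
/-- `U ∩ ²F₄` is generated by elements whose squares lie in its derived subgroup -/
theorem gen_U1 (hne : ∃ c₀ : K, C.τ c₀ + c₀ ≠ 0) (hsurj : ∀ y : K, ∃ x : K, C.τ x * x = y) :
    chevF4.posUnipotent K ⊓ twistedF4 K e ≤ Subgroup.closure (sqGen (K := K) (e := e)) := by
  have hP := packF K
  have hV := semVF K
  have sP := Vw_succ.1
  have sB := Vw_succ.2.1
  have s8 := Vw_succ.2.2
  have h8 : ∀ u ∈ C.FS (Vw 8), repW K 8 * u * (repW K 8)⁻¹ ∈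
      Subgroup.closure (sqGen (K := K) (e := e)) := by
    have h8' : C.FS (Vw 8) = {1} := by
      ext u
      unfold FS
      rw [s8, UmG_eq_bot' hP hV (wPB 8) (wPB_lt 8) inv_PB8]
      simp only [Set.mem_setOf_eq, Subgroup.mem_bot, Set.mem_singleton_iff]
      constructor
      · exact fun h => h.1
      · intro h; exact ⟨h, by rw [h]; exact C.Fx_one⟩
    intro u hu
    have hu1 : u = 1 := by
      rw [h8', Set.mem_singleton_iff] at hu
      exact hu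
    rw [hu1]
    have e1 : repW K 8 * 1 * (repW K 8)⁻¹ = 1 := by group
    rw [e1]; exact one_mem _
  have h7 := C.genStepB hne hsurj 7 (by decide) (Vw_lt 7 (by decide)) (Vw_negB 7 (by decide))
    (sB 7 (by decide)) (C.Fx_Vw 7 (by decide)) (pos_tabB 7 (by decide)) h8
  have h6 := C.genStepP 6 (by decide) (Vw_lt 6 (by decide)) (Vw_negP 6 (by decide))
    (sP 6 (by decide)) (C.Fx_Vw 6 (by decide)) (pos_tabP 6 (by decide)) h7
  have h5 := C.genStepB hne hsurj 5 (by decide) (Vw_lt 5 (by decide)) (Vw_negB 5 (by decide))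
    (sB 5 (by decide)) (C.Fx_Vw 5 (by decide)) (pos_tabB 5 (by decide)) h6
  have h4 := C.genStepP 4 (by decide) (Vw_lt 4 (by decide)) (Vw_negP 4 (by decide))
    (sP 4 (by decide)) (C.Fx_Vw 4 (by decide)) (pos_tabP 4 (by decide)) h5
  have h3 := C.genStepB hne hsurj 3 (by decide) (Vw_lt 3 (by decide)) (Vw_negB 3 (by decide))
    (sB 3 (by decide)) (C.Fx_Vw 3 (by decide)) (pos_tabB 3 (by decide)) h4
  have h2 := C.genStepP 2 (by decide) (Vw_lt 2 (by decide)) (Vw_negP 2 (by decide))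
    (sP 2 (by decide)) (C.Fx_Vw 2 (by decide)) (pos_tabP 2 (by decide)) h3
  have h1 := C.genStepB hne hsurj 1 (by decide) (Vw_lt 1 (by decide)) (Vw_negB 1 (by decide))
    (sB 1 (by decide)) (C.Fx_Vw 1 (by decide)) (pos_tabB 1 (by decide)) h2
  have h0 := C.genStepP 0 (by decide) (Vw_lt 0 (by decide)) (Vw_negP 0 (by decide))
    (sP 0 (by decide)) (C.Fx_Vw 0 (by decide)) (pos_tabP 0 (by decide)) h1
  have hU : UmG chevF4 K (nWU (packF K).sem (Vw 0)) = chevF4.posUnipotent K :=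
    UmG_eq_pos (packF K) (Vw 0) (Vw_lt 0 (by decide)) (fun r hr => Vw0_all r hr.1 hr)
  intro u hu
  have hu' := Subgroup.mem_inf.mp hu
  have h := h0 u ⟨by rw [hU]; exact hu'.1, C.Fx_of_mem u hu'.2⟩
  rw [repW_zero] at h
  simpa using h

end Ctx4

end Cfsg.Agent.H22.TF4
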