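import Cfsg.Agent.S1077
import Cfsg.Agent.H22.TF4Sq
import Cfsg.Agent.H22.TF4H1
import Cfsg.Agent.H56.SqDefs
/-!
S4625 team project (helper56), the piece for `²F₄(2^(2m+1))` (helper22): `U ∩ ²F₄` is a
2-subgroup of odd index, generated by elements whose squares lie in its derived subgroup.
-/
set_option autoImplicit false
open Cfsg Cfsg.Lie

namespace Cfsg.Agent.H22.Sq

open Cfsg.Agent.H22 Cfsg.Agent.H22.TF4 Cfsg.Agent.H56.Sq

/-- `U ∩ ²F₄` is a 2-subgroup of odd index -/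
theorem syl_U1 {K : Type*} [Field K] [CharP K 2] {e : ℕ} (C : Ctx4 K e) [Finite K]
    (hH : ¬ 2 ∣ Nat.card ↥(chevF4.diagonalSubgroup K ⊓ twistedF4 K e))
    (k : ℕ) (hk : Nat.card K = 2 ^ k) (hk0 : 0 < k) :
    IsPGroup 2 ↥((chevF4.posUnipotent K ⊓ twistedF4 K e).subgroupOf (twistedF4 K e)) ∧
      ¬ 2 ∣ ((chevF4.posUnipotent K ⊓ twistedF4 K e).subgroupOf (twistedF4 K e)).index := by
  obtain ⟨P₀, hP₀def⟩ : ∃ P₀ : Subgroup ↥(twistedF4 K e),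
      P₀ = (chevF4.posUnipotent K ⊓ twistedF4 K e).subgroupOf (twistedF4 K e) := ⟨_, rfl⟩
  have hle : chevF4.posUnipotent K ⊓ twistedF4 K e ≤ twistedF4 K e := inf_le_right
  have hcP : Nat.card ↥P₀ = Nat.card K ^ 12 := by
    rw [hP₀def, Nat.card_congr (Subgroup.subgroupOfEquivOfLe hle).toEquiv]
    exact C.card_U1
  have hP₀ : IsPGroup 2 ↥P₀ := IsPGroup.of_card (n := k * 12) (by rw [hcP, hk, pow_mul])
  have hidx : ¬ 2 ∣ P₀.index := by
    have h1 := Subgroup.index_mul_card P₀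
    rw [hcP, C.order_G1] at h1
    have hpos : 0 < Nat.card K ^ 12 := by rw [hk]; positivity
    have h2 : P₀.index = Nat.card ↥(chevF4.diagonalSubgroup K ⊓ twistedF4 K e) *
        ∑ m : Fin 16, Nat.card K ^ expo (m : ℕ) :=
      Nat.eq_of_mul_eq_mul_right hpos (by rw [h1]; ring)
    rw [h2, expo_sum, Nat.Prime.dvd_mul Nat.prime_two]
    push Not
    refine ⟨hH, ?_⟩
    have hq2 : 2 ∣ Nat.card K := by rw [hk]; exact dvd_pow_self 2 hk0.ne'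
    obtain ⟨c, hc⟩ := hq2
    obtain ⟨X, hX⟩ : ∃ X : ℕ, 1 + Nat.card K + Nat.card K ^ 2 + 2 * Nat.card K ^ 3 +
        Nat.card K ^ 4 + Nat.card K ^ 5 + 2 * Nat.card K ^ 6 + Nat.card K ^ 7 + Nat.card K ^ 8 +
        2 * Nat.card K ^ 9 + Nat.card K ^ 10 + Nat.card K ^ 11 + Nat.card K ^ 12 = 1 + 2 * X :=
      ⟨c * (1 + Nat.card K + 2 * Nat.card K ^ 2 + Nat.card K ^ 3 + Nat.card K ^ 4 +
        2 * Nat.card K ^ 5 + Nat.card K ^ 6 + Nat.card K ^ 7 + 2 * Nat.card K ^ 8 +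
        Nat.card K ^ 9 + Nat.card K ^ 10 + Nat.card K ^ 11), by
        have e1 : 2 * (c * (1 + Nat.card K + 2 * Nat.card K ^ 2 + Nat.card K ^ 3 +
            Nat.card K ^ 4 + 2 * Nat.card K ^ 5 + Nat.card K ^ 6 + Nat.card K ^ 7 +
            2 * Nat.card K ^ 8 + Nat.card K ^ 9 + Nat.card K ^ 10 + Nat.card K ^ 11)) =
            Nat.card K * (1 + Nat.card K + 2 * Nat.card K ^ 2 + Nat.card K ^ 3 +
            Nat.card K ^ 4 + 2 * Nat.card K ^ 5 + Nat.card K ^ 6 + Nat.card K ^ 7 +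
            2 * Nat.card K ^ 8 + Nat.card K ^ 9 + Nat.card K ^ 10 + Nat.card K ^ 11) := by
          rw [← mul_assoc, ← hc]
        rw [e1]; ring⟩
    rw [hX]
    omega
  rw [← hP₀def]
  exact ⟨hP₀, hidx⟩

/-- S4625-TWF4 -/
theorem twF4 : Cfsg.Agent.H56.Sq.TwF4Stmt := by
  intro K _ _ m hm hK
  have hc2 : CharP K 2 := charP_two_of_card (n := 2 * m) hK
  have h2 : (2 : K) = 0 := CharTwo.two_eq_zero
  obtain ⟨θ, hs, hk, hx'⟩ := Cfsg.Agent.S1077.result Cfsg.Lie.chevF4 (by simp) (K := K)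
  obtain ⟨C⟩ := exists_ctx4 hK θ hs hk hx'
  have hH : ¬ 2 ∣ Nat.card ↥(chevF4.diagonalSubgroup K ⊓ twistedF4 K (2 ^ m)) := by
    rw [card_H1 hK θ hs hk hx']
    intro hdiv
    have h1 := Nat.Prime.dvd_of_dvd_pow Nat.prime_two hdiv
    have h3 : 2 ^ (2 * m + 1) = 2 * 2 ^ (2 * m) := by ring
    have h4 : 1 ≤ 2 ^ (2 * m) := Nat.one_le_two_pow
    omega
  obtain ⟨hP, hidx⟩ := syl_U1 C hH (2 * m + 1) (by rw [Nat.card_eq_fintype_card, hK]) (by omega)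
  refine ⟨_, hP, hidx, ?_⟩
  have hne : ∃ c₀ : K, C.τ c₀ + c₀ ≠ 0 := by
    obtain ⟨ζ, hζ0, hζ1, -, -⟩ := exists_gen hK hm
    by_contra hcon
    push Not at hcon
    have h1 : C.τ ζ = ζ := by linear_combination hcon ζ - ζ * h2
    have h3 := C.hτ ζ
    rw [h1, h1] at h3
    have h4 : ζ * (ζ - 1) = 0 := by linear_combination h3
    rcases mul_eq_zero.mp h4 with h5 | h5
    · exact hζ0 h5
    · exact hζ1 (sub_eq_zero.mp h5)
  have hgen := C.gen_U1 hne (tau_surj hK C.τ C.τ_eq)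
  have hsq : SqT ↥(chevF4.posUnipotent K ⊓ twistedF4 K (2 ^ m)) :=
    sqT_of_gen (chevF4.posUnipotent K ⊓ twistedF4 K (2 ^ m)) hgen
  exact SqT.of_equiv (Subgroup.subgroupOfEquivOfLe inf_le_right) hsq

example : Cfsg.Agent.H56.Sq.TwF4Stmt := twF4

end Cfsg.Agent.H22.Sq
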