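import Mathlib
/-!
Abstract computations for the generators of `²F₄` in characteristic 2 (helper22): the "B₂-class
words" multiply like a Suzuki group, and an element acting on them with nontrivial characters puts
them into any subgroup containing its commutators with them.
-/
set_option autoImplicit false

namespace Cfsg.Agent.H22.TF4

/-- abstract unipotent system of type B₂ in characteristic 2: four additive families, the last two
central, and the commutator formula of the first two. -/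
structure BSys (K : Type*) [Field K] (Γ : Type*) [Group Γ] where
  xa : K → Γ
  xb : K → Γ
  y1 : K → Γ
  y2 : K → Γ
  xa_add : ∀ s t, xa (s + t) = xa s * xa t
  xb_add : ∀ s t, xb (s + t) = xb s * xb t
  y1_add : ∀ s t, y1 (s + t) = y1 s * y1 t
  y2_add : ∀ s t, y2 (s + t) = y2 s * y2 t
  ca1 : ∀ s c, y1 c * xa s = xa s * y1 c
  ca2 : ∀ s c, y2 c * xa s = xa s * y2 c
  cb1 : ∀ t c, y1 c * xb t = xb t * y1 c
  cb2 : ∀ t c, y2 c * xb t = xb t * y2 c
  c12 : ∀ c d, y2 d * y1 c = y1 c * y2 d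
  swap : ∀ s t, xb t * xa s = xa s * xb t * (y1 (s * t) * y2 (s ^ 2 * t))

namespace BSys

variable {K : Type*} [Field K] {Γ : Type*} [Group Γ] (S : BSys K Γ)

/-- product of the two central families -/
def Y (c d : K) : Γ := S.y1 c * S.y2 d

theorem Y_add (c d c' d' : K) : S.Y c d * S.Y c' d' = S.Y (c + c') (d + d') := by
  unfold Y
  rw [S.y1_add, S.y2_add, mul_assoc, ← mul_assoc (S.y2 d), S.c12, mul_assoc, mul_assoc]

theorem Y_xa (c d s : K) : S.Y c d * S.xa s = S.xa s * S.Y c d := by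
  unfold Y
  rw [mul_assoc, S.ca2, ← mul_assoc, S.ca1, mul_assoc]

theorem Y_xb (c d t : K) : S.Y c d * S.xb t = S.xb t * S.Y c d := by
  unfold Y
  rw [mul_assoc, S.cb2, ← mul_assoc, S.cb1, mul_assoc]

theorem swap' (s t : K) : S.xb t * S.xa s = S.xa s * S.xb t * S.Y (s * t) (s ^ 2 * t) := S.swap s t

/-- the class word `x_a(t^θ) x_b(t) x_{a+b}(t^{θ+1} + u) x_{2a+b}(u^{2θ})` -/
def W (τ : K →+* K) (t u : K) : Γ := S.xa (τ t) * S.xb t * S.Y (τ t * t + u) (τ u ^ 2)

theorem W_mul (τ : K →+* K) (h2 : (2 : K) = 0) (hτ : ∀ c, τ (τ c) ^ 2 = c) (t u t' u' : K) :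
    S.W τ t u * S.W τ t' u' = S.W τ (t + t') (u + u' + τ t * t') := by
  have e : S.W τ t u * S.W τ t' u' =
      S.xa (τ t) * S.xa (τ t') * (S.xb t * S.xb t') *
        (S.Y (τ t' * t) (τ t' ^ 2 * t) * S.Y (τ t * t + u) (τ u ^ 2) *
          S.Y (τ t' * t' + u') (τ u' ^ 2)) := by
    unfold W
    calc S.xa (τ t) * S.xb t * S.Y (τ t * t + u) (τ u ^ 2) *
          (S.xa (τ t') * S.xb t' * S.Y (τ t' * t' + u') (τ u' ^ 2))
        = S.xa (τ t) * S.xb t * (S.Y (τ t * t + u) (τ u ^ 2) * S.xa (τ t')) * S.xb t' *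
            S.Y (τ t' * t' + u') (τ u' ^ 2) := by
          simp only [mul_assoc]
      _ = S.xa (τ t) * (S.xb t * S.xa (τ t')) * (S.Y (τ t * t + u) (τ u ^ 2) * S.xb t') *
            S.Y (τ t' * t' + u') (τ u' ^ 2) := by
          rw [S.Y_xa]; simp only [mul_assoc]
      _ = S.xa (τ t) * S.xa (τ t') * S.xb t * (S.Y (τ t' * t) (τ t' ^ 2 * t) * S.xb t') *
            S.Y (τ t * t + u) (τ u ^ 2) * S.Y (τ t' * t' + u') (τ u' ^ 2) := by
          rw [S.swap', S.Y_xb]; simp only [mul_assoc]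
      _ = _ := by rw [S.Y_xb]; simp only [mul_assoc]
  rw [e, S.Y_add, S.Y_add, ← S.xa_add, ← S.xb_add, ← map_add]
  unfold W
  have e1 : τ t' * t + (τ t * t + u) + (τ t' * t' + u') =
      τ (t + t') * (t + t') + (u + u' + τ t * t') := by
    rw [map_add]; linear_combination (-(τ t * t')) * h2
  have e2 : τ t' ^ 2 * t + τ u ^ 2 + τ u' ^ 2 = τ (u + u' + τ t * t') ^ 2 := by
    rw [map_add, map_add, map_mul]
    linear_combination (-(τ t') ^ 2) * hτ t -
      (τ u * τ u' + τ u * τ (τ t) * τ t' + τ u' * τ (τ t) * τ t') * h2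
  rw [e1, e2]

/-- an element acting on the class words by nontrivial characters puts them all into any subgroup
containing its commutators with them -/
theorem W_mem (τ : K →+* K) (h2 : (2 : K) = 0) (hτ : ∀ c, τ (τ c) ^ 2 = c) (Dc : Subgroup Γ)
    (h : Γ) (lam mu : K) (hl : lam + 1 ≠ 0) (hm : mu + 1 ≠ 0)
    (hconj : ∀ t u, h * S.W τ t u * h⁻¹ = S.W τ (lam * t) (mu * u))
    (hD : ∀ t u, h * S.W τ t u * h⁻¹ * (S.W τ t u)⁻¹ ∈ Dc) (t u : K) : S.W τ t u ∈ Dc := by
  have key : ∀ t u, S.W τ ((lam + 1) * t) ((mu + 1) * u + τ ((lam + 1) * t) * t) ∈ Dc := by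
    intro t u
    have e : S.W τ ((lam + 1) * t) ((mu + 1) * u + τ ((lam + 1) * t) * t) * S.W τ t u =
        S.W τ (lam * t) (mu * u) := by
      rw [S.W_mul τ h2 hτ]
      have e1 : (lam + 1) * t + t = lam * t := by linear_combination t * h2
      have e2 : (mu + 1) * u + τ ((lam + 1) * t) * t + u + τ ((lam + 1) * t) * t = mu * u := by
        linear_combination (u + τ ((lam + 1) * t) * t) * h2
      rw [e1, e2]
    have h3 := hD t u
    rw [hconj, ← e, mul_inv_cancel_right] at h3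
    exact h3
  have h0 : ∀ v, S.W τ 0 v ∈ Dc := by
    intro v
    have h3 := key 0 ((mu + 1)⁻¹ * v)
    simp only [mul_zero, map_zero, add_zero] at h3
    rwa [mul_inv_cancel_left₀ hm] at h3
  have h3 := key ((lam + 1)⁻¹ * t) 0
  rw [mul_inv_cancel_left₀ hl] at h3
  have e : S.W τ t u =
      S.W τ 0 (u + ((mu + 1) * 0 + τ t * ((lam + 1)⁻¹ * t))) *
        S.W τ t ((mu + 1) * 0 + τ t * ((lam + 1)⁻¹ * t)) := by
    rw [S.W_mul τ h2 hτ]
    have e1 : (0 : K) + t = t := zero_add t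
    have e2 : u + ((mu + 1) * 0 + τ t * ((lam + 1)⁻¹ * t)) +
        ((mu + 1) * 0 + τ t * ((lam + 1)⁻¹ * t)) + τ 0 * t = u := by
      rw [map_zero]; linear_combination (τ t * ((lam + 1)⁻¹ * t)) * h2
    rw [e1, e2]
  rw [e]
  exact Dc.mul_mem (h0 _) h3

end BSys

/-- the analogue of `BSys.W_mem` for an additive family -/
theorem P_mem {K : Type*} [Field K] {Γ : Type*} [Group Γ] (P : K → Γ)
    (hP : ∀ s t, P (s + t) = P s * P t) (h2 : (2 : K) = 0) (Dc : Subgroup Γ) (h : Γ) (lam : K)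
    (hl : lam + 1 ≠ 0) (hconj : ∀ t, h * P t * h⁻¹ = P (lam * t))
    (hD : ∀ t, h * P t * h⁻¹ * (P t)⁻¹ ∈ Dc) (t : K) : P t ∈ Dc := by
  have key : ∀ t, P ((lam + 1) * t) ∈ Dc := by
    intro t
    have e : P ((lam + 1) * t) * P t = P (lam * t) := by
      rw [← hP]
      have e1 : (lam + 1) * t + t = lam * t := by linear_combination t * h2
      rw [e1]
    have h3 := hD t
    rw [hconj, ← e, mul_inv_cancel_right] at h3
    exact h3
  have h3 := key ((lam + 1)⁻¹ * t)
  rwa [mul_inv_cancel_left₀ hl] at h3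

/-- rearranging a product of two commuting "SL₂-words" -/
theorem rearr {Γ : Type*} [Group Γ] (A B C D : Γ) (hBC : B * C = C * B) (hDA : D * A = A * D)
    (hBA : B * A = A * B) : A * B * (C * D) * (A * B) = A * C * A * (B * D * B) := by
  calc A * B * (C * D) * (A * B) = A * (B * C) * (D * A) * B := by simp only [mul_assoc]
    _ = A * (C * B) * (A * D) * B := by rw [hBC, hDA]
    _ = A * C * (B * A) * D * B := by simp only [mul_assoc]
    _ = A * C * (A * B) * D * B := by rw [hBA]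
    _ = A * C * A * (B * D * B) := by simp only [mul_assoc]

end Cfsg.Agent.H22.TF4
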