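import Cfsg.Agent.H22.TF4Tor
import Cfsg.Agent.H22.ChevBorel
import Cfsg.Agent.H22.ChevMonoAll
/-!
The normal core of `B ∩ ²F₄` in `²F₄` is trivial (helper22): the element `n₀ = (n_P n_B)⁴` of
`N ∩ ²F₄` maps `U` into `V`, so the core lies in `H`; it then centralises `U ∩ ²F₄`, which forces
all characters on the fundamental roots to be trivial.
-/
set_option autoImplicit false
open Cfsg Cfsg.Lie

namespace Cfsg.Agent.H22.TF4

open Cfsg.Agent.H22 Cfsg.Agent.H22.GEx

/-- `-X` -/
def pXn : Poly := [⟨0, 1, 1, 0, 0, 0⟩]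
/-- `1` -/
def p1 : Poly := [⟨1, 0, 0, 0, 0, 0⟩]
/-- `-1` -/
def pm1 : Poly := [⟨0, 1, 0, 0, 0, 0⟩]

/-- the word `n_{p₁}(1) n_{p₄}(1) n_b(1) n_{2a+b}(1)` -/
def nPBW : List (ℕ × Poly) :=
  [(33, p1), (14, pm1), (33, p1), (24, p1), (23, pm1), (24, p1),
   (25, p1), (22, pm1), (25, p1), (30, p1), (17, pm1), (30, p1)]

/-- its fourth power -/
def n0W : List (ℕ × Poly) := nPBW ++ nPBW ++ nPBW ++ nPBW

/-- the signs of the conjugation by `n₀` -/
def sgn0 (r : ℕ) : Bool :=
  [false, false, false, true, false, false, false, true, false, false, false, true, true, true,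
   false, false, false, false, true, true, true, false, false, false, false, false, false, true,
   true, true, false, false, false, false, true, true, true, false, false, false, true, false,
   false, false, true, false, false, false].getD r false

theorem n0W_check : ∀ r < 24,
    wordEqCheckN chevF4 64 32 64 32 (n0W ++ [(24 + r, pX)])
      ((23 - r, bif sgn0 (24 + r) then pX else pXn) :: n0W) = true := by
  decide +kernel

section evals2

variable {F : Type*} [Field F] (ρ : Val F)

theorem pXn_eval : Poly.eval ρ pXn = -ρ.x := by simp [pXn, Mono.eval, Mono.mon]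
theorem p1_eval : Poly.eval ρ p1 = 1 := by simp [p1, Mono.eval, Mono.mon]
theorem pm1_eval : Poly.eval ρ pm1 = -1 := by simp [pm1, Mono.eval, Mono.mon]

end evals2

/-- the word `n_{p₁}(1) n_{p₄}(1) n_b(1) n_{2a+b}(1)` in characteristic 2 -/
def L12 (K : Type*) [Field K] : List (ℕ × K) :=
  [(33, 1), (14, 1), (33, 1), (24, 1), (23, 1), (24, 1),
   (25, 1), (22, 1), (25, 1), (30, 1), (17, 1), (30, 1)]

theorem evalWord_n0W {K : Type*} [Field K] [CharP K 2] (ρ : Val K) :
    evalWord ρ n0W = L12 K ++ L12 K ++ L12 K ++ L12 K := by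
  simp only [evalWord, n0W, nPBW, L12, List.map_cons, List.map_nil, List.cons_append,
    List.nil_append, p1_eval, pm1_eval, CharTwo.neg_eq]

/-- conjugation by `n₀` on the positive root elements, at the level of matrices -/
theorem n0W_conj {K : Type*} [Field K] [CharP K 2] (r : ℕ) (hr : r < 24) (t : K) (ht : t ≠ 0) :
    chevF4.wordMat K (L12 K ++ L12 K ++ L12 K ++ L12 K) * chevF4.x K (24 + r) t =
      chevF4.x K (23 - r) t * chevF4.wordMat K (L12 K ++ L12 K ++ L12 K ++ L12 K) := by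
  have h := wordMat_eq_of_checkN tablesCheck_F4 maskCheck_F4 64 32 64 32 _ _ (n0W_check r hr)
    (⟨t, 1, ht, one_ne_zero⟩ : Val K)
  have e1 : evalWord (⟨t, 1, ht, one_ne_zero⟩ : Val K) (n0W ++ [(24 + r, pX)]) =
      (L12 K ++ L12 K ++ L12 K ++ L12 K) ++ [(24 + r, t)] := by
    rw [← evalWord_n0W (⟨t, 1, ht, one_ne_zero⟩ : Val K)]
    simp [evalWord, pX_eval]
  have e2 : evalWord (⟨t, 1, ht, one_ne_zero⟩ : Val K)
      ((23 - r, bif sgn0 (24 + r) then pX else pXn) :: n0W) =
      [(23 - r, t)] ++ (L12 K ++ L12 K ++ L12 K ++ L12 K) := by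
    rw [← evalWord_n0W (⟨t, 1, ht, one_ne_zero⟩ : Val K)]
    cases sgn0 (24 + r) <;> simp [evalWord, pX_eval, pXn_eval, CharTwo.neg_eq]
  have s1 : ∀ (a : ℕ) (c : K), chevF4.wordMat K [(a, c)] = chevF4.x K a c := by
    intro a c; simp [ChevalleyDatum.wordMat]
  rw [e1, e2, wordMat_append, wordMat_append chevF4 [(23 - r, t)], s1, s1] at h
  exact h

theorem posRoots_F4 : chevF4.posRoots =
    [24, 25, 26, 27, 28, 29, 30, 31, 32, 33, 34, 35, 36, 37, 38, 39, 40, 41, 42, 43, 44, 45, 46,
      47] := by decide +kernel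

theorem pos_ge : ∀ r < 48, chevF4.IsPosRoot r → 24 ≤ r := by decide +kernel

theorem neg_of_lt : ∀ r < 24, chevF4.IsNegRoot (23 - r) := by decide +kernel

end Cfsg.Agent.H22.TF4
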