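import Cfsg.Agent.H22.TF4Core
/-!
The normal core of `B ∩ ²F₄` in `²F₄` is trivial: main argument (helper22).
-/
set_option autoImplicit false
open Cfsg Cfsg.Lie

namespace Cfsg.Agent.H22.TF4

open Cfsg.Agent.H22 Cfsg.Agent.H22.GEx

theorem BSys.Y_zero {K : Type*} [Field K] {Γ : Type*} [Group Γ] (S : BSys K Γ) : S.Y 0 0 = 1 := by
  have h := S.Y_add 0 0 0 0
  rw [add_zero] at h
  exact mul_eq_left.mp h

/-- reordering `x_a x_b` in a class word -/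
theorem BSys.W_swap {K : Type*} [Field K] {Γ : Type*} [Group Γ] (S : BSys K Γ)
    (h2 : (2 : K) = 0) (a b c d : K) :
    S.xa a * S.xb b * S.Y c d = S.xb b * S.xa a * S.Y (a * b + c) (a ^ 2 * b + d) := by
  have e : S.Y (a * b) (a ^ 2 * b) * S.Y (a * b) (a ^ 2 * b) = 1 := by
    rw [S.Y_add]
    have e1 : a * b + a * b = 0 := by linear_combination (a * b) * h2
    have e2 : a ^ 2 * b + a ^ 2 * b = 0 := by linear_combination (a ^ 2 * b) * h2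
    rw [e1, e2, S.Y_zero]
  rw [← S.Y_add, ← mul_assoc, S.swap', mul_assoc (S.xa a * S.xb b), e, mul_one]

/-- `n_{p₁}(s^θ) n_{p₄}(s)` is a product of pair words -/
theorem nn_eq (K : Type*) [Field K] [CharP K 2] (τ : K →+* K) (s : K) :
    nEl chevF4 K 33 (τ s) * nEl chevF4 K 24 s = PpS K τ s * PmS K τ s⁻¹ * PpS K τ s := by
  have c1 : ∀ u v : K, Commute (chevF4.stGen K 33 u) (chevF4.stGen K 24 v) :=
    commute_of_commOK chevF4 K 2 33 24 cokF_33_24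
  have c2 : ∀ u v : K, Commute (chevF4.stGen K 33 u) (chevF4.stGen K 23 v) :=
    commute_of_commOK chevF4 K 2 33 23 cokF_33_23
  have c3 : ∀ u v : K, Commute (chevF4.stGen K 14 u) (chevF4.stGen K 24 v) :=
    commute_of_commOK chevF4 K 2 14 24 cokF_14_24
  have h14 : chevF4.neg 33 = 14 := by decide
  have h23 : chevF4.neg 24 = 23 := by decide
  rw [nEl_eq, nEl_eq, h14, h23, CharTwo.neg_eq, CharTwo.neg_eq]
  unfold PpS PmS
  rw [map_inv₀]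
  exact (rearr _ _ _ _ (c3 _ _).symm.eq (c2 _ _).symm.eq (c1 _ _).symm.eq).symm

theorem pairZ_simple_vals :
    (pairZ chevF4 33 33 = 2 ∧ pairZ chevF4 27 33 = -1 ∧ pairZ chevF4 25 33 = 0 ∧
      pairZ chevF4 24 33 = 0) ∧
    (pairZ chevF4 33 27 = -1 ∧ pairZ chevF4 27 27 = 2 ∧ pairZ chevF4 25 27 = -1 ∧
      pairZ chevF4 24 27 = 0) ∧
    (pairZ chevF4 33 25 = 0 ∧ pairZ chevF4 27 25 = -2 ∧ pairZ chevF4 25 25 = 2 ∧
      pairZ chevF4 24 25 = -1) ∧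
    (pairZ chevF4 33 24 = 0 ∧ pairZ chevF4 27 24 = 0 ∧ pairZ chevF4 25 24 = -1 ∧
      pairZ chevF4 24 24 = 2) := by decide +kernel

/-- the character of the torus element with parameters `c0, c1, c2, c3` on the root `s` -/
def chi4 {K : Type*} [Field K] (c0 c1 c2 c3 : K) (s : ℕ) : K :=
  c0 ^ pairZ chevF4 33 s * (c1 ^ pairZ chevF4 27 s * (c2 ^ pairZ chevF4 25 s *
    c3 ^ pairZ chevF4 24 s))

theorem chi4_vals {K : Type*} [Field K] (c0 c1 c2 c3 : K) :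
    chi4 c0 c1 c2 c3 33 = c0 ^ 2 * c1⁻¹ ∧ chi4 c0 c1 c2 c3 27 = c0⁻¹ * (c1 ^ 2 * c2⁻¹) ∧
    chi4 c0 c1 c2 c3 25 = (c1 ^ 2)⁻¹ * (c2 ^ 2 * c3⁻¹) ∧ chi4 c0 c1 c2 c3 24 = c2⁻¹ * c3 ^ 2 := by
  obtain ⟨⟨a1, a2, a3, a4⟩, ⟨b1, b2, b3, b4⟩, ⟨d1, d2, d3, d4⟩, ⟨e1, e2, e3, e4⟩⟩ :=
    pairZ_simple_vals
  unfold chi4
  rw [a1, a2, a3, a4, b1, b2, b3, b4, d1, d2, d3, d4, e1, e2, e3, e4]
  have z2 : ∀ c : K, c ^ (2 : ℤ) = c ^ 2 := fun c => zpow_ofNat c 2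
  have zm2 : ∀ c : K, c ^ (-2 : ℤ) = (c ^ 2)⁻¹ := fun c => by rw [zpow_neg, z2]
  refine ⟨?_, ?_, ?_, ?_⟩ <;>
    simp only [z2, zm2, zpow_zero, zpow_neg_one, mul_one, one_mul]

/-- a torus element with trivial characters on the fundamental roots is trivial -/
theorem eq_one_of_chi4 {K : Type*} [Field K] (c0 c1 c2 c3 : K) (h0 : c0 ≠ 0) (h1 : c1 ≠ 0)
    (h2 : c2 ≠ 0) (h3 : c3 ≠ 0) (e33 : chi4 c0 c1 c2 c3 33 = 1) (e27 : chi4 c0 c1 c2 c3 27 = 1)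
    (e25 : chi4 c0 c1 c2 c3 25 = 1) (e24 : chi4 c0 c1 c2 c3 24 = 1) :
    dgF c0 c1 c2 c3 = 1 := by
  obtain ⟨v33, v27, v25, v24⟩ := chi4_vals c0 c1 c2 c3
  rw [v33] at e33
  rw [v27] at e27
  rw [v25] at e25
  rw [v24] at e24
  have e0 : (c0 ^ 2 * c1⁻¹) ^ 2 * (c0⁻¹ * (c1 ^ 2 * c2⁻¹)) ^ 3 *
      ((c1 ^ 2)⁻¹ * (c2 ^ 2 * c3⁻¹)) ^ 2 * (c2⁻¹ * c3 ^ 2) = c0 := by field_simp
  have e1 : (c0 ^ 2 * c1⁻¹) ^ 3 * (c0⁻¹ * (c1 ^ 2 * c2⁻¹)) ^ 6 *
      ((c1 ^ 2)⁻¹ * (c2 ^ 2 * c3⁻¹)) ^ 4 * (c2⁻¹ * c3 ^ 2) ^ 2 = c1 := by field_simp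
  have e2 : (c0 ^ 2 * c1⁻¹) ^ 4 * (c0⁻¹ * (c1 ^ 2 * c2⁻¹)) ^ 8 *
      ((c1 ^ 2)⁻¹ * (c2 ^ 2 * c3⁻¹)) ^ 6 * (c2⁻¹ * c3 ^ 2) ^ 3 = c2 := by field_simp
  have e3 : (c0 ^ 2 * c1⁻¹) ^ 2 * (c0⁻¹ * (c1 ^ 2 * c2⁻¹)) ^ 4 *
      ((c1 ^ 2)⁻¹ * (c2 ^ 2 * c3⁻¹)) ^ 3 * (c2⁻¹ * c3 ^ 2) ^ 2 = c3 := by field_simp
  rw [e33, e27, e25, e24] at e0 e1 e2 e3
  simp only [one_pow, mul_one] at e0 e1 e2 e3
  rw [← e0, ← e1, ← e2, ← e3]
  unfold dgF
  have hcc : cc4 (1 : K) 1 1 1 = fun _ => 1 := by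
    funext i; unfold cc4; split_ifs <;> rfl
  rw [hcc, torusDiag_one]
  exact Matrix.diagonal_one

section GLsec

variable (K : Type*) [Field K] (Θ : chevF4.SteinbergGroup K →* GL chevF4.Idx K)

theorem xf_zero (r : ℕ) : xf K Θ r 0 = 1 := by
  unfold xf; rw [stGen_zero, map_one]

/-- coordinates supported on the class `{b, a, a+b, 2a+b}` -/
def fB {K : Type*} [Field K] (b a c d : K) : ℕ → K :=
  fun r => if r = 25 then b else if r = 27 then a else if r = 28 then c else if r = 30 then d else 0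

/-- coordinates supported on the pair `{p₄, p₁}` -/
def fP {K : Type*} [Field K] (b a : K) : ℕ → K :=
  fun r => if r = 24 then b else if r = 33 then a else 0

omit Θ in
theorem fB_zero (b a c d : K) : ∀ r, ¬ chevF4.IsPosRoot r → fB b a c d r = 0 := by
  intro r hr
  unfold fB
  split_ifs with h1 h2 h3 h4
  · exact absurd (h1 ▸ (by decide : chevF4.IsPosRoot 25)) hr
  · exact absurd (h2 ▸ (by decide : chevF4.IsPosRoot 27)) hr
  · exact absurd (h3 ▸ (by decide : chevF4.IsPosRoot 28)) hr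
  · exact absurd (h4 ▸ (by decide : chevF4.IsPosRoot 30)) hr
  · rfl

omit Θ in
theorem fP_zero (b a : K) : ∀ r, ¬ chevF4.IsPosRoot r → fP b a r = 0 := by
  intro r hr
  unfold fP
  split_ifs with h1 h2
  · exact absurd (h1 ▸ (by decide : chevF4.IsPosRoot 24)) hr
  · exact absurd (h2 ▸ (by decide : chevF4.IsPosRoot 33)) hr
  · rfl

variable (hx : ∀ (r : ℕ) (t : K), r < chevF4.nroots →
  ((Θ (chevF4.stGen K r t) : GL chevF4.Idx K) : Matrix chevF4.Idx chevF4.Idx K) = chevF4.x K r t)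

include hx

theorem x_zero' (r : ℕ) : chevF4.x K r 0 = 1 := by
  by_cases hr : r < chevF4.nroots
  · rw [← hx r 0 hr, stGen_zero, map_one]; rfl
  · exact x_eq_one_of_not_lt chevF4 K r hr 0

theorem nElF_val (r : ℕ) (hr : r < chevF4.nroots) (hr' : chevF4.neg r < chevF4.nroots) (t : K) :
    ((Θ (nEl chevF4 K r t) : GL chevF4.Idx K) : Matrix chevF4.Idx chevF4.Idx K) =
      chevF4.nMat K r t := by
  unfold nEl ChevalleyDatum.nMat
  apply Theta_word K Θ hx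
  intro q hq
  unfold ChevalleyDatum.nWord at hq
  simp only [List.mem_cons, List.mem_nil_iff, or_false] at hq
  rcases hq with rfl | rfl | rfl <;> assumption

theorem xf_mem_U (r : ℕ) (hr : chevF4.IsPosRoot r) (t : K) :
    xf K Θ r t ∈ chevF4.posUnipotent K :=
  Subgroup.subset_closure ⟨r, t, hr, xf_val K Θ hx r hr.1 t⟩

theorem fB_val (b a c d : K) :
    ((xf K Θ 25 b * xf K Θ 27 a * (xf K Θ 28 c * xf K Θ 30 d) : GL chevF4.Idx K) :
      Matrix chevF4.Idx chevF4.Idx K) =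
      chevF4.wordMat K (chevF4.posRoots.map fun r => (r, fB b a c d r)) := by
  rw [posRoots_F4, Units.val_mul, Units.val_mul, Units.val_mul, xf_val K Θ hx 25 (by decide),
    xf_val K Θ hx 27 (by decide), xf_val K Θ hx 28 (by decide), xf_val K Θ hx 30 (by decide)]
  simp [fB, ChevalleyDatum.wordMat, x_zero' K Θ hx, mul_assoc]

theorem fP_val (b a : K) :
    ((xf K Θ 24 b * xf K Θ 33 a : GL chevF4.Idx K) : Matrix chevF4.Idx chevF4.Idx K) =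
      chevF4.wordMat K (chevF4.posRoots.map fun r => (r, fP b a r)) := by
  rw [posRoots_F4, Units.val_mul, xf_val K Θ hx 24 (by decide), xf_val K Θ hx 33 (by decide)]
  simp [fP, ChevalleyDatum.wordMat, x_zero' K Θ hx]

variable (hU : ∀ g : GL chevF4.Idx K, g ∈ chevF4.posUnipotent K →
  ∃! t : ℕ → K, (∀ r, ¬ chevF4.IsPosRoot r → t r = 0) ∧
    (g : Matrix chevF4.Idx chevF4.Idx K) =
      chevF4.wordMat K (chevF4.posRoots.map fun r => (r, t r)))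

include hU

theorem inj_B (b a c d b' a' c' d' : K)
    (h : xf K Θ 25 b * xf K Θ 27 a * (xf K Θ 28 c * xf K Θ 30 d) =
      xf K Θ 25 b' * xf K Θ 27 a' * (xf K Θ 28 c' * xf K Θ 30 d')) : b = b' ∧ a = a' := by
  have hg : xf K Θ 25 b * xf K Θ 27 a * (xf K Θ 28 c * xf K Θ 30 d) ∈ chevF4.posUnipotent K :=
    mul_mem (mul_mem (xf_mem_U K Θ hx 25 (by decide) b) (xf_mem_U K Θ hx 27 (by decide) a))
      (mul_mem (xf_mem_U K Θ hx 28 (by decide) c) (xf_mem_U K Θ hx 30 (by decide) d))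
  obtain ⟨t0, -, huniq⟩ := hU _ hg
  have h1 := huniq (fB b a c d) ⟨fB_zero K _ _ _ _, fB_val K Θ hx b a c d⟩
  have h2 := huniq (fB b' a' c' d') ⟨fB_zero K _ _ _ _, by rw [h]; exact fB_val K Θ hx b' a' c' d'⟩
  have h3 : fB b a c d = fB b' a' c' d' := h1.trans h2.symm
  exact ⟨congrFun h3 25, congrFun h3 27⟩

theorem inj_P (b a b' a' : K)
    (h : xf K Θ 24 b * xf K Θ 33 a = xf K Θ 24 b' * xf K Θ 33 a') : b = b' ∧ a = a' := by
  have hg : xf K Θ 24 b * xf K Θ 33 a ∈ chevF4.posUnipotent K :=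
    mul_mem (xf_mem_U K Θ hx 24 (by decide) b) (xf_mem_U K Θ hx 33 (by decide) a)
  obtain ⟨t0, -, huniq⟩ := hU _ hg
  have h1 := huniq (fP b a) ⟨fP_zero K _ _, fP_val K Θ hx b a⟩
  have h2 := huniq (fP b' a') ⟨fP_zero K _ _, by rw [h]; exact fP_val K Θ hx b' a'⟩
  have h3 : fP b a = fP b' a' := h1.trans h2.symm
  exact ⟨congrFun h3 24, congrFun h3 33⟩

omit hU in
/-- conjugation of root elements by a torus element -/
theorem dg_conj (g : GL chevF4.Idx K) (c0 c1 c2 c3 : K) (h0 : c0 ≠ 0) (h1 : c1 ≠ 0)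
    (h2 : c2 ≠ 0) (h3 : c3 ≠ 0)
    (hg : (g : Matrix chevF4.Idx chevF4.Idx K) = dgF c0 c1 c2 c3) (s : ℕ)
    (hs : s < chevF4.nroots) (t : K) :
    g * xf K Θ s t * g⁻¹ = xf K Θ s (chi4 c0 c1 c2 c3 s * t) := by
  have hD : chevF4 ∈ [chevG2, chevB2, chevD4, chevF4, chevE6, chevE7, chevE8] := by simp
  have e : g * xf K Θ s t = xf K Θ s (chi4 c0 c1 c2 c3 s * t) * g := by
    apply Units.ext
    rw [Units.val_mul, Units.val_mul, xf_val K Θ hx s hs, xf_val K Θ hx s hs, hg]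
    have hd : dgF c0 c1 c2 c3 = chevF4.hMat K 33 c0 * (chevF4.hMat K 27 c1 *
        (chevF4.hMat K 25 c2 * chevF4.hMat K 24 c3)) := by
      rw [hMat33 _ h0, hMat27 _ h1, hMat25 _ h2, hMat24 _ h3, dgF_mul, dgF_mul, dgF_mul]
      simp only [mul_one, one_mul]
    have k : ∀ (r : ℕ) (hr : r < chevF4.nroots) (c : K) (hc : c ≠ 0) (t' : K)
        (M : Matrix chevF4.Idx chevF4.Idx K),
        chevF4.hMat K r c * (chevF4.x K s t' * M) =
          chevF4.x K s (c ^ pairZ chevF4 r s * t') * (chevF4.hMat K r c * M) := by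
      intro r hr c hc t' M
      rw [← Matrix.mul_assoc, hMat_mul_x chevF4 hD r s hr hs c hc, Matrix.mul_assoc]
    rw [hd, Matrix.mul_assoc, Matrix.mul_assoc, Matrix.mul_assoc,
      hMat_mul_x chevF4 hD 24 s (by decide) hs c3 h3, k 25 (by decide) c2 h2,
      k 27 (by decide) c1 h1, k 33 (by decide) c0 h0]
    unfold chi4
    simp only [mul_assoc]
  rw [e, mul_inv_cancel_right]

end GLsec

end Cfsg.Agent.H22.TF4
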