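import Mathlib
/-!
A group generated by two involutions whose product has order 8 is dihedral of order 16 (helper22).
-/
set_option autoImplicit false

namespace Cfsg.Agent.H22.TF4

theorem dih8_normal : ∀ x : DihedralGroup 8, x ≠ 1 →
    (x ^ 4 = DihedralGroup.r 4 ∨ x ^ 2 = DihedralGroup.r 4 ∨ x = DihedralGroup.r 4 ∨
      (x * (DihedralGroup.r 1 * x * (DihedralGroup.r 1)⁻¹)) ^ 2 = DihedralGroup.r 4) := by decide

section

variable {Γ : Type*} [Group Γ]

/-- powers indexed by `ZMod 8` -/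
def pw8 (ρ : Γ) (i : ZMod 8) : Γ := ρ ^ i.val

theorem pw8_add (ρ : Γ) (h8 : ρ ^ 8 = 1) (i j : ZMod 8) : pw8 ρ (i + j) = pw8 ρ i * pw8 ρ j := by
  unfold pw8
  rw [ZMod.val_add, ← pow_add]
  conv_rhs => rw [← Nat.mod_add_div (i.val + j.val) 8]
  rw [pow_add, pow_mul, h8, one_pow, mul_one]

theorem pw8_zero (ρ : Γ) : pw8 ρ 0 = 1 := by
  unfold pw8; rw [ZMod.val_zero, pow_zero]

theorem pw8_neg (ρ : Γ) (h8 : ρ ^ 8 = 1) (i : ZMod 8) : pw8 ρ (-i) = (pw8 ρ i)⁻¹ := by
  rw [eq_inv_iff_mul_eq_one, ← pw8_add ρ h8, neg_add_cancel, pw8_zero]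

/-- the map from the dihedral group -/
def dihF (a ρ : Γ) : DihedralGroup 8 → Γ
  | DihedralGroup.r i => pw8 ρ i
  | DihedralGroup.sr i => a * pw8 ρ i

theorem dihF_mul (a b : Γ) (ha : a * a = 1) (hb : b * b = 1) (h8 : (a * b) ^ 8 = 1)
    (x y : DihedralGroup 8) : dihF a (a * b) (x * y) = dihF a (a * b) x * dihF a (a * b) y := by
  have hainv : a⁻¹ = a := inv_eq_of_mul_eq_one_right ha
  have hbinv : b⁻¹ = b := inv_eq_of_mul_eq_one_right hb
  have hconj : ∀ k : ℕ, (a * b) ^ k * a = a * ((a * b)⁻¹) ^ k := by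
    intro k
    induction k with
    | zero => simp
    | succ k ih =>
      have e : a * b * a = a * (a * b)⁻¹ := by rw [mul_inv_rev, hainv, hbinv, mul_assoc]
      rw [pow_succ', pow_succ', mul_assoc, ih, ← mul_assoc, e, mul_assoc]
  have hsw : ∀ i : ZMod 8, pw8 (a * b) i * a = a * pw8 (a * b) (-i) := by
    intro i
    rw [pw8_neg _ h8]
    unfold pw8
    rw [hconj, inv_pow]
  cases x with
  | r i =>
    cases y with
    | r j => exact pw8_add _ h8 i j
    | sr j =>
      show a * pw8 (a * b) (j - i) = pw8 (a * b) i * (a * pw8 (a * b) j)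
      rw [← mul_assoc, hsw, mul_assoc, ← pw8_add _ h8, sub_eq_neg_add]
  | sr i =>
    cases y with
    | r j =>
      show a * pw8 (a * b) (i + j) = a * pw8 (a * b) i * pw8 (a * b) j
      rw [pw8_add _ h8, mul_assoc]
    | sr j =>
      show pw8 (a * b) (j - i) = a * pw8 (a * b) i * (a * pw8 (a * b) j)
      rw [mul_assoc, ← mul_assoc (pw8 (a * b) i), hsw, ← mul_assoc, ← mul_assoc, ha, one_mul,
        ← pw8_add _ h8, sub_eq_neg_add]

/-- a group generated by two involutions whose product has order 8 is dihedral of order 16 -/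
theorem dihedral_equiv (a b : Γ) (ha : a * a = 1) (hb : b * b = 1) (h8 : (a * b) ^ 8 = 1)
    (h4 : (a * b) ^ 4 ≠ 1) (hgen : Subgroup.closure {a, b} = ⊤) :
    Nonempty (DihedralGroup 8 ≃* Γ) := by
  let f : DihedralGroup 8 →* Γ := MonoidHom.mk' (dihF a (a * b)) (dihF_mul a b ha hb h8)
  have hf4 : f (DihedralGroup.r 4) = (a * b) ^ 4 := by
    show pw8 (a * b) 4 = _
    unfold pw8
    rfl
  have hinj : Function.Injective f := by
    rw [injective_iff_map_eq_one]
    intro x hx
    by_contra hne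
    apply h4
    rw [← hf4]
    rcases dih8_normal x hne with h | h | h | h
    · rw [← h, map_pow, hx, one_pow]
    · rw [← h, map_pow, hx, one_pow]
    · rw [← h, hx]
    · rw [← h, map_pow, map_mul, map_mul, map_mul, map_inv, hx]
      simp
  have hsurj : Function.Surjective f := by
    rw [← MonoidHom.range_eq_top, eq_top_iff, ← hgen, Subgroup.closure_le]
    rintro x (rfl | rfl)
    · refine ⟨DihedralGroup.sr 0, ?_⟩
      show x * pw8 (x * b) 0 = x
      rw [pw8_zero, mul_one]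
    · refine ⟨DihedralGroup.sr 1, ?_⟩
      show a * pw8 (a * x) 1 = x
      have : pw8 (a * x) 1 = a * x := by
        unfold pw8
        have : (1 : ZMod 8).val = 1 := rfl
        rw [this, pow_one]
      rw [this, ← mul_assoc, ha, one_mul]
  exact ⟨MulEquiv.ofBijective f ⟨hinj, hsurj⟩⟩

end

end Cfsg.Agent.H22.TF4
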