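import Cfsg.Agent.H22.TF4Pc
/-!
The twisted group `²F₄`: the canonical form of a fixed point (helper22), after helper23's version
for the twisted groups with one root length.
-/
set_option autoImplicit false
open Cfsg Cfsg.Lie

namespace Cfsg.Agent.H22.TF4

open Cfsg.Agent.H22 Cfsg.Agent.H22.GEx

section generic

open Cfsg.Agent.H23

variable {D : ChevalleyDatum} {F : Type*} [Field F] {z : ℕ → ℕ → ℤ}

theorem UmG_diag_mul_le' (hS : Sem D F z) (h n : GL D.Idx F) (hh : h ∈ D.diagonalSubgroup F) :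
    UmG D F (h * n) ≤ UmG D F n := by
  apply Subgroup.closure_mono
  rintro x ⟨r, t, hr, hmap, hx⟩
  refine ⟨r, t, hr, ?_, hx⟩
  rintro y ⟨y₀, hy₀, rfl⟩
  have h1 : h * n * y₀ * (h * n)⁻¹ ∈ D.negUnipotent F := hmap (Subgroup.mem_map_of_mem _ hy₀)
  have h2 := conj_diag_neg' hS h⁻¹ (Subgroup.inv_mem _ hh) _ h1
  have e : h⁻¹ * (h * n * y₀ * (h * n)⁻¹) * h⁻¹⁻¹ = n * y₀ * n⁻¹ := by group
  rw [e] at h2
  exact h2

/-- `U_{hn}⁻ = U_n⁻` for `h ∈ H`. -/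
theorem UmG_diag_mul' (hS : Sem D F z) (h n : GL D.Idx F) (hh : h ∈ D.diagonalSubgroup F) :
    UmG D F (h * n) = UmG D F n := by
  apply le_antisymm (UmG_diag_mul_le' hS h n hh)
  have := UmG_diag_mul_le' hS h⁻¹ (h * n) (Subgroup.inv_mem _ hh)
  rwa [inv_mul_cancel_left] at this

end generic

theorem neg_lt_F : ∀ r < 48, chevF4.neg r < 48 := by decide +kernel

namespace Ctx4

variable {K : Type*} [Field K] [CharP K 2] {e : ℕ} (C : Ctx4 K e)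

/-- the automorphism preserves `N` -/
theorem sig_N (x : ↥(chevF4.group K)) (hx : (x : GL chevF4.Idx K) ∈ chevF4.monomialSubgroup K) :
    (C.σ x : GL chevF4.Idx K) ∈ chevF4.monomialSubgroup K := by
  have hp2 : Fact (Nat.Prime 2) := ⟨Nat.prime_two⟩
  unfold ChevalleyDatum.monomialSubgroup ChevalleyDatum.diagonalSubgroup at hx
  rw [← Subgroup.closure_union] at hx
  refine C.closure_sig _ _ ?_ x hx
  rintro y (⟨r, t, hr, ht, hy⟩ | ⟨r, hr, hy⟩)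
  · have hr' := neg_lt_F r hr
    have hy' : y = (C.θ (hEl chevF4 K r t) : GL chevF4.Idx K) :=
      Units.ext (by rw [hy]; exact (hElF_val K C.Θ C.hxΘ r hr hr' t).symm)
    subst hy'
    refine ⟨(C.θ (hEl chevF4 K r t)).2, ?_⟩
    have e1 : (⟨(C.θ (hEl chevF4 K r t) : GL chevF4.Idx K), (C.θ (hEl chevF4 K r t)).2⟩ :
        ↥(chevF4.group K)) = C.θ (hEl chevF4 K r t) := rfl
    rw [e1, C.hσψ, hEl_map chevF4 K rhoF4 lamF4 2 chk_F4 C.τ C.ψ C.hψ r hr]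
    apply Cfsg.Agent.H23.diagonal_le_monomial
    exact Subgroup.subset_closure ⟨rhoF4 r, C.τ t ^ lamF4 r, rhoF_lt r hr,
      pow_ne_zero _ ((map_ne_zero C.τ).mpr ht),
      hElF_val K C.Θ C.hxΘ _ (rhoF_lt r hr) (neg_lt_F _ (rhoF_lt r hr)) _⟩
  · have hr' := neg_lt_F r hr
    have hy' : y = (C.θ (nEl chevF4 K r 1) : GL chevF4.Idx K) :=
      Units.ext (by rw [hy]; exact (nElF_val K C.Θ C.hxΘ r hr hr' 1).symm)
    subst hy'
    refine ⟨(C.θ (nEl chevF4 K r 1)).2, ?_⟩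
    have e1 : (⟨(C.θ (nEl chevF4 K r 1) : GL chevF4.Idx K), (C.θ (nEl chevF4 K r 1)).2⟩ :
        ↥(chevF4.group K)) = C.θ (nEl chevF4 K r 1) := rfl
    rw [e1, C.hσψ, nEl_map chevF4 K rhoF4 lamF4 2 chk_F4 C.τ C.ψ C.hψ r hr, map_one, one_pow]
    exact (le_sup_right : _ ≤ chevF4.monomialSubgroup K) (Subgroup.subset_closure
      ⟨rhoF4 r, rhoF_lt r hr,
        nElF_val K C.Θ C.hxΘ _ (rhoF_lt r hr) (neg_lt_F _ (rhoF_lt r hr)) _⟩)

open Cfsg.Agent.H23 in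
/-- fixed elements of `U` lie in the twisted group -/
theorem U_fix_mem (u : GL chevF4.Idx K) (hu : u ∈ chevF4.posUnipotent K) (hf : C.Fx u) :
    u ∈ twistedF4 K e := by
  obtain ⟨-, h2⟩ := C.card_FS0
  apply h2
  refine ⟨?_, hf⟩
  rw [UmG_eq_pos (packF K) (Vw 0) (Vw_lt 0 (by decide)) (fun r hr => Vw0_all r hr.1 hr)]
  exact hu

open Cfsg.Agent.H23 in
/-- the canonical form of a fixed point has fixed components -/
theorem fix_canon4 (g : ↥(chevF4.group K)) (hfix : C.σ g = g) :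
    ∃ u₁ n u : GL chevF4.Idx K, u₁ ∈ chevF4.posUnipotent K ∧ C.Fx u₁ ∧
      n ∈ chevF4.monomialSubgroup K ∧ C.Fx n ∧ u ∈ UmG chevF4 K n ∧ C.Fx u ∧
      (g : GL chevF4.Idx K) = u₁ * n * u := by
  have hP := packF K
  have hV := semVF K
  have hS := hP.sem
  have hT := hP.tab
  obtain ⟨b, hb, n₀, hn₀, u, hu, e⟩ :=
    canon_exists hP hV tabT_F4 tabL_F4 (g : GL chevF4.Idx K) g.2
  obtain ⟨u₁, hu₁, h, hh, rfl⟩ := exists_mul_of_mem_sup _ _
    (diagonal_le_normalizer_rootGen hS chevF4.IsPosRoot (fun _ hr => hr.1)) b hb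
  have hnN : h * n₀ ∈ chevF4.monomialSubgroup K := mul_mem (diagonal_le_monomial hh) hn₀
  have hu' : u ∈ UmG chevF4 K (h * n₀) := by rw [UmG_diag_mul' hS h n₀ hh]; exact hu
  have e' : (g : GL chevF4.Idx K) = u₁ * (h * n₀) * u := by rw [e]; group
  generalize h * n₀ = n at hnN hu' e'
  have hu₁G : u₁ ∈ chevF4.group K := posUnipotent_le_group hS hu₁
  have hnG : n ∈ chevF4.group K := monomial_le_group hS hnN
  have huG : u ∈ chevF4.group K := posUnipotent_le_group hS (UmG_le_pos n hu')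
  obtain ⟨u₁g, hu₁g⟩ : ∃ x : ↥(chevF4.group K), (x : GL chevF4.Idx K) = u₁ := ⟨⟨u₁, hu₁G⟩, rfl⟩
  obtain ⟨ng, hng⟩ : ∃ x : ↥(chevF4.group K), (x : GL chevF4.Idx K) = n := ⟨⟨n, hnG⟩, rfl⟩
  obtain ⟨ug, hug⟩ : ∃ x : ↥(chevF4.group K), (x : GL chevF4.Idx K) = u := ⟨⟨u, huG⟩, rfl⟩
  have eg : g = u₁g * ng * ug :=
    Subtype.ext (by rw [Subgroup.coe_mul, Subgroup.coe_mul, hu₁g, hng, hug]; exact e')
  have eσ : g = C.σ u₁g * C.σ ng * C.σ ug := by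
    rw [← map_mul, ← map_mul, ← eg, hfix]
  obtain ⟨A, hA⟩ : ∃ A : GL chevF4.Idx K, A = (C.σ u₁g : GL chevF4.Idx K) := ⟨_, rfl⟩
  obtain ⟨B, hB⟩ : ∃ B : GL chevF4.Idx K, B = (C.σ ng : GL chevF4.Idx K) := ⟨_, rfl⟩
  obtain ⟨U', hU'⟩ : ∃ U' : GL chevF4.Idx K, U' = (C.σ ug : GL chevF4.Idx K) := ⟨_, rfl⟩
  have hσu₁ : A ∈ chevF4.posUnipotent K := by
    rw [hA]; exact C.sig_U u₁g (by rw [hu₁g]; exact hu₁)
  have hσn : B ∈ chevF4.monomialSubgroup K := by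
    rw [hB]; exact C.sig_N ng (by rw [hng]; exact hnN)
  have hσu : U' ∈ UmG chevF4 K B := by
    rw [hU', hB]; exact C.sig_UmG ng ug (by rw [hug, hng]; exact hu')
  have e1 : u₁ * n * u = A * B * U' := by
    rw [← e', hA, hB, hU', ← Subgroup.coe_mul, ← Subgroup.coe_mul, ← eσ]
  have hUB : chevF4.posUnipotent K ≤ chevF4.borelSubgroup K := le_sup_left
  obtain ⟨h0, -⟩ := canon_unique hP hV u₁ A n B u U' (hUB hu₁) (hUB hσu₁) hnN hσn hu' hσu e1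
  have hh₀m : B * n⁻¹ ∈ chevF4.diagonalSubgroup K := by
    have := (Subgroup.mem_normalizer_iff.mp
      (monomial_le_normalizer_diag hS hP.semN hT hP.etaNeg hnN) _).mp h0
    have e : n * (n⁻¹ * B) * n⁻¹ = B * n⁻¹ := by group
    rwa [e] at this
  have eσn : B = (B * n⁻¹) * n := by group
  have hσu' : U' ∈ UmG chevF4 K n := by
    rw [eσn, UmG_diag_mul' hS _ _ hh₀m] at hσu; exact hσu
  have e2 : u₁ * n * u = (A * (B * n⁻¹)) * n * U' := by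
    rw [e1]; group
  have hB' : A * (B * n⁻¹) ∈ chevF4.borelSubgroup K :=
    mul_mem (hUB hσu₁) ((le_sup_right : chevF4.diagonalSubgroup K ≤ _) hh₀m)
  obtain ⟨-, h3⟩ := canon_unique hP hV u₁ _ n n u U' (hUB hu₁) hB' hnN hnN hu' hσu' e2
  obtain ⟨hb_eq, hu_fix⟩ := h3 rfl
  have hfu : C.σ ug = ug := Subtype.ext (by rw [← hU', ← hu_fix, hug])
  have h4 : u₁⁻¹ * A ∈ chevF4.posUnipotent K ⊓ chevF4.monomialSubgroup K := by
    refine Subgroup.mem_inf.mpr ⟨Subgroup.mul_mem _ (Subgroup.inv_mem _ hu₁) hσu₁, ?_⟩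
    have e : u₁⁻¹ * A = n * B⁻¹ := by
      calc u₁⁻¹ * A = (A * (B * n⁻¹))⁻¹ * A := by rw [← hb_eq]
        _ = n * B⁻¹ := by group
    rw [e]
    exact Subgroup.mul_mem _ hnN (Subgroup.inv_mem _ hσn)
  rw [posUnipotent_inf_monomial hS, Subgroup.mem_bot] at h4
  have hA' : A = u₁ := by
    have : A = u₁ * (u₁⁻¹ * A) := by group
    rw [this, h4, mul_one]
  have hfu₁ : C.σ u₁g = u₁g := Subtype.ext (by rw [← hA, hA', hu₁g])
  have hfn : C.σ ng = ng := by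
    have h5 := eσ
    rw [hfu₁, hfu] at h5
    rw [eg] at h5
    exact (mul_left_cancel (mul_right_cancel h5)).symm
  refine ⟨u₁, n, u, hu₁, ?_, hnN, ?_, hu', ?_, e'⟩
  · rw [← hu₁g]; exact C.Fx_coe u₁g hfu₁
  · rw [← hng]; exact C.Fx_coe ng hfn
  · rw [← hug]; exact C.Fx_coe ug hfu

end Ctx4

end Cfsg.Agent.H22.TF4
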