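import Cfsg.Agent.H22.TF4Oa
/-!
The twisted group `²F₄`: the fixed points of `U_w⁻` for the sixteen elements of the twisted Weyl
group (helper22).
-/
set_option autoImplicit false
open Cfsg Cfsg.Lie

namespace Cfsg.Agent.H22.TF4

open Cfsg.Agent.H22 Cfsg.Agent.H22.GEx

/-- a chain of descending blocks -/
def ChainOK : List ℕ → List (List ℕ) → Prop
  | _, [] => True
  | w, L :: bs => (L = LP ∨ L = LB) ∧ NegChain chevF4 w L ∧ ChainOK (w ++ L) bs

instance decChainOK : ∀ (w : List ℕ) (bs : List (List ℕ)), Decidable (ChainOK w bs)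
  | _, [] => isTrue trivial
  | w, L :: bs => by
    unfold ChainOK
    haveI := decChainOK (w ++ L) bs
    infer_instance

theorem ChainOK.blocks : ∀ (bs : List (List ℕ)) (w : List ℕ), ChainOK w bs →
    ∀ L ∈ bs, L = LP ∨ L = LB := by
  intro bs
  induction bs with
  | nil => intro _ _ L hL; simp at hL
  | cons L₀ bs ih =>
    intro w hc L hL
    obtain ⟨h1, -, h3⟩ := hc
    rcases List.mem_cons.mp hL with rfl | h
    · exact h1
    · exact ih _ h3 L h

/-- the first `n` blocks of `P B P B …` -/
def altPB (n : ℕ) : List (List ℕ) := (List.range n).map fun i => if i % 2 = 0 then LP else LB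
/-- the first `n` blocks of `B P B P …` -/
def altBP (n : ℕ) : List (List ℕ) := (List.range n).map fun i => if i % 2 = 0 then LB else LP

/-- the exponents of the orders of the fixed points -/
def expo (m : ℕ) : ℕ := [0, 1, 3, 4, 6, 7, 9, 10, 12, 11, 9, 8, 6, 5, 3, 2].getD m 0

theorem altPB_blocks (n : ℕ) : ∀ L ∈ altPB n, L = LP ∨ L = LB := by
  intro L hL
  unfold altPB at hL
  rw [List.mem_map] at hL
  obtain ⟨i, -, rfl⟩ := hL
  split_ifs
  · exact Or.inl rfl
  · exact Or.inr rfl

theorem altBP_blocks (n : ℕ) : ∀ L ∈ altBP n, L = LP ∨ L = LB := by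
  intro L hL
  unfold altBP at hL
  rw [List.mem_map] at hL
  obtain ⟨i, -, rfl⟩ := hL
  split_ifs
  · exact Or.inr rfl
  · exact Or.inl rfl

theorem blocks_lt (ws : List (List ℕ)) (h : ∀ L ∈ ws, L = LP ∨ L = LB) :
    ∀ i ∈ ws.flatten, i < chevF4.rank := by
  intro i hi
  rw [List.mem_flatten] at hi
  obtain ⟨L, hL, hiL⟩ := hi
  rcases h L hL with rfl | rfl
  · exact LP_lt i hiL
  · exact LB_lt i hiL

theorem chainA_ok : ∀ m < 8, ChainOK (altPB (8 + m)).flatten ((altPB 16).drop (8 + m)) ∧
    Cfsg.Agent.H23.invN chevF4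
      ((altPB (8 + m)).flatten ++ ((altPB 16).drop (8 + m)).flatten).reverse = 0 ∧
    ((altPB 16).drop (8 + m)).flatten.length = 2 * expo (8 + m) := by decide +kernel

theorem chainB_ok : ∀ m < 8,
    ChainOK (altPB 8 ++ altBP (8 - m)).flatten ((altBP 8).drop (8 - m)) ∧
    Cfsg.Agent.H23.invN chevF4
      ((altPB 8 ++ altBP (8 - m)).flatten ++ ((altBP 8).drop (8 - m)).flatten).reverse = 0 ∧
    ((altBP 8).drop (8 - m)).flatten.length = 2 * expo m ∧
    (altPB 8 ++ altBP (8 - m)).flatten =
      (altPB m).flatten ++ ((altPB 8).drop m ++ altBP (8 - m)).flatten ∧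
    Cfsg.Agent.H23.invN chevF4 (((altPB 8).drop m ++ altBP (8 - m)).flatten).reverse = 0 := by
  decide +kernel

namespace Ctx4

variable {K : Type*} [Field K] [CharP K 2] {e : ℕ} (C : Ctx4 K e)

open Cfsg.Agent.H23

theorem chain_card : ∀ (bs : List (List ℕ)) (w : List ℕ), (∀ i ∈ w, i < chevF4.rank) →
    C.Fx (nWU (packF K).sem w) → ChainOK w bs →
    Nat.card (C.FS w) =
      Nat.card K ^ (bs.flatten.length / 2) * Nat.card (C.FS (w ++ bs.flatten)) := by
  intro bs
  induction bs with
  | nil => intro w _ _ _; simp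
  | cons L bs ih =>
    intro w hw hfx hc
    obtain ⟨hL, hneg, hc'⟩ := hc
    rcases hL with rfl | rfl
    · obtain ⟨h1, -⟩ := C.stepP w hw hneg hfx
      have hw' := append_lt w LP hw LP_lt
      have hfx' : C.Fx (nWU (packF K).sem (w ++ LP)) := by
        rw [nWU_append]; exact hfx.mul C.Fx_nLP
      have h2 : LP.length = 2 := rfl
      have hlen : (LP ++ bs.flatten).length / 2 = bs.flatten.length / 2 + 1 := by
        rw [List.length_append, h2]; omega
      rw [h1, ih (w ++ LP) hw' hfx' hc', List.flatten_cons, ← List.append_assoc, hlen, pow_succ]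
      ring
    · obtain ⟨h1, -⟩ := C.stepB w hw hneg hfx
      have hw' := append_lt w LB hw LB_lt
      have hfx' : C.Fx (nWU (packF K).sem (w ++ LB)) := by
        rw [nWU_append]; exact hfx.mul C.Fx_nLB
      have h2 : LB.length = 4 := rfl
      have hlen : (LB ++ bs.flatten).length / 2 = bs.flatten.length / 2 + 2 := by
        rw [List.length_append, h2]; omega
      rw [h1, ih (w ++ LB) hw' hfx' hc', List.flatten_cons, ← List.append_assoc, hlen,
        Nat.card_prod, pow_succ, pow_succ]
      ring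

theorem card_FS_blocks (ws bs : List (List ℕ)) (hws : ∀ L ∈ ws, L = LP ∨ L = LB)
    (hc : ChainOK ws.flatten bs)
    (hend : invN chevF4 (ws.flatten ++ bs.flatten).reverse = 0) (n : ℕ)
    (hn : bs.flatten.length = 2 * n) :
    Nat.card (C.FS ws.flatten) = Nat.card K ^ n := by
  have hP := packF K
  have hV := semVF K
  have hw := blocks_lt ws hws
  have h1 := C.chain_card bs ws.flatten hw (C.Fx_blocks ws hws) hc
  have hbs := blocks_lt bs (ChainOK.blocks bs _ hc)
  have h8 : C.FS (ws.flatten ++ bs.flatten) = {1} := by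
    ext u
    unfold FS
    rw [UmG_eq_bot' hP hV _ (append_lt _ _ hw hbs) hend]
    simp only [Set.mem_setOf_eq, Subgroup.mem_bot, Set.mem_singleton_iff]
    constructor
    · exact fun h => h.1
    · intro h; exact ⟨h, by rw [h]; exact C.Fx_one⟩
  have c8 : Nat.card (C.FS (ws.flatten ++ bs.flatten)) = 1 := by
    rw [h8]; simp
  rw [h1, c8, hn, Nat.mul_div_cancel_left _ (by norm_num : 0 < 2), mul_one]

/-- the number of fixed points of `U_w⁻` for the sixteen representatives -/
theorem card_rep (m : ℕ) (hm : m < 16) :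
    Nat.card (C.FS (altPB m).flatten) = Nat.card K ^ expo m := by
  have hP := packF K
  have hS := hP.sem
  have hT := hP.tab
  by_cases h8 : m < 8
  · obtain ⟨hc, hend, hlen, hsplit, hT0⟩ := chainB_ok m h8
    have hbl : ∀ L ∈ altPB 8 ++ altBP (8 - m), L = LP ∨ L = LB := by
      intro L hL
      rcases List.mem_append.mp hL with h | h
      · exact altPB_blocks 8 L h
      · exact altBP_blocks _ L h
    have h1 := C.card_FS_blocks (altPB 8 ++ altBP (8 - m)) ((altBP 8).drop (8 - m)) hbl hc hend
      (expo m) hlen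
    have hblT : ∀ L ∈ (altPB 8).drop m ++ altBP (8 - m), L = LP ∨ L = LB := by
      intro L hL
      rcases List.mem_append.mp hL with h | h
      · exact altPB_blocks 8 L (List.mem_of_mem_drop h)
      · exact altBP_blocks _ L h
    have hTd : nWU hS ((altPB 8).drop m ++ altBP (8 - m)).flatten ∈ chevF4.diagonalSubgroup K :=
      nWU_mem_diag_of_inv0 hP _ (blocks_lt _ hblT) hT0
    have hmN : nWU hS (altPB m).flatten ∈ chevF4.monomialSubgroup K :=
      nWU_mem hS hT _ (blocks_lt _ (altPB_blocks m))
    have hconj := (Subgroup.mem_normalizer_iff.mp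
      (monomial_le_normalizer_diag hS hP.semN hT hP.etaNeg hmN) _).mp hTd
    have hFS : C.FS (altPB 8 ++ altBP (8 - m)).flatten = C.FS (altPB m).flatten := by
      unfold FS
      rw [hsplit, nWU_append]
      have e : nWU (packF K).sem (altPB m).flatten *
          nWU (packF K).sem ((altPB 8).drop m ++ altBP (8 - m)).flatten =
          (nWU hS (altPB m).flatten * nWU hS ((altPB 8).drop m ++ altBP (8 - m)).flatten *
            (nWU hS (altPB m).flatten)⁻¹) * nWU hS (altPB m).flatten := by group
      rw [e, UmG_diag_mul' hS _ _ hconj]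
    rw [← hFS]
    exact h1
  · obtain ⟨hc, hend, hlen⟩ := chainA_ok (m - 8) (by omega)
    have e : 8 + (m - 8) = m := by omega
    rw [e] at hc hend hlen
    exact C.card_FS_blocks (altPB m) ((altPB 16).drop m) (altPB_blocks m) hc hend (expo m) hlen

end Ctx4

end Cfsg.Agent.H22.TF4
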