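import Cfsg.Agent.H22.TF4Ob
/-!
The twisted group `²F₄`: the sixteen double cosets and the order of the group (helper22).
-/
set_option autoImplicit false
open Cfsg Cfsg.Lie

namespace Cfsg.Agent.H22.TF4

open Cfsg.Agent.H22 Cfsg.Agent.H22.GEx

open Cfsg.Agent.H23

/-- the sixteen representatives of the twisted Weyl group -/
def repW (K : Type*) [Field K] (m : ℕ) : GL chevF4.Idx K := nWU (packF K).sem (altPB m).flatten

theorem altPB_succ (m : ℕ) : altPB (m + 1) = altPB m ++ [if m % 2 = 0 then LP else LB] := by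
  unfold altPB
  rw [List.range_succ, List.map_append]
  rfl

theorem repW_zero (K : Type*) [Field K] : repW K 0 = 1 := by
  simp [repW, altPB, nWU]

theorem repW_succ (K : Type*) [Field K] (m : ℕ) :
    repW K (m + 1) = repW K m * nWU (packF K).sem (if m % 2 = 0 then LP else LB) := by
  unfold repW
  rw [altPB_succ, List.flatten_append, nWU_append]
  simp

theorem inv_rep16 : invN chevF4 (altPB 16).flatten.reverse = 0 := by decide +kernel

theorem rep_N {K : Type*} [Field K] (m : ℕ) : repW K m ∈ chevF4.monomialSubgroup K :=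
  nWU_mem _ (packF K).tab _ (blocks_lt _ (altPB_blocks m))

theorem conj_H1 {K : Type*} [Field K] (e : ℕ) (n h : GL chevF4.Idx K)
    (hn : n ∈ chevF4.monomialSubgroup K ⊓ twistedF4 K e)
    (hh : h ∈ chevF4.diagonalSubgroup K ⊓ twistedF4 K e) :
    n * h * n⁻¹ ∈ chevF4.diagonalSubgroup K ⊓ twistedF4 K e := by
  obtain ⟨hn1, hn2⟩ := Subgroup.mem_inf.mp hn
  obtain ⟨hh1, hh2⟩ := Subgroup.mem_inf.mp hh
  have hP := packF K
  refine Subgroup.mem_inf.mpr ⟨(Subgroup.mem_normalizer_iff.mp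
    (monomial_le_normalizer_diag hP.sem hP.semN hP.tab hP.etaNeg hn1) _).mp hh1, ?_⟩
  exact Subgroup.mul_mem _ (Subgroup.mul_mem _ hn2 hh2) (Subgroup.inv_mem _ hn2)

/-- the union of the sixteen cosets of `H¹` in `N¹` -/
def TT (K : Type*) [Field K] (e : ℕ) : Set (GL chevF4.Idx K) :=
  {x | ∃ h ∈ chevF4.diagonalSubgroup K ⊓ twistedF4 K e, ∃ m < 16, x = h * repW K m}

theorem expo_sum (q : ℕ) : ∑ m : Fin 16, q ^ expo (m : ℕ) =
    1 + q + q ^ 2 + 2 * q ^ 3 + q ^ 4 + q ^ 5 + 2 * q ^ 6 + q ^ 7 + q ^ 8 + 2 * q ^ 9 + q ^ 10 +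
      q ^ 11 + q ^ 12 := by
  rw [Fin.sum_univ_eq_sum_range (fun m => q ^ expo m) 16]
  simp only [Finset.sum_range_succ, Finset.sum_range_zero]
  have e : expo 0 = 0 ∧ expo 1 = 1 ∧ expo 2 = 3 ∧ expo 3 = 4 ∧ expo 4 = 6 ∧ expo 5 = 7 ∧
      expo 6 = 9 ∧ expo 7 = 10 ∧ expo 8 = 12 ∧ expo 9 = 11 ∧ expo 10 = 9 ∧ expo 11 = 8 ∧
      expo 12 = 6 ∧ expo 13 = 5 ∧ expo 14 = 3 ∧ expo 15 = 2 := by decide
  obtain ⟨e0, e1, e2, e3, e4, e5, e6, e7, e8, e9, e10, e11, e12, e13, e14, e15⟩ := e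
  rw [e0, e1, e2, e3, e4, e5, e6, e7, e8, e9, e10, e11, e12, e13, e14, e15]
  ring

/-- the order formula -/
theorem order_arith (q : ℕ) (hq : 1 ≤ q) :
    (q - 1) ^ 2 * q ^ 12 * ∑ m : Fin 16, q ^ expo (m : ℕ) =
      q ^ 12 * (q - 1) * (q ^ 3 + 1) * (q ^ 4 - 1) * (q ^ 6 + 1) := by
  obtain ⟨Q, rfl⟩ : ∃ Q, q = Q + 1 := ⟨q - 1, by omega⟩
  rw [expo_sum, Nat.add_sub_cancel]
  have h4 : (Q + 1) ^ 4 - 1 = Q * ((Q + 1) ^ 3 + (Q + 1) ^ 2 + (Q + 1) + 1) := by
    apply Nat.sub_eq_of_eq_add; ring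
  rw [h4]; ring

namespace Ctx4

variable {K : Type*} [Field K] [CharP K 2] {e : ℕ} (C : Ctx4 K e)

include C

theorem rep_mem : ∀ m : ℕ, repW K m ∈ twistedF4 K e := by
  intro m
  induction m with
  | zero => rw [repW_zero]; exact one_mem _
  | succ m ih =>
    rw [repW_succ]
    refine mul_mem ih ?_
    split_ifs
    · rw [← C.nPg_coe]; exact C.nPg_mem
    · rw [← C.nBg_coe]; exact C.nBg_mem

theorem TT_mul_H (x h' : GL chevF4.Idx K) (hx : x ∈ TT K e)
    (hh' : h' ∈ chevF4.diagonalSubgroup K ⊓ twistedF4 K e) : x * h' ∈ TT K e := by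
  obtain ⟨h, hh, m, hm, rfl⟩ := hx
  exact ⟨h * (repW K m * h' * (repW K m)⁻¹),
    Subgroup.mul_mem _ hh (conj_H1 e _ _ (Subgroup.mem_inf.mpr ⟨rep_N m, C.rep_mem m⟩) hh'),
    m, hm, by group⟩

theorem nPP_mem : (C.nPg : GL chevF4.Idx K) * (C.nPg : GL chevF4.Idx K) ∈
    chevF4.diagonalSubgroup K ⊓ twistedF4 K e := by
  refine Subgroup.mem_inf.mpr ⟨?_, Subgroup.mul_mem _ C.nPg_mem C.nPg_mem⟩
  rw [C.nPg_coe, ← nWU_append]
  exact nWU_mem_diag_of_inv0 (packF K) _ (append_lt _ _ LP_lt LP_lt) inv_PP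

theorem nBB_mem : (C.nBg : GL chevF4.Idx K) * (C.nBg : GL chevF4.Idx K) ∈
    chevF4.diagonalSubgroup K ⊓ twistedF4 K e := by
  refine Subgroup.mem_inf.mpr ⟨?_, Subgroup.mul_mem _ C.nBg_mem C.nBg_mem⟩
  rw [C.nBg_coe, ← nWU_append]
  exact nWU_mem_diag_of_inv0 (packF K) _ (append_lt _ _ LB_lt LB_lt) inv_BB

theorem rep16_mem : repW K 16 ∈ chevF4.diagonalSubgroup K ⊓ twistedF4 K e :=
  Subgroup.mem_inf.mpr ⟨nWU_mem_diag_of_inv0 (packF K) _ (blocks_lt _ (altPB_blocks 16)) inv_rep16,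
    C.rep_mem 16⟩

theorem TT_mul_P (x : GL chevF4.Idx K) (hx : x ∈ TT K e) :
    x * (C.nPg : GL chevF4.Idx K) ∈ TT K e := by
  obtain ⟨h, hh, m, hm, rfl⟩ := hx
  by_cases hpar : m % 2 = 0
  · refine ⟨h, hh, m + 1, by omega, ?_⟩
    rw [repW_succ, if_pos hpar, ← C.nPg_coe, mul_assoc]
  · obtain ⟨m', rfl⟩ : ∃ m', m = m' + 1 := ⟨m - 1, by omega⟩
    have hpar' : m' % 2 = 0 := by omega
    have h1 : h * repW K m' ∈ TT K e := ⟨h, hh, m', by omega, rfl⟩
    have h2 := C.TT_mul_H _ _ h1 C.nPP_mem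
    have e1 : h * repW K (m' + 1) * (C.nPg : GL chevF4.Idx K) =
        h * repW K m' * ((C.nPg : GL chevF4.Idx K) * (C.nPg : GL chevF4.Idx K)) := by
      rw [repW_succ, if_pos hpar', ← C.nPg_coe]; group
    rw [e1]; exact h2

theorem TT_mul_B (x : GL chevF4.Idx K) (hx : x ∈ TT K e) :
    x * (C.nBg : GL chevF4.Idx K) ∈ TT K e := by
  obtain ⟨h, hh, m, hm, rfl⟩ := hx
  have e16 : repW K 16 = repW K 15 * (C.nBg : GL chevF4.Idx K) := by
    show repW K (15 + 1) = _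
    rw [repW_succ, if_neg (by norm_num), ← C.nBg_coe]
  by_cases hpar : m % 2 = 0
  · rcases m with _ | m'
    · have hz := C.rep16_mem
      refine ⟨h * ((C.nBg : GL chevF4.Idx K) * (C.nBg : GL chevF4.Idx K)) * (repW K 16)⁻¹,
        Subgroup.mul_mem _ (Subgroup.mul_mem _ hh C.nBB_mem) (Subgroup.inv_mem _ hz), 15,
        by norm_num, ?_⟩
      rw [repW_zero, e16]; group
    · have hpar' : ¬ m' % 2 = 0 := by omega
      have h1 : h * repW K m' ∈ TT K e := ⟨h, hh, m', by omega, rfl⟩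
      have h2 := C.TT_mul_H _ _ h1 C.nBB_mem
      have e1 : h * repW K (m' + 1) * (C.nBg : GL chevF4.Idx K) =
          h * repW K m' * ((C.nBg : GL chevF4.Idx K) * (C.nBg : GL chevF4.Idx K)) := by
        rw [repW_succ, if_neg hpar', ← C.nBg_coe]; group
      rw [e1]; exact h2
  · by_cases h15 : m + 1 < 16
    · refine ⟨h, hh, m + 1, h15, ?_⟩
      rw [repW_succ, if_neg hpar, ← C.nBg_coe, mul_assoc]
    · have hm15 : m = 15 := by omega
      subst hm15
      refine ⟨h * repW K 16, Subgroup.mul_mem _ hh C.rep16_mem, 0, by norm_num, ?_⟩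
      rw [repW_zero, mul_one, e16, mul_assoc]

theorem TT_closure (y : GL chevF4.Idx K)
    (hy : y ∈ Subgroup.closure {(C.nPg : GL chevF4.Idx K), (C.nBg : GL chevF4.Idx K)}) :
    ∀ x ∈ TT K e, x * y ∈ TT K e := by
  induction hy using Subgroup.closure_induction'' with
  | mem y hy =>
    intro x hx
    rcases hy with rfl | hy
    · exact C.TT_mul_P x hx
    · rw [Set.mem_singleton_iff] at hy
      subst hy
      exact C.TT_mul_B x hx
  | inv_mem y hy =>
    intro x hx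
    rcases hy with rfl | hy
    · have e1 : x * (C.nPg : GL chevF4.Idx K)⁻¹ =
          x * ((C.nPg : GL chevF4.Idx K) * (C.nPg : GL chevF4.Idx K))⁻¹ *
            (C.nPg : GL chevF4.Idx K) := by group
      rw [e1]
      exact C.TT_mul_P _ (C.TT_mul_H _ _ hx (Subgroup.inv_mem _ C.nPP_mem))
    · rw [Set.mem_singleton_iff] at hy
      subst hy
      have e1 : x * (C.nBg : GL chevF4.Idx K)⁻¹ =
          x * ((C.nBg : GL chevF4.Idx K) * (C.nBg : GL chevF4.Idx K))⁻¹ *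
            (C.nBg : GL chevF4.Idx K) := by group
      rw [e1]
      exact C.TT_mul_B _ (C.TT_mul_H _ _ hx (Subgroup.inv_mem _ C.nBB_mem))
  | one => intro x hx; rw [mul_one]; exact hx
  | mul a b _ _ iha ihb => intro x hx; rw [← mul_assoc]; exact ihb _ (iha x hx)

/-- `N¹` is the union of the sixteen cosets -/
theorem N1_surj (n : GL chevF4.Idx K) (hn : n ∈ chevF4.monomialSubgroup K ⊓ twistedF4 K e) :
    n ∈ TT K e := by
  obtain ⟨hn1, hn2⟩ := Subgroup.mem_inf.mp hn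
  obtain ⟨h', hh', m, hm, rfl⟩ := C.N1_decomp n hn1 hn2
  exact C.TT_closure m hm h' ⟨h', hh', 0, by norm_num, by rw [repW_zero, mul_one]⟩

theorem card_N1 [Finite K] : Nat.card ↥(chevF4.monomialSubgroup K ⊓ twistedF4 K e) =
    Nat.card ↥(chevF4.diagonalSubgroup K ⊓ twistedF4 K e) * 16 := by
  obtain ⟨φ, hφ, hker⟩ := C.weyl_D16
  have h1 := Subgroup.card_eq_card_quotient_mul_card_subgroup φ.ker
  have h2 : Nat.card (↥(chevF4.monomialSubgroup K ⊓ twistedF4 K e) ⧸ φ.ker) = 16 := by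
    rw [Nat.card_congr (QuotientGroup.quotientKerEquivOfSurjective φ hφ).toEquiv,
      DihedralGroup.nat_card]
  have hle : chevF4.diagonalSubgroup K ⊓ twistedF4 K e ≤
      chevF4.monomialSubgroup K ⊓ twistedF4 K e := inf_le_inf_right _ diagonal_le_monomial
  have h3 : Nat.card ↥φ.ker = Nat.card ↥(chevF4.diagonalSubgroup K ⊓ twistedF4 K e) := by
    rw [hker]; exact Nat.card_congr (Subgroup.subgroupOfEquivOfLe hle).toEquiv
  rw [h1, h2, h3, mul_comm]

/-- the sixteen cosets are distinct -/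
theorem rep_inj [Finite K] (h h' : GL chevF4.Idx K)
    (hh : h ∈ chevF4.diagonalSubgroup K ⊓ twistedF4 K e)
    (hh' : h' ∈ chevF4.diagonalSubgroup K ⊓ twistedF4 K e) (m m' : ℕ) (hm : m < 16)
    (hm' : m' < 16) (heq : h * repW K m = h' * repW K m') : h = h' ∧ m = m' := by
  have hmem : ∀ p : ↥(chevF4.diagonalSubgroup K ⊓ twistedF4 K e) × Fin 16,
      (p.1 : GL chevF4.Idx K) * repW K p.2 ∈ chevF4.monomialSubgroup K ⊓ twistedF4 K e :=
    fun p => Subgroup.mem_inf.mpr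
      ⟨Subgroup.mul_mem _ (diagonal_le_monomial p.1.2.1) (rep_N _),
        Subgroup.mul_mem _ p.1.2.2 (C.rep_mem _)⟩
  let s : ↥(chevF4.diagonalSubgroup K ⊓ twistedF4 K e) × Fin 16 →
      ↥(chevF4.monomialSubgroup K ⊓ twistedF4 K e) := fun p => ⟨_, hmem p⟩
  have hs : Function.Surjective s := by
    rintro ⟨n, hn⟩
    obtain ⟨h, hh, m, hm, rfl⟩ := C.N1_surj n hn
    exact ⟨(⟨h, hh⟩, ⟨m, hm⟩), rfl⟩
  have hb := hs.bijective_of_nat_card_le (by
    rw [Nat.card_prod, Nat.card_eq_fintype_card (α := Fin 16), Fintype.card_fin, C.card_N1])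
  have h1 := hb.1 (a₁ := (⟨h, hh⟩, ⟨m, hm⟩)) (a₂ := (⟨h', hh'⟩, ⟨m', hm'⟩)) (Subtype.ext heq)
  have e1 := congrArg (fun p => (p.1 : GL chevF4.Idx K)) h1
  have e2 := congrArg (fun p => (p.2 : ℕ)) h1
  exact ⟨e1, e2⟩

/-- the order of the twisted group as a sum over the sixteen double cosets -/
theorem card_G1 [Finite K] : Nat.card ↥(twistedF4 K e) =
    Nat.card ↥(chevF4.diagonalSubgroup K ⊓ twistedF4 K e) *
      Nat.card ↥(chevF4.posUnipotent K ⊓ twistedF4 K e) *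
      ∑ m : Fin 16, Nat.card (C.FS (altPB (m : ℕ)).flatten) := by
  have hP := packF K
  have hV := semVF K
  have hS := hP.sem
  have hT := hP.tab
  have hmem : ∀ p : (↥(chevF4.diagonalSubgroup K ⊓ twistedF4 K e) ×
      ↥(chevF4.posUnipotent K ⊓ twistedF4 K e)) ×
      (Σ m : Fin 16, ↥(C.FS (altPB (m : ℕ)).flatten)),
      (p.1.2 : GL chevF4.Idx K) * (p.1.1 : GL chevF4.Idx K) * repW K p.2.1 *
        (p.2.2 : GL chevF4.Idx K) ∈ twistedF4 K e :=
    fun p => Subgroup.mul_mem _ (Subgroup.mul_mem _ (Subgroup.mul_mem _ p.1.2.2.2 p.1.1.2.2)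
      (C.rep_mem _)) (C.U_fix_mem _ (UmG_le_pos _ p.2.2.2.1) p.2.2.2.2)
  let Ψ : (↥(chevF4.diagonalSubgroup K ⊓ twistedF4 K e) ×
      ↥(chevF4.posUnipotent K ⊓ twistedF4 K e)) ×
      (Σ m : Fin 16, ↥(C.FS (altPB (m : ℕ)).flatten)) → ↥(twistedF4 K e) :=
    fun p => ⟨_, hmem p⟩
  have hΨ : Function.Bijective Ψ := by
    constructor
    · rintro ⟨⟨h, u₁⟩, ⟨m, u⟩⟩ ⟨⟨h', u₁'⟩, ⟨m', u'⟩⟩ heq
      have heq' : (u₁ : GL chevF4.Idx K) * (h : GL chevF4.Idx K) * repW K m *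
          (u : GL chevF4.Idx K) = (u₁' : GL chevF4.Idx K) * (h' : GL chevF4.Idx K) *
            repW K m' * (u' : GL chevF4.Idx K) := congrArg Subtype.val heq
      have hB : ∀ (a : ↥(chevF4.posUnipotent K ⊓ twistedF4 K e))
          (b : ↥(chevF4.diagonalSubgroup K ⊓ twistedF4 K e)),
          (a : GL chevF4.Idx K) * (b : GL chevF4.Idx K) ∈ chevF4.borelSubgroup K := fun a b =>
        Subgroup.mul_mem _ ((le_sup_left : _ ≤ chevF4.borelSubgroup K) a.2.1)
          ((le_sup_right : _ ≤ chevF4.borelSubgroup K) b.2.1)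
      obtain ⟨h0, h3⟩ := canon_unique hP hV _ _ _ _ _ _ (hB u₁ h) (hB u₁' h')
        (rep_N (m : ℕ)) (rep_N (m' : ℕ)) u.2.1 u'.2.1 heq'
      have hconj : repW K m' * (repW K m)⁻¹ ∈ chevF4.diagonalSubgroup K ⊓ twistedF4 K e := by
        refine Subgroup.mem_inf.mpr ⟨?_, Subgroup.mul_mem _ (C.rep_mem _)
          (Subgroup.inv_mem _ (C.rep_mem _))⟩
        have := (Subgroup.mem_normalizer_iff.mp
          (monomial_le_normalizer_diag hS hP.semN hT hP.etaNeg (rep_N (K := K) (m : ℕ))) _).mp h0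
        have e1 : repW K m * ((repW K m)⁻¹ * repW K m') * (repW K m)⁻¹ =
            repW K m' * (repW K m)⁻¹ := by group
        rwa [e1] at this
      have hmm : (m : ℕ) = m' :=
        (C.rep_inj _ 1 hconj (one_mem _) m m' m.2 m'.2 (by group)).2
      have hmm' : m = m' := Fin.ext hmm
      subst hmm'
      obtain ⟨hb_eq, hu_eq⟩ := h3 rfl
      have h4 : (u₁' : GL chevF4.Idx K)⁻¹ * (u₁ : GL chevF4.Idx K) ∈
          chevF4.posUnipotent K ⊓ chevF4.monomialSubgroup K := by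
        refine Subgroup.mem_inf.mpr
          ⟨Subgroup.mul_mem _ (Subgroup.inv_mem _ u₁'.2.1) u₁.2.1, ?_⟩
        have e1 : (u₁' : GL chevF4.Idx K)⁻¹ * (u₁ : GL chevF4.Idx K) =
            (h' : GL chevF4.Idx K) * (h : GL chevF4.Idx K)⁻¹ := by
          have : (u₁ : GL chevF4.Idx K) =
              (u₁' : GL chevF4.Idx K) * (h' : GL chevF4.Idx K) * (h : GL chevF4.Idx K)⁻¹ := by
            rw [← hb_eq]; group
          rw [this]; group
        rw [e1]
        exact Subgroup.mul_mem _ (diagonal_le_monomial h'.2.1)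
          (Subgroup.inv_mem _ (diagonal_le_monomial h.2.1))
      rw [posUnipotent_inf_monomial hS, Subgroup.mem_bot] at h4
      have hu₁ : u₁ = u₁' := Subtype.ext (by
        have : (u₁ : GL chevF4.Idx K) =
            (u₁' : GL chevF4.Idx K) * ((u₁' : GL chevF4.Idx K)⁻¹ * (u₁ : GL chevF4.Idx K)) := by
          group
        rw [this, h4, mul_one])
      subst hu₁
      have hh : h = h' := Subtype.ext (mul_left_cancel hb_eq)
      subst hh
      have hu : u = u' := Subtype.ext hu_eq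
      subst hu
      rfl
    · rintro ⟨g, hg⟩
      obtain ⟨hG, hfix⟩ := C.Fx_of_mem g hg
      obtain ⟨u₁, n, u, hu₁, hfu₁, hnN, hfn, hu, hfu, e0⟩ := C.fix_canon4 ⟨g, hG⟩ hfix
      have e' : g = u₁ * n * u := e0
      have hu₁G := C.U_fix_mem u₁ hu₁ hfu₁
      have huG := C.U_fix_mem u (UmG_le_pos n hu) hfu
      have hnG : n ∈ twistedF4 K e := by
        have : n = u₁⁻¹ * g * u⁻¹ := by rw [e']; group
        rw [this]
        exact Subgroup.mul_mem _ (Subgroup.mul_mem _ (Subgroup.inv_mem _ hu₁G) hg)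
          (Subgroup.inv_mem _ huG)
      obtain ⟨h, hh, m, hm, rfl⟩ := C.N1_surj n (Subgroup.mem_inf.mpr ⟨hnN, hnG⟩)
      have hu' : u ∈ UmG chevF4 K (repW K m) := by
        rw [UmG_diag_mul' hS h _ hh.1] at hu; exact hu
      refine ⟨((⟨h, hh⟩, ⟨u₁, Subgroup.mem_inf.mpr ⟨hu₁, hu₁G⟩⟩),
        ⟨⟨m, hm⟩, ⟨u, ⟨hu', hfu⟩⟩⟩), Subtype.ext ?_⟩
      show u₁ * h * repW K m * u = g
      rw [e']; group
  rw [← Nat.card_congr (Equiv.ofBijective Ψ hΨ), Nat.card_prod, Nat.card_prod, Nat.card_sigma]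

/-- the order of the twisted group -/
theorem order_G1 [Finite K] : Nat.card ↥(twistedF4 K e) =
    Nat.card ↥(chevF4.diagonalSubgroup K ⊓ twistedF4 K e) * Nat.card K ^ 12 *
      ∑ m : Fin 16, Nat.card K ^ expo (m : ℕ) := by
  have h1 := C.card_G1
  have h2 : ∑ m : Fin 16, Nat.card (C.FS (altPB (m : ℕ)).flatten) =
      ∑ m : Fin 16, Nat.card K ^ expo (m : ℕ) :=
    Finset.sum_congr rfl (fun m _ => C.card_rep m m.2)
  rw [h1, C.card_U1, h2]

end Ctx4

end Cfsg.Agent.H22.TF4
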