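import Cfsg.Agent.H22.TF4Wa
import Cfsg.Agent.H23.FieldFix
/-!
Peeling the subgroups `U_w⁻` along a chain of descents (helper22), after helper23's block version.
-/
set_option autoImplicit false
open Cfsg Cfsg.Lie

namespace Cfsg.Agent.H22.TF4

open Cfsg.Agent.H23

section generic

variable {D : ChevalleyDatum} {F : Type*} [Field F] {z η : ℕ → ℕ → ℤ}

/-- the element of the product of the root subgroups made negative by the word `L` -/
def XL (hS : Sem D F z) : List ℕ → List F → GL D.Idx F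
  | [], _ => 1
  | b :: L, ts => nU hS (D.simple b) 1 * XL hS L ts.tail * (nU hS (D.simple b) 1)⁻¹ *
      xU hS (D.simple b) (ts.headD 0)

theorem XL_nil (hS : Sem D F z) (ts : List F) : XL hS [] ts = 1 := rfl

theorem XL_cons (hS : Sem D F z) (b : ℕ) (L : List ℕ) (ts : List F) :
    XL hS (b :: L) ts = nU hS (D.simple b) 1 * XL hS L ts.tail * (nU hS (D.simple b) 1)⁻¹ *
      xU hS (D.simple b) (ts.headD 0) := rfl

/-- a chain of descents: each letter of `L` is a descent of the word read so far -/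
def NegChain (D : ChevalleyDatum) : List ℕ → List ℕ → Prop
  | _, [] => True
  | w, b :: L => b < D.rank ∧ D.IsNegRoot (reflW D w (D.simple b)) ∧ NegChain D (w ++ [b]) L

instance decNegChain (D : ChevalleyDatum) : ∀ (w L : List ℕ), Decidable (NegChain D w L)
  | _, [] => isTrue trivial
  | w, b :: L => by
    unfold NegChain
    haveI := decNegChain D (w ++ [b]) L
    infer_instance

theorem nWU_snoc' (hS : Sem D F z) (w : List ℕ) (i : ℕ) :
    nWU hS (w ++ [i]) = nWU hS w * nU hS (D.simple i) 1 := by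
  rw [nWU_append]; simp [nWU]

theorem snoc_lt (w : List ℕ) (b : ℕ) (hw : ∀ i ∈ w, i < D.rank) (hb : b < D.rank) :
    ∀ i ∈ w ++ [b], i < D.rank := by
  intro i hi
  rcases List.mem_append.mp hi with h | h
  · exact hw i h
  · rw [List.mem_singleton.mp h]; exact hb

theorem peel_re (hS : Sem D F z) (b : ℕ) (L : List ℕ) (a : GL D.Idx F) (ts : List F) :
    nWU hS (b :: L) * a * (nWU hS (b :: L))⁻¹ * XL hS (b :: L) ts =
      nU hS (D.simple b) 1 * (nWU hS L * a * (nWU hS L)⁻¹ * XL hS L ts.tail) *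
        (nU hS (D.simple b) 1)⁻¹ * xU hS (D.simple b) (ts.headD 0) := by
  rw [nWU_cons, XL_cons]
  group

theorem gpeel_mem (hP : PackB D F z η) (hV : SemV D F) : ∀ (L w : List ℕ),
    (∀ i ∈ w, i < D.rank) → NegChain D w L → ∀ a ∈ UmG D F (nWU hP.sem (w ++ L)),
    ∀ ts : List F,
      nWU hP.sem L * a * (nWU hP.sem L)⁻¹ * XL hP.sem L ts ∈ UmG D F (nWU hP.sem w) := by
  intro L
  induction L with
  | nil =>
    intro w _ _ a ha ts
    simpa [nWU, XL] using ha
  | cons b L ih =>
    intro w hw hneg a ha ts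
    obtain ⟨hb, hnegb, hneg'⟩ := hneg
    have hw' := snoc_lt w b hw hb
    have ha' : a ∈ UmG D F (nWU hP.sem ((w ++ [b]) ++ L)) := by
      have e : (w ++ [b]) ++ L = w ++ b :: L := by simp
      rw [e]; exact ha
    have hA := ih (w ++ [b]) hw' hneg' a ha' ts.tail
    rw [nWU_snoc'] at hA
    rw [peel_re]
    rw [UmG_eq_univ] at hA ⊢
    exact Subgroup.mul_mem _
      (conj_UmS_step hP hV w hw b hb hnegb Set.univ (fun _ _ => Set.mem_univ _) hA)
      (xU_simple_mem_UmS hP w hw b hb hnegb Set.univ _ (Set.mem_univ _))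

theorem gpeel_exists (hP : PackB D F z η) (hV : SemV D F) {rT : List ℕ} (hTT : TabT D rT)
    (hTL : TabL D rT) : ∀ (L w : List ℕ), (∀ i ∈ w, i < D.rank) → NegChain D w L →
    ∀ u ∈ UmG D F (nWU hP.sem w), ∃ u' ∈ UmG D F (nWU hP.sem (w ++ L)), ∃ ts : List F,
      ts.length = L.length ∧ u = nWU hP.sem L * u' * (nWU hP.sem L)⁻¹ * XL hP.sem L ts := by
  intro L
  induction L with
  | nil =>
    intro w _ _ u hu
    exact ⟨u, by simpa using hu, [], rfl, by simp [nWU, XL]⟩
  | cons b L ih =>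
    intro w hw hneg u hu
    obtain ⟨hb, hnegb, hneg'⟩ := hneg
    have hw' := snoc_lt w b hw hb
    obtain ⟨u₁, hu₁, tb, rfl⟩ := UmG_decomp hP hV w hw b hb hnegb hTT hTL u hu
    rw [← nWU_snoc'] at hu₁
    obtain ⟨u', hu', ts, hlen, rfl⟩ := ih (w ++ [b]) hw' hneg' u₁ hu₁
    have e : (w ++ [b]) ++ L = w ++ b :: L := by simp
    rw [e] at hu'
    refine ⟨u', hu', tb :: ts, by simp [hlen], ?_⟩
    rw [peel_re]
    rfl

theorem gpeel_unique (hP : PackB D F z η) (hV : SemV D F) : ∀ (L w : List ℕ),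
    (∀ i ∈ w, i < D.rank) → NegChain D w L → ∀ a ∈ UmG D F (nWU hP.sem (w ++ L)),
    ∀ a' ∈ UmG D F (nWU hP.sem (w ++ L)), ∀ ts ts' : List F, ts.length = L.length →
    ts'.length = L.length →
      nWU hP.sem L * a * (nWU hP.sem L)⁻¹ * XL hP.sem L ts =
        nWU hP.sem L * a' * (nWU hP.sem L)⁻¹ * XL hP.sem L ts' →
      a = a' ∧ ts = ts' := by
  intro L
  induction L with
  | nil =>
    intro w _ _ a _ a' _ ts ts' hl hl' e
    refine ⟨by simpa [nWU, XL] using e, ?_⟩
    rw [List.length_eq_zero_iff.mp hl, List.length_eq_zero_iff.mp hl']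
  | cons b L ih =>
    intro w hw hneg a ha a' ha' ts ts' hl hl' e
    obtain ⟨hb, hnegb, hneg'⟩ := hneg
    have hw' := snoc_lt w b hw hb
    have e0 : (w ++ [b]) ++ L = w ++ b :: L := by simp
    rw [← e0] at ha ha'
    have hA := gpeel_mem hP hV L (w ++ [b]) hw' hneg' a ha ts.tail
    have hA' := gpeel_mem hP hV L (w ++ [b]) hw' hneg' a' ha' ts'.tail
    rw [nWU_snoc'] at hA hA'
    rw [peel_re, peel_re] at e
    obtain ⟨h1, h2⟩ := UmG_decomp_unique hP hV w b hb _ _ hA hA' _ _ e
    have hlt : ts.tail.length = L.length := by rw [List.length_tail, hl]; simp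
    have hlt' : ts'.tail.length = L.length := by rw [List.length_tail, hl']; simp
    obtain ⟨h3, h4⟩ := ih (w ++ [b]) hw' hneg' a ha a' ha' ts.tail ts'.tail hlt hlt' h2
    refine ⟨h3, ?_⟩
    cases ts with
    | nil => simp at hl
    | cons t ts =>
      cases ts' with
      | nil => simp at hl'
      | cons t' ts' =>
        simp only [List.headD_cons] at h1
        simp only [List.tail_cons] at h4
        rw [h1, h4]

/-- `U_n⁻` is trivial when `n` makes no positive root negative. -/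
theorem UmG_eq_bot' (hP : PackB D F z η) (hV : SemV D F) (w : List ℕ) (hw : ∀ i ∈ w, i < D.rank)
    (h0 : invN D w.reverse = 0) : UmG D F (nWU hP.sem w) = ⊥ := by
  have hS := hP.sem
  have hT := hP.tab
  unfold invN at h0
  rw [Finset.card_eq_zero, Finset.filter_eq_empty_iff, List.reverse_reverse] at h0
  have hposw : ∀ s, D.IsPosRoot s → D.IsPosRoot (reflW D w s) := by
    intro s hs
    have h1 := h0 (Finset.mem_range.mpr hs.1)
    exact (pos_or_neg hT _ (reflW_lt hT w hw s hs.1)).resolve_right (fun h => h1 ⟨hs, h⟩)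
  rw [eq_bot_iff]
  unfold UmG
  rw [Subgroup.closure_le]
  rintro g ⟨r, t, hr, hmap, -⟩
  exfalso
  have h1 : nWU hS w * xU hS r 1 * (nWU hS w)⁻¹ ∈ D.negUnipotent F :=
    hmap (Subgroup.mem_map_of_mem _ (xU_mem_rootSubgroup hS r 1))
  obtain ⟨c, hc1, hc⟩ := nWU_conj hS hP.semN hT w hw r hr.1
  rw [hc 1, mul_one] at h1
  refine xU_pos_not_mem_neg hP hV _ (hposw r hr) c ?_ h1
  rcases hc1 with h | h <;> rw [h] <;> simp

/-- `U_n⁻ = U` when `n` makes every positive root negative. -/
theorem UmG_eq_pos (hP : PackB D F z η) (w : List ℕ) (hw : ∀ i ∈ w, i < D.rank)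
    (hall : ∀ r, D.IsPosRoot r → D.IsNegRoot (reflW D w r)) :
    UmG D F (nWU hP.sem w) = D.posUnipotent F := by
  have hS := hP.sem
  have hT := hP.tab
  apply le_antisymm (UmG_le_pos _)
  rw [posUnipotent_eq]
  apply rootGen_le hS
  intro r hr t
  apply xU_mem_UmG hS _ _ hr
  intro t'
  obtain ⟨c, -, hc⟩ := nWU_conj hS hP.semN hT w hw r hr.1
  rw [hc t']
  exact xU_mem_rootGen hS D.IsNegRoot _ (hall r hr) _

end generic

end Cfsg.Agent.H22.TF4
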