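import Cfsg.Agent.H22.TF4Wb
import Cfsg.Agent.H22.TF4Dih
/-!
The twisted group `²F₄`: `N¹ / H¹` is dihedral of order 16 (helper22).
-/
set_option autoImplicit false
open Cfsg Cfsg.Lie

namespace Cfsg.Agent.H22.TF4

open Cfsg.Agent.H22 Cfsg.Agent.H22.GEx

/-- the word of `(n_P n_B)^k` -/
def wPB (k : ℕ) : List ℕ := (List.replicate k (LP ++ LB)).flatten

theorem wPB_lt (k : ℕ) : ∀ i ∈ wPB k, i < chevF4.rank := by
  intro i hi
  unfold wPB at hi
  rw [List.mem_flatten] at hi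
  obtain ⟨L, hL, hiL⟩ := hi
  rw [List.eq_of_mem_replicate hL] at hiL
  revert i
  decide

theorem inv_PP : Cfsg.Agent.H23.invN chevF4 (LP ++ LP).reverse = 0 := by decide +kernel
theorem inv_BB : Cfsg.Agent.H23.invN chevF4 (LB ++ LB).reverse = 0 := by decide +kernel
theorem inv_PB8 : Cfsg.Agent.H23.invN chevF4 (wPB 8).reverse = 0 := by decide +kernel
theorem neg_PB4 : chevF4.IsNegRoot (Cfsg.Agent.H23.reflW chevF4 (wPB 4) 33) := by decide +kernel
theorem pos_33 : chevF4.IsPosRoot 33 := by decide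
theorem etaF_vals : (etaF 1 25 = 1 ∨ etaF 1 25 = -1) ∧ (etaF 1 22 = 1 ∨ etaF 1 22 = -1) ∧
    chevF4.reflectRoot 1 25 = 30 ∧ chevF4.reflectRoot 1 22 = 17 ∧ chevF4.neg 25 = 22 ∧
    chevF4.neg 30 = 17 := by decide +kernel

namespace Ctx4

variable {K : Type*} [Field K] [CharP K 2] {e : ℕ} (C : Ctx4 K e)

/-- the block element of the class `{p₁, p₄}` -/
def nPg : ↥(chevF4.group K) := C.θ (nEl chevF4 K 33 1 * nEl chevF4 K 24 1)
/-- the block element of the class of type `B₂` -/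
def nBg : ↥(chevF4.group K) := C.θ (nEl chevF4 K 25 1 * nEl chevF4 K 30 1)

theorem nPg_mem : (C.nPg : GL chevF4.Idx K) ∈ twistedF4 K e := by
  have k1 := nn_eq K C.τ 1
  rw [map_one] at k1
  show C.Θ (nEl chevF4 K 33 1 * nEl chevF4 K 24 1) ∈ _
  rw [k1]
  simp only [map_mul, ← Pp_eq, ← Pm_eq]
  exact mul_mem (mul_mem (C.Pp_mem _) (C.Pm_mem _)) (C.Pp_mem _)

theorem nBg_mem : (C.nBg : GL chevF4.Idx K) ∈ twistedF4 K e := by
  have h1 := nB_eq K C.Θ C.hxΘ C.τ C.hτ 1 one_ne_zero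
  simp only [map_one, one_pow, inv_one, mul_one] at h1
  show C.Θ (nEl chevF4 K 25 1 * nEl chevF4 K 30 1) ∈ _
  rw [← h1]
  exact nB_mem K C.Θ C.τ _ C.Bp_mem C.Bm_mem 1

theorem nEl_coe (r : ℕ) (hr : r < chevF4.nroots) (hr' : chevF4.neg r < chevF4.nroots) :
    (C.θ (nEl chevF4 K r 1) : GL chevF4.Idx K) = Cfsg.Agent.H23.nU (packF K).sem r 1 :=
  Units.ext (by
    rw [Cfsg.Agent.H23.nU_val]
    exact nElF_val K C.Θ C.hxΘ r hr hr' 1)

open Cfsg.Agent.H23 in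
theorem nPg_coe : (C.nPg : GL chevF4.Idx K) = nWU (packF K).sem LP := by
  show ((C.θ (nEl chevF4 K 33 1 * nEl chevF4 K 24 1) : ↥(chevF4.group K)) : GL chevF4.Idx K) = _
  rw [map_mul, Subgroup.coe_mul, C.nEl_coe 33 (by decide) (by decide),
    C.nEl_coe 24 (by decide) (by decide)]
  unfold nWU LP
  simp only [List.map_cons, List.map_nil, List.prod_cons, List.prod_nil, mul_one]
  rw [simpleF.1, simpleF.2.2.2.1]

open Cfsg.Agent.H23 in
theorem nBg_coe : (C.nBg : GL chevF4.Idx K) = nWU (packF K).sem LB := by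
  have hP := packF K
  have hS := hP.sem
  have hm1 : (-1 : K) = 1 := CharTwo.neg_eq 1
  have c1 : ((etaF 1 25 : ℤ) : K) = 1 := by
    rcases etaF_vals.1 with h | h <;> rw [h] <;> simp [hm1]
  have c2 : ((etaF 1 22 : ℤ) : K) = 1 := by
    rcases etaF_vals.2.1 with h | h <;> rw [h] <;> simp [hm1]
  have h1 : ∀ t : K, nU hS 27 1 * xU hS 25 t * (nU hS 27 1)⁻¹ = xU hS 30 (1 * t) := by
    intro t
    have := nU_conj hS hP.semN 1 (by decide) 25 (by decide) t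
    rw [simpleF.2.1, etaF_vals.2.2.1, c1] at this
    exact this
  have h2 : ∀ t : K, nU hS 27 1 * xU hS (chevF4.neg 25) t * (nU hS 27 1)⁻¹ =
      xU hS (chevF4.neg 30) (1 * t) := by
    intro t
    have := nU_conj hS hP.semN 1 (by decide) 22 (by decide) t
    rw [simpleF.2.1, etaF_vals.2.2.2.1, c2] at this
    rw [etaF_vals.2.2.2.2.1, etaF_vals.2.2.2.2.2]
    exact this
  have h3 := conj_nU hS (nU hS 27 1) 25 30 1 (Or.inl rfl) h1 h2 1
  have h4 : (nU hS 27 (1 : K))⁻¹ = nU hS 27 1 := by rw [nU_inv, hm1]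
  rw [h4, mul_one] at h3
  show ((C.θ (nEl chevF4 K 25 1 * nEl chevF4 K 30 1) : ↥(chevF4.group K)) : GL chevF4.Idx K) = _
  rw [map_mul, Subgroup.coe_mul, C.nEl_coe 25 (by decide) (by decide),
    C.nEl_coe 30 (by decide) (by decide)]
  unfold nWU LB
  simp only [List.map_cons, List.map_nil, List.prod_cons, List.prod_nil, mul_one]
  rw [simpleF.2.1, simpleF.2.2.1, ← h3]
  simp only [mul_assoc]

theorem sig_nPg : C.σ C.nPg = C.nPg := by
  obtain ⟨hG, h⟩ := C.fixed_of_mem _ C.nPg_mem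
  exact h

theorem sig_nBg : C.σ C.nBg = C.nBg := by
  obtain ⟨hG, h⟩ := C.fixed_of_mem _ C.nBg_mem
  exact h

open Cfsg.Agent.H23 in
theorem nPg_N : (C.nPg : GL chevF4.Idx K) ∈ chevF4.monomialSubgroup K := by
  rw [C.nPg_coe]; exact nWU_mem _ (packF K).tab _ LP_lt

open Cfsg.Agent.H23 in
theorem nBg_N : (C.nBg : GL chevF4.Idx K) ∈ chevF4.monomialSubgroup K := by
  rw [C.nBg_coe]; exact nWU_mem _ (packF K).tab _ LB_lt

open Cfsg.Agent.H23 in
theorem nPB_pow (k : ℕ) :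
    ((C.nPg : GL chevF4.Idx K) * (C.nBg : GL chevF4.Idx K)) ^ k = nWU (packF K).sem (wPB k) := by
  induction k with
  | zero => simp [wPB, nWU]
  | succ k ih =>
    rw [pow_succ', ih, C.nPg_coe, C.nBg_coe, ← nWU_append, ← nWU_append]
    congr 1

/-- every element of `N ∩ G¹` is a word in the two block elements, up to `H ∩ G¹` -/
theorem N1_decomp (n : GL chevF4.Idx K) (hnN : n ∈ chevF4.monomialSubgroup K)
    (hnG : n ∈ twistedF4 K e) :
    ∃ h' ∈ chevF4.diagonalSubgroup K ⊓ twistedF4 K e,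
      ∃ m ∈ Subgroup.closure {(C.nPg : GL chevF4.Idx K), (C.nBg : GL chevF4.Idx K)},
        n = h' * m := by
  obtain ⟨hG, hfix⟩ := C.fixed_of_mem n hnG
  obtain ⟨h, hh, w, hw, hn⟩ := Cfsg.Agent.H23.exists_word_of_mem_monomial (packF K) n hnN
  obtain ⟨h', hh', m, hm, e1⟩ := C.fix_mono C.nPg C.nBg C.sig_nPg C.sig_nBg C.nPg_coe
    ⟨1, one_mem _, by rw [one_mul]; exact C.nBg_coe⟩
    (Cfsg.Agent.H23.invN chevF4 w.reverse + 1) w hw (Nat.lt_succ_self _) h hh ⟨n, hG⟩ hn hfix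
  have e2 : n = h' * m := e1
  have hmG : m ∈ twistedF4 K e := by
    refine (Subgroup.closure_le _).mpr ?_ hm
    rintro x (rfl | rfl)
    · exact C.nPg_mem
    · exact C.nBg_mem
  refine ⟨h', Subgroup.mem_inf.mpr ⟨hh', ?_⟩, m, hm, e2⟩
  have : h' = n * m⁻¹ := by rw [e2]; group
  rw [this]; exact (twistedF4 K e).mul_mem hnG ((twistedF4 K e).inv_mem hmG)

include C in
open Cfsg.Agent.H23 in
/-- `N¹ / H¹` is dihedral of order 16 -/
theorem weyl_D16 :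
    ∃ φ : ↥(chevF4.monomialSubgroup K ⊓ twistedF4 K e) →* DihedralGroup 8,
      Function.Surjective φ ∧
      φ.ker = (chevF4.diagonalSubgroup K ⊓ twistedF4 K e).subgroupOf
        (chevF4.monomialSubgroup K ⊓ twistedF4 K e) := by
  have hP := packF K
  have hS := hP.sem
  have hT := hP.tab
  have hnorm := monomial_le_normalizer_diag hS hP.semN hT hP.etaNeg
  obtain ⟨N1, hN1⟩ : ∃ N1 : Subgroup (GL chevF4.Idx K),
      N1 = chevF4.monomialSubgroup K ⊓ twistedF4 K e := ⟨_, rfl⟩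
  rw [← hN1]
  obtain ⟨Q, hQ⟩ : ∃ Q : Subgroup ↥N1,
      Q = (chevF4.diagonalSubgroup K ⊓ twistedF4 K e).subgroupOf N1 := ⟨_, rfl⟩
  rw [← hQ]
  have hle : ∀ y : GL chevF4.Idx K, y ∈ N1 →
      y ∈ chevF4.monomialSubgroup K ∧ y ∈ twistedF4 K e := by
    intro y hy
    rw [hN1] at hy
    exact Subgroup.mem_inf.mp hy
  have hmemQ : ∀ x : ↥N1, x ∈ Q ↔ (x : GL chevF4.Idx K) ∈ chevF4.diagonalSubgroup K := by
    intro x
    rw [hQ, Subgroup.mem_subgroupOf]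
    constructor
    · exact fun h => (Subgroup.mem_inf.mp h).1
    · intro h
      exact Subgroup.mem_inf.mpr ⟨h, (hle _ x.2).2⟩
  have hQn : Q.Normal := by
    constructor
    intro x hx g
    rw [hmemQ] at hx ⊢
    have hg := hle _ g.2
    have := (Subgroup.mem_normalizer_iff.mp (hnorm hg.1) _).mp hx
    simpa using this
  have hPmem : (C.nPg : GL chevF4.Idx K) ∈ N1 := by
    rw [hN1]; exact Subgroup.mem_inf.mpr ⟨C.nPg_N, C.nPg_mem⟩
  have hBmem : (C.nBg : GL chevF4.Idx K) ∈ N1 := by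
    rw [hN1]; exact Subgroup.mem_inf.mpr ⟨C.nBg_N, C.nBg_mem⟩
  obtain ⟨a, ha⟩ : ∃ a : ↥N1 ⧸ Q, a = QuotientGroup.mk ⟨(C.nPg : GL chevF4.Idx K), hPmem⟩ :=
    ⟨_, rfl⟩
  obtain ⟨b, hb⟩ : ∃ b : ↥N1 ⧸ Q, b = QuotientGroup.mk ⟨(C.nBg : GL chevF4.Idx K), hBmem⟩ :=
    ⟨_, rfl⟩
  have haa : a * a = 1 := by
    rw [ha, ← QuotientGroup.mk_mul, QuotientGroup.eq_one_iff, hmemQ]
    show (C.nPg : GL chevF4.Idx K) * (C.nPg : GL chevF4.Idx K) ∈ _
    rw [C.nPg_coe, ← nWU_append]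
    exact nWU_mem_diag_of_inv0 hP _ (append_lt _ _ LP_lt LP_lt) inv_PP
  have hbb : b * b = 1 := by
    rw [hb, ← QuotientGroup.mk_mul, QuotientGroup.eq_one_iff, hmemQ]
    show (C.nBg : GL chevF4.Idx K) * (C.nBg : GL chevF4.Idx K) ∈ _
    rw [C.nBg_coe, ← nWU_append]
    exact nWU_mem_diag_of_inv0 hP _ (append_lt _ _ LB_lt LB_lt) inv_BB
  have hpow : ∀ k : ℕ, (a * b) ^ k = QuotientGroup.mk
      (⟨(C.nPg : GL chevF4.Idx K), hPmem⟩ * ⟨(C.nBg : GL chevF4.Idx K), hBmem⟩ : ↥N1) ^ k := by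
    intro k
    rw [ha, hb, ← QuotientGroup.mk_mul]
  have h8 : (a * b) ^ 8 = 1 := by
    rw [hpow, ← QuotientGroup.mk_pow, QuotientGroup.eq_one_iff, hmemQ]
    show ((C.nPg : GL chevF4.Idx K) * (C.nBg : GL chevF4.Idx K)) ^ 8 ∈ _
    rw [C.nPB_pow]
    exact nWU_mem_diag_of_inv0 hP _ (wPB_lt 8) inv_PB8
  have h4 : (a * b) ^ 4 ≠ 1 := by
    rw [hpow, ← QuotientGroup.mk_pow, Ne, QuotientGroup.eq_one_iff, hmemQ]
    show ¬ ((C.nPg : GL chevF4.Idx K) * (C.nBg : GL chevF4.Idx K)) ^ 4 ∈ _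
    rw [C.nPB_pow]
    exact nWU_not_mem_diag hP (semVF K) _ (wPB_lt 4) 33 pos_33 neg_PB4
  have hgen : Subgroup.closure {a, b} = ⊤ := by
    rw [eq_top_iff]
    intro x _
    induction x using QuotientGroup.induction_on with
    | H n =>
      have hn := hle _ n.2
      obtain ⟨h', hh', m, hm, e1⟩ := C.N1_decomp n hn.1 hn.2
      have key : ∀ m ∈ Subgroup.closure {(C.nPg : GL chevF4.Idx K), (C.nBg : GL chevF4.Idx K)},
          ∃ hm : m ∈ N1, (QuotientGroup.mk ⟨m, hm⟩ : ↥N1 ⧸ Q) ∈ Subgroup.closure {a, b} := by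
        intro m hm
        induction hm using Subgroup.closure_induction with
        | mem y hy =>
          rcases hy with rfl | hy
          · exact ⟨hPmem, Subgroup.subset_closure (Or.inl ha.symm)⟩
          · rw [Set.mem_singleton_iff] at hy
            subst hy
            exact ⟨hBmem, Subgroup.subset_closure (Or.inr hb.symm)⟩
        | one =>
          refine ⟨one_mem _, ?_⟩
          have : (⟨1, one_mem _⟩ : ↥N1) = 1 := rfl
          rw [this, QuotientGroup.mk_one]; exact one_mem _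
        | mul x y _ _ ihx ihy =>
          obtain ⟨hx, hx'⟩ := ihx
          obtain ⟨hy, hy'⟩ := ihy
          refine ⟨mul_mem hx hy, ?_⟩
          have : (⟨x * y, mul_mem hx hy⟩ : ↥N1) = ⟨x, hx⟩ * ⟨y, hy⟩ := rfl
          rw [this, QuotientGroup.mk_mul]; exact mul_mem hx' hy'
        | inv x _ ihx =>
          obtain ⟨hx, hx'⟩ := ihx
          refine ⟨inv_mem hx, ?_⟩
          have : (⟨x⁻¹, inv_mem hx⟩ : ↥N1) = (⟨x, hx⟩)⁻¹ := rfl
          rw [this, QuotientGroup.mk_inv]; exact inv_mem hx'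
      obtain ⟨hmN, hmc⟩ := key m hm
      have hh2 := Subgroup.mem_inf.mp hh'
      have hh1 : h' ∈ N1 := by
        rw [hN1]; exact Subgroup.mem_inf.mpr ⟨Cfsg.Agent.H23.diagonal_le_monomial hh2.1, hh2.2⟩
      have e2 : n = ⟨h', hh1⟩ * ⟨m, hmN⟩ := Subtype.ext e1
      have e3 : (QuotientGroup.mk (⟨h', hh1⟩ : ↥N1) : ↥N1 ⧸ Q) = 1 := by
        rw [QuotientGroup.eq_one_iff, hmemQ]; exact hh2.1
      rw [e2, QuotientGroup.mk_mul, e3, one_mul]
      exact hmc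
  obtain ⟨E⟩ := dihedral_equiv a b haa hbb h8 h4 hgen
  refine ⟨E.symm.toMonoidHom.comp (QuotientGroup.mk' Q), ?_, ?_⟩
  · exact E.symm.surjective.comp (QuotientGroup.mk'_surjective Q)
  · ext x
    rw [MonoidHom.mem_ker, MonoidHom.comp_apply]
    show E.symm (QuotientGroup.mk x) = 1 ↔ _
    rw [E.symm.map_eq_one_iff, QuotientGroup.eq_one_iff]

end Ctx4

/-- construction of the context from Steinberg's theorem -/
theorem exists_ctx4 {K : Type*} [Field K] [CharP K 2] [Fintype K] {m : ℕ}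
    (hK : Fintype.card K = 2 ^ (2 * m + 1))
    (θ : chevF4.SteinbergGroup K →* ↥(chevF4.group K)) (hs : Function.Surjective θ)
    (hk : θ.ker = Subgroup.center (chevF4.SteinbergGroup K))
    (hx : ∀ (r : ℕ) (t : K), r < chevF4.nroots →
      ((θ (chevF4.stGen K r t) : GL chevF4.Idx K) : Matrix chevF4.Idx chevF4.Idx K) =
        chevF4.x K r t) :
    Nonempty (Ctx4 K (2 ^ m)) := by
  have hp2 : Fact (Nat.Prime 2) := ⟨Nat.prime_two⟩
  obtain ⟨τ, τ_eq⟩ : ∃ τ : K →+* K, ∀ c : K, τ c = c ^ 2 ^ m :=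
    ⟨iterateFrobenius K 2 m, fun c => iterateFrobenius_def 2 m c⟩
  have hτ : ∀ c : K, τ (τ c) ^ 2 = c := by
    intro c
    rw [τ_eq, τ_eq, ← pow_mul, ← pow_mul]
    have h1 : 2 ^ m * (2 ^ m * 2) = Fintype.card K := by rw [hK]; ring
    rw [h1, FiniteField.pow_card]
  have hbij : Function.Bijective τ :=
    ⟨τ.injective, fun c => ⟨τ c ^ 2, by rw [map_pow]; exact hτ c⟩⟩
  have hperf : ∀ x : K, ∃ y : K, y ^ 2 = x := fun x => ⟨τ (τ x), hτ x⟩
  obtain ⟨σ, ψ, hσψ, hψ⟩ :=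
    twist_of_theta chevF4 K rhoF4 lamF4 2 chk_F4 chk2_F4 hperf τ hbij θ hs hk
  exact ⟨⟨θ, hx, τ, τ_eq, hτ, σ, ψ, hσψ, hψ⟩⟩

end Cfsg.Agent.H22.TF4
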