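import Cfsg.Agent.H22.TF4Pa
import Cfsg.Agent.H22.TF4Wc
/-!
The twisted group `²F₄`: fixed points in the subgroups `U_w⁻`, one block at a time (helper22).
-/
set_option autoImplicit false
open Cfsg Cfsg.Lie

namespace Cfsg.Agent.H22.TF4

open Cfsg.Agent.H22 Cfsg.Agent.H22.GEx

namespace BSys

variable {K : Type*} [Field K] {Γ : Type*} [Group Γ] (S : BSys K Γ)

/-- the general element of the class subgroup -/
def E (a b c d : K) : Γ := S.xa a * S.xb b * S.Y c d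

theorem E_swap (A B C' D' : K) :
    S.xb B * S.xa A * (S.y2 D' * S.y1 C') = S.E A B (A * B + C') (A ^ 2 * B + D') := by
  unfold E
  rw [S.swap', S.c12]
  show S.xa A * S.xb B * S.Y (A * B) (A ^ 2 * B) * S.Y C' D' = _
  rw [mul_assoc, S.Y_add]

theorem E_eq (a b c d : K) : S.xa a * S.y2 d * S.y1 c * S.xb b = S.E a b c d := by
  unfold E Y
  calc S.xa a * S.y2 d * S.y1 c * S.xb b = S.xa a * S.y2 d * (S.y1 c * S.xb b) := by
        simp only [mul_assoc]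
    _ = S.xa a * (S.y2 d * S.xb b) * S.y1 c := by rw [S.cb1]; simp only [mul_assoc]
    _ = S.xa a * S.xb b * (S.y2 d * S.y1 c) := by rw [S.cb2]; simp only [mul_assoc]
    _ = _ := by rw [S.c12]

theorem W_eq_E (τ : K →+* K) (t u : K) : S.W τ t u = S.E (τ t) t (τ t * t + u) (τ u ^ 2) := rfl

end BSys

theorem lamF_cases : ∀ r < 48, lamF4 r = 1 ∨ lamF4 r = 2 := by decide +kernel
theorem lamF_vals : lamF4 33 = 2 ∧ lamF4 24 = 1 ∧ lamF4 27 = 2 ∧ lamF4 25 = 1 ∧ lamF4 28 = 2 ∧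
    lamF4 30 = 1 ∧ rhoF4 28 = 30 ∧ rhoF4 30 = 28 := by decide

namespace Ctx4

variable {K : Type*} [Field K] [CharP K 2] {e : ℕ} (C : Ctx4 K e)

/-- fixed elements of the general linear group -/
def Fx (x : GL chevF4.Idx K) : Prop := ∃ hG : x ∈ chevF4.group K, C.σ ⟨x, hG⟩ = ⟨x, hG⟩

theorem Fx_one : C.Fx 1 := by
  refine ⟨one_mem _, ?_⟩
  have : (⟨1, one_mem _⟩ : ↥(chevF4.group K)) = 1 := rfl
  rw [this, map_one]

variable {C} in
theorem Fx.mul {x y : GL chevF4.Idx K} (hx : C.Fx x) (hy : C.Fx y) : C.Fx (x * y) := by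
  obtain ⟨hx, hx'⟩ := hx
  obtain ⟨hy, hy'⟩ := hy
  refine ⟨mul_mem hx hy, ?_⟩
  have : (⟨x * y, mul_mem hx hy⟩ : ↥(chevF4.group K)) = ⟨x, hx⟩ * ⟨y, hy⟩ := rfl
  rw [this, map_mul, hx', hy']

variable {C} in
theorem Fx.inv {x : GL chevF4.Idx K} (hx : C.Fx x) : C.Fx x⁻¹ := by
  obtain ⟨hx, hx'⟩ := hx
  refine ⟨inv_mem hx, ?_⟩
  have : (⟨x⁻¹, inv_mem hx⟩ : ↥(chevF4.group K)) = (⟨x, hx⟩)⁻¹ := rfl
  rw [this, map_inv, hx']

theorem Fx_of_mem (x : GL chevF4.Idx K) (hx : x ∈ twistedF4 K e) : C.Fx x := C.fixed_of_mem x hx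

theorem Fx_coe (g : ↥(chevF4.group K)) (h : C.σ g = g) : C.Fx (g : GL chevF4.Idx K) :=
  ⟨g.2, h⟩

open Cfsg.Agent.H23 in
theorem sig_UmG (n x : ↥(chevF4.group K))
    (hx : (x : GL chevF4.Idx K) ∈ UmG chevF4 K (n : GL chevF4.Idx K)) :
    (C.σ x : GL chevF4.Idx K) ∈ UmG chevF4 K (C.σ n : GL chevF4.Idx K) := by
  refine C.closure_sig _ _ ?_ x hx
  rintro y ⟨r, t, hr, hle, hy⟩
  have hy' := C.eq_xg y r hr.1 t hy
  subst hy'
  refine ⟨(C.xg r t).2, ?_⟩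
  have e1 : (⟨(C.xg r t : GL chevF4.Idx K), (C.xg r t).2⟩ : ↥(chevF4.group K)) = C.xg r t := rfl
  rw [e1, C.hσ r t hr.1]
  refine Subgroup.subset_closure ⟨rhoF4 r, C.τ t ^ lamF4 r, rhoF_pos r hr.1 hr, ?_,
    C.hx _ _ (rhoF_lt r hr.1)⟩
  unfold ChevalleyDatum.rootSubgroup
  rw [MonoidHom.map_closure, Subgroup.closure_le]
  rintro _ ⟨g, ⟨c, hg⟩, rfl⟩
  have hg' := C.eq_xg g (rhoF4 r) (rhoF_lt r hr.1) c hg
  subst hg'
  obtain ⟨c', hc'⟩ : ∃ c' : K, C.τ c' ^ lamF4 r = c := by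
    rcases lamF_cases r hr.1 with h | h
    · exact ⟨C.τ c ^ 2, by rw [h, pow_one, map_pow, C.hτ]⟩
    · exact ⟨C.τ c, by rw [h, C.hτ]⟩
  have h1 : ((n * C.xg r c' * n⁻¹ : ↥(chevF4.group K)) : GL chevF4.Idx K) ∈
      chevF4.negUnipotent K := by
    apply hle
    exact ⟨(C.xg r c' : GL chevF4.Idx K),
      Subgroup.subset_closure ⟨c', C.hx r c' hr.1⟩, rfl⟩
  have h2 := C.sig_V _ h1
  rw [map_mul, map_mul, map_inv, C.hσ r c' hr.1, hc'] at h2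
  exact h2

open Cfsg.Agent.H23 in
/-- the fixed points of `U_w⁻` -/
def FS (w : List ℕ) : Set (GL chevF4.Idx K) :=
  {u | u ∈ UmG chevF4 K (nWU (packF K).sem w) ∧ C.Fx u}

open Cfsg.Agent.H23 in
/-- one block of the peeling of the fixed points -/
theorem step (w L : List ℕ) (hw : ∀ i ∈ w, i < chevF4.rank) (hneg : NegChain chevF4 w L)
    (hnw : C.Fx (nWU (packF K).sem w)) (hnL : C.Fx (nWU (packF K).sem L))
    {P : Type*} (Xf : P → GL chevF4.Idx K) (ts : P → List K)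
    (hts : ∀ p, (ts p).length = L.length) (hXf : ∀ p, Xf p = XL (packF K).sem L (ts p))
    (hXfix : ∀ p, C.Fx (Xf p)) (htsinj : Function.Injective ts)
    (hσX : ∀ l : List K, l.length = L.length →
      ∃ hG : XL (packF K).sem L l ∈ chevF4.group K, ∃ l' : List K, l'.length = L.length ∧
        (C.σ ⟨XL (packF K).sem L l, hG⟩ : GL chevF4.Idx K) = XL (packF K).sem L l')
    (hfixX : ∀ l : List K, l.length = L.length → C.Fx (XL (packF K).sem L l) →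
      ∃ p, XL (packF K).sem L l = Xf p) :
    Nat.card (C.FS w) = Nat.card P * Nat.card (C.FS (w ++ L)) ∧
    ((∀ u ∈ C.FS (w ++ L), u ∈ twistedF4 K e) → (∀ p, Xf p ∈ twistedF4 K e) →
      nWU (packF K).sem L ∈ twistedF4 K e → ∀ u ∈ C.FS w, u ∈ twistedF4 K e) := by
  have hP := packF K
  have hV := semVF K
  have hS := hP.sem
  have hnwL : C.Fx (nWU hS (w ++ L)) := by rw [nWU_append]; exact hnw.mul hnL
  -- surjectivity data
  have hsurj : ∀ u ∈ C.FS w, ∃ u' ∈ C.FS (w ++ L), ∃ p : P,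
      u = nWU hS L * u' * (nWU hS L)⁻¹ * Xf p := by
    rintro u ⟨huU, hGu, hfu⟩
    obtain ⟨u', hu', l, hl, hu⟩ := gpeel_exists hP hV tabT_F4 tabL_F4 L w hw hneg u huU
    obtain ⟨hGX, l', hl', hσl⟩ := hσX l hl
    obtain ⟨hGL, hfL⟩ := hnL
    obtain ⟨hGwL, hfwL⟩ := hnwL
    -- the element u' in the group
    obtain ⟨ug, hug⟩ : ∃ ug : ↥(chevF4.group K), ug =
        (⟨nWU hS L, hGL⟩ : ↥(chevF4.group K))⁻¹ * ⟨u, hGu⟩ *
          (⟨XL hS L l, hGX⟩ : ↥(chevF4.group K))⁻¹ * ⟨nWU hS L, hGL⟩ := ⟨_, rfl⟩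
    have hugc : (ug : GL chevF4.Idx K) = u' := by
      rw [hug]
      show (nWU hS L)⁻¹ * u * (XL hS L l)⁻¹ * nWU hS L = u'
      rw [hu]; group
    have hσug : (C.σ ug : GL chevF4.Idx K) =
        (nWU hS L)⁻¹ * u * (XL hS L l')⁻¹ * nWU hS L := by
      rw [hug, map_mul, map_mul, map_mul, map_inv, map_inv, hfL, hfu]
      show (nWU hS L)⁻¹ * u * ((C.σ ⟨XL hS L l, hGX⟩ : ↥(chevF4.group K)) :
        GL chevF4.Idx K)⁻¹ * nWU hS L = _
      rw [hσl]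
    have hmem : (C.σ ug : GL chevF4.Idx K) ∈ UmG chevF4 K (nWU hS (w ++ L)) := by
      have h1 := C.sig_UmG ⟨nWU hS (w ++ L), hGwL⟩ ug (by rw [hugc]; exact hu')
      rw [hfwL] at h1
      exact h1
    have e2 : nWU hS L * u' * (nWU hS L)⁻¹ * XL hS L l =
        nWU hS L * (C.σ ug : GL chevF4.Idx K) * (nWU hS L)⁻¹ * XL hS L l' := by
      rw [← hu, hσug]; group
    obtain ⟨h3, h4⟩ := gpeel_unique hP hV L w hw hneg u' hu' _ hmem l l' hl hl' e2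
    have hfu' : C.Fx u' := by
      refine ⟨by rw [← hugc]; exact ug.2, ?_⟩
      have e3 : (⟨u', by rw [← hugc]; exact ug.2⟩ : ↥(chevF4.group K)) = ug :=
        Subtype.ext hugc.symm
      rw [e3]
      exact Subtype.ext (by rw [← h3, hugc])
    have hfX : C.Fx (XL hS L l) :=
      ⟨hGX, Subtype.ext (hσl.trans (congrArg (XL hS L) h4).symm)⟩
    obtain ⟨p, hp⟩ := hfixX l hl hfX
    exact ⟨u', ⟨hu', hfu'⟩, p, by rw [← hp]; exact hu⟩
  constructor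
  · -- the bijection
    have hmemΦ : ∀ (p : P) (u' : ↥(C.FS (w ++ L))),
        nWU hS L * (u' : GL chevF4.Idx K) * (nWU hS L)⁻¹ * Xf p ∈ C.FS w := by
      intro p u'
      refine ⟨?_, ((hnL.mul u'.2.2).mul hnL.inv).mul (hXfix p)⟩
      rw [hXf]
      exact gpeel_mem hP hV L w hw hneg _ u'.2.1 _
    let Φ : P × ↥(C.FS (w ++ L)) → ↥(C.FS w) := fun q => ⟨_, hmemΦ q.1 q.2⟩
    have hΦ : Function.Bijective Φ := by
      constructor
      · rintro ⟨p, u'⟩ ⟨q, v'⟩ h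
        have h' : nWU hS L * (u' : GL chevF4.Idx K) * (nWU hS L)⁻¹ * Xf p =
            nWU hS L * (v' : GL chevF4.Idx K) * (nWU hS L)⁻¹ * Xf q := congrArg Subtype.val h
        rw [hXf, hXf] at h'
        obtain ⟨h1, h2⟩ := gpeel_unique hP hV L w hw hneg _ u'.2.1 _ v'.2.1 _ _ (hts p) (hts q) h'
        rw [htsinj h2, Subtype.ext h1]
      · rintro ⟨u, hu⟩
        obtain ⟨u', hu', p, e1⟩ := hsurj u hu
        exact ⟨⟨p, ⟨u', hu'⟩⟩, Subtype.ext e1.symm⟩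
    rw [← Nat.card_prod]
    exact (Nat.card_congr (Equiv.ofBijective Φ hΦ)).symm
  · intro h1 h2 h3 u hu
    obtain ⟨u', hu', p, e1⟩ := hsurj u hu
    rw [e1]
    exact mul_mem (mul_mem (mul_mem h3 (h1 u' hu')) (inv_mem h3)) (h2 p)

end Ctx4

end Cfsg.Agent.H22.TF4
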