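import Cfsg.Agent.H22.TF4Pb
/-!
The twisted group `²F₄`: the fixed points in `U` and the order of `U ∩ ²F₄` (helper22).
-/
set_option autoImplicit false
open Cfsg Cfsg.Lie

namespace Cfsg.Agent.H22.TF4

open Cfsg.Agent.H22 Cfsg.Agent.H22.GEx

theorem len4 {α : Type*} (l : List α) (h : l.length = 4) : ∃ a b c d, l = [a, b, c, d] := by
  rcases l with _ | ⟨a, _ | ⟨b, _ | ⟨c, _ | ⟨d, _ | ⟨x, l⟩⟩⟩⟩⟩
  all_goals first
    | exact ⟨_, _, _, _, rfl⟩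
    | (simp only [List.length_cons, List.length_nil] at h; omega)

theorem len2 {α : Type*} (l : List α) (h : l.length = 2) : ∃ a b, l = [a, b] := by
  rcases l with _ | ⟨a, _ | ⟨b, _ | ⟨x, l⟩⟩⟩
  all_goals first
    | exact ⟨_, _, rfl⟩
    | (simp only [List.length_cons, List.length_nil] at h; omega)

theorem reflF2 : chevF4.reflectRoot 2 27 = 28 ∧ chevF4.reflectRoot 1 28 = 28 ∧
    chevF4.reflectRoot 1 25 = 30 ∧ chevF4.reflectRoot 2 28 = 27 ∧ chevF4.reflectRoot 2 30 = 30 ∧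
    chevF4.reflectRoot 0 24 = 24 := by decide

/-- the alternating blocks -/
def blkL : List (List ℕ) := [LP, LB, LP, LB, LP, LB, LP, LB]

/-- the words of the peeling -/
def Vw (j : ℕ) : List ℕ := wPB 4 ++ (blkL.take j).flatten

theorem Vw_lt : ∀ j < 9, ∀ i ∈ Vw j, i < chevF4.rank := by decide +kernel

theorem Vw_succ : (∀ j ∈ [0, 2, 4, 6], Vw (j + 1) = Vw j ++ LP) ∧
    (∀ j ∈ [1, 3, 5, 7], Vw (j + 1) = Vw j ++ LB) ∧ Vw 8 = wPB 8 := by decide +kernel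

theorem Vw_negP : ∀ j ∈ [0, 2, 4, 6], NegChain chevF4 (Vw j) LP := by decide +kernel
theorem Vw_negB : ∀ j ∈ [1, 3, 5, 7], NegChain chevF4 (Vw j) LB := by decide +kernel

theorem Vw0_all : ∀ r < 48, chevF4.IsPosRoot r →
    chevF4.IsNegRoot (Cfsg.Agent.H23.reflW chevF4 (Vw 0) r) := by decide +kernel

theorem blkL_mem : ∀ j < 9, ∀ L ∈ blkL.take j, L = LP ∨ L = LB := by decide +kernel

namespace Ctx4

variable {K : Type*} [Field K] [CharP K 2] {e : ℕ} (C : Ctx4 K e)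

open Cfsg.Agent.H23

theorem xf_eq (r : ℕ) (hr : r < chevF4.nroots) (t : K) :
    xf K C.Θ r t = xU (packF K).sem r t := C.xg_coe r hr t

theorem xg_xf (r : ℕ) (t : K) : (C.xg r t : GL chevF4.Idx K) = xf K C.Θ r t := rfl

omit C in
/-- conjugation by a fundamental `n` in characteristic 2 -/
theorem cj (i : ℕ) (hi : i < chevF4.rank) (s : ℕ) (hs : s < chevF4.nroots) (t : K) :
    nU (packF K).sem (chevF4.simple i) 1 * xU (packF K).sem s t *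
      (nU (packF K).sem (chevF4.simple i) 1)⁻¹ = xU (packF K).sem (chevF4.reflectRoot i s) t := by
  have h := nU_conj (packF K).sem (packF K).semN i hi s hs t
  have c : ((etaF i s : ℤ) : K) = 1 := by
    rcases eta_cases (packF K).semN i s with h | h
    · exact h
    · rw [h, CharTwo.neg_eq]
  rw [c, one_mul] at h
  exact h

theorem XL_LP (t₁ t₂ : K) :
    XL (packF K).sem LP [t₁, t₂] = xf K C.Θ 24 t₂ * xf K C.Θ 33 t₁ := by
  have h1 := cj (K := K) 0 (by decide) 24 (by decide) t₂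
  rw [reflF2.2.2.2.2.2] at h1
  simp only [LP, XL_cons, XL_nil, List.tail_cons, List.headD_cons, mul_one, mul_inv_cancel,
    one_mul]
  rw [simpleF.2.2.2.1, h1, simpleF.1, C.xf_eq 24 (by decide), C.xf_eq 33 (by decide)]

theorem XL_LB (t₁ t₂ t₃ t₄ : K) :
    XL (packF K).sem LB [t₁, t₂, t₃, t₄] = (sysP K C.Θ).E t₄ t₁ t₂ t₃ := by
  have hS := (packF K).sem
  have a1 := cj (K := K) 2 (by decide) 27 (by decide) t₄
  have a2 := cj (K := K) 1 (by decide) 28 (by decide) t₄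
  have a3 := cj (K := K) 1 (by decide) 25 (by decide) t₃
  have a4 := cj (K := K) 2 (by decide) 28 (by decide) t₄
  have a5 := cj (K := K) 2 (by decide) 30 (by decide) t₃
  have a6 := cj (K := K) 2 (by decide) 27 (by decide) t₂
  rw [reflF2.1] at a1 a6
  rw [reflF2.2.1] at a2
  rw [reflF2.2.2.1] at a3
  rw [reflF2.2.2.2.1] at a4
  rw [reflF2.2.2.2.2.1] at a5
  rw [simpleF.2.2.1] at a1 a4 a5 a6
  rw [simpleF.2.1] at a2 a3
  simp only [LB, XL_cons, XL_nil, List.tail_cons, List.headD_cons, mul_one, mul_inv_cancel,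
    one_mul]
  rw [simpleF.2.1, simpleF.2.2.1, a1]
  have e1 : nU (packF K).sem 27 1 * (xU (packF K).sem 28 t₄ * xU (packF K).sem 25 t₃) *
      (nU (packF K).sem 27 1)⁻¹ = xU (packF K).sem 28 t₄ * xU (packF K).sem 30 t₃ := by
    have g : nU (packF K).sem 27 1 * (xU (packF K).sem 28 t₄ * xU (packF K).sem 25 t₃) *
        (nU (packF K).sem 27 1)⁻¹ =
        (nU (packF K).sem 27 1 * xU (packF K).sem 28 t₄ * (nU (packF K).sem 27 1)⁻¹) *
        (nU (packF K).sem 27 1 * xU (packF K).sem 25 t₃ * (nU (packF K).sem 27 1)⁻¹) := by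
      group
    rw [g, a2, a3]
  rw [e1]
  have e2 : nU (packF K).sem 25 1 * (xU (packF K).sem 28 t₄ * xU (packF K).sem 30 t₃ *
      xU (packF K).sem 27 t₂) * (nU (packF K).sem 25 1)⁻¹ =
      xU (packF K).sem 27 t₄ * xU (packF K).sem 30 t₃ * xU (packF K).sem 28 t₂ := by
    have g : nU (packF K).sem 25 1 * (xU (packF K).sem 28 t₄ * xU (packF K).sem 30 t₃ *
        xU (packF K).sem 27 t₂) * (nU (packF K).sem 25 1)⁻¹ =
        (nU (packF K).sem 25 1 * xU (packF K).sem 28 t₄ * (nU (packF K).sem 25 1)⁻¹) *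
        (nU (packF K).sem 25 1 * xU (packF K).sem 30 t₃ * (nU (packF K).sem 25 1)⁻¹) *
        (nU (packF K).sem 25 1 * xU (packF K).sem 27 t₂ * (nU (packF K).sem 25 1)⁻¹) := by
      group
    rw [g, a4, a5, a6]
  rw [e2, ← C.xf_eq 27 (by decide), ← C.xf_eq 30 (by decide), ← C.xf_eq 28 (by decide),
    ← C.xf_eq 25 (by decide)]
  exact (sysP K C.Θ).E_eq t₄ t₁ t₂ t₃

theorem sig_XLP (t₁ t₂ : K) : ∃ hG : XL (packF K).sem LP [t₁, t₂] ∈ chevF4.group K,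
    (C.σ ⟨XL (packF K).sem LP [t₁, t₂], hG⟩ : GL chevF4.Idx K) =
      XL (packF K).sem LP [C.τ t₂, C.τ t₁ ^ 2] := by
  have e0 : XL (packF K).sem LP [t₁, t₂] =
      ((C.xg 24 t₂ * C.xg 33 t₁ : ↥(chevF4.group K)) : GL chevF4.Idx K) := C.XL_LP t₁ t₂
  refine ⟨by rw [e0]; exact (C.xg 24 t₂ * C.xg 33 t₁).2, ?_⟩
  have e : (⟨XL (packF K).sem LP [t₁, t₂], by rw [e0]; exact (C.xg 24 t₂ * C.xg 33 t₁).2⟩ :
      ↥(chevF4.group K)) = C.xg 24 t₂ * C.xg 33 t₁ := Subtype.ext e0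
  rw [e, map_mul, C.hσ 24 t₂ (by decide), C.hσ 33 t₁ (by decide), rhoF_simple.1, rhoF_simple.2.1,
    lamF_vals.1, lamF_vals.2.1, pow_one, C.XL_LP]
  exact (xf_comm K C.Θ 33 24 cokF_33_24 _ _).symm

theorem sig_XLB (t₁ t₂ t₃ t₄ : K) : ∃ hG : XL (packF K).sem LB [t₁, t₂, t₃, t₄] ∈ chevF4.group K,
    (C.σ ⟨XL (packF K).sem LB [t₁, t₂, t₃, t₄], hG⟩ : GL chevF4.Idx K) =
      XL (packF K).sem LB [C.τ t₄ ^ 2, C.τ t₁ * C.τ t₄ ^ 2 + C.τ t₃,
        C.τ t₁ ^ 2 * C.τ t₄ ^ 2 + C.τ t₂ ^ 2, C.τ t₁] := by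
  have e0 : XL (packF K).sem LB [t₁, t₂, t₃, t₄] =
      ((C.xg 27 t₄ * C.xg 30 t₃ * C.xg 28 t₂ * C.xg 25 t₁ : ↥(chevF4.group K)) :
        GL chevF4.Idx K) := by
    rw [C.XL_LB, ← (sysP K C.Θ).E_eq]
    rfl
  refine ⟨by rw [e0]; exact (C.xg 27 t₄ * C.xg 30 t₃ * C.xg 28 t₂ * C.xg 25 t₁).2, ?_⟩
  have e : (⟨XL (packF K).sem LB [t₁, t₂, t₃, t₄],
      by rw [e0]; exact (C.xg 27 t₄ * C.xg 30 t₃ * C.xg 28 t₂ * C.xg 25 t₁).2⟩ :
      ↥(chevF4.group K)) = C.xg 27 t₄ * C.xg 30 t₃ * C.xg 28 t₂ * C.xg 25 t₁ := Subtype.ext e0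
  rw [e, map_mul, map_mul, map_mul, C.hσ 27 t₄ (by decide), C.hσ 30 t₃ (by decide),
    C.hσ 28 t₂ (by decide), C.hσ 25 t₁ (by decide), rhoF_simple.2.2.1, rhoF_simple.2.2.2,
    lamF_vals.2.2.1, lamF_vals.2.2.2.1, lamF_vals.2.2.2.2.1, lamF_vals.2.2.2.2.2.1,
    lamF_vals.2.2.2.2.2.2.1, lamF_vals.2.2.2.2.2.2.2, pow_one, pow_one, C.XL_LB]
  set S := sysP K C.Θ with hSdef
  show S.xb (C.τ t₄ ^ 2) * S.y1 (C.τ t₃) * S.y2 (C.τ t₂ ^ 2) * S.xa (C.τ t₁) = _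
  rw [← S.E_swap]
  calc S.xb (C.τ t₄ ^ 2) * S.y1 (C.τ t₃) * S.y2 (C.τ t₂ ^ 2) * S.xa (C.τ t₁)
      = S.xb (C.τ t₄ ^ 2) * S.y1 (C.τ t₃) * (S.y2 (C.τ t₂ ^ 2) * S.xa (C.τ t₁)) := by
        simp only [mul_assoc]
    _ = S.xb (C.τ t₄ ^ 2) * (S.y1 (C.τ t₃) * S.xa (C.τ t₁)) * S.y2 (C.τ t₂ ^ 2) := by
        rw [S.ca2]; simp only [mul_assoc]
    _ = S.xb (C.τ t₄ ^ 2) * S.xa (C.τ t₁) * (S.y1 (C.τ t₃) * S.y2 (C.τ t₂ ^ 2)) := by
        rw [S.ca1]; simp only [mul_assoc]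
    _ = _ := by rw [S.c12]

theorem Fx_nLP : C.Fx (nWU (packF K).sem LP) := by
  rw [← C.nPg_coe]; exact C.Fx_coe _ C.sig_nPg

theorem Fx_nLB : C.Fx (nWU (packF K).sem LB) := by
  rw [← C.nBg_coe]; exact C.Fx_coe _ C.sig_nBg

theorem Fx_blocks : ∀ bs : List (List ℕ), (∀ L ∈ bs, L = LP ∨ L = LB) →
    C.Fx (nWU (packF K).sem bs.flatten) := by
  intro bs
  induction bs with
  | nil => intro _; simpa [nWU] using C.Fx_one
  | cons L bs ih =>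
    intro h
    rw [List.flatten_cons, nWU_append]
    refine Fx.mul ?_ (ih (fun L' hL' => h L' (List.mem_cons_of_mem _ hL')))
    rcases h L (List.mem_cons_self ..) with rfl | rfl
    · exact C.Fx_nLP
    · exact C.Fx_nLB

theorem Fx_Vw (j : ℕ) (hj : j < 9) : C.Fx (nWU (packF K).sem (Vw j)) := by
  unfold Vw
  rw [nWU_append]
  refine Fx.mul ?_ (C.Fx_blocks _ (blkL_mem j hj))
  rw [← C.nPB_pow]
  exact C.Fx_of_mem _ (pow_mem (mul_mem C.nPg_mem C.nBg_mem) 4)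

omit C in
/-- injectivity of the parametrisation of `X_L` -/
theorem XL_inj (w L : List ℕ) (hw : ∀ i ∈ w, i < chevF4.rank) (hneg : NegChain chevF4 w L)
    (l l' : List K) (hl : l.length = L.length) (hl' : l'.length = L.length)
    (h : XL (packF K).sem L l = XL (packF K).sem L l') : l = l' :=
  (gpeel_unique (packF K) (semVF K) L w hw hneg 1 (one_mem _) 1 (one_mem _) l l' hl hl'
    (by rw [h])).2

theorem stepP (w : List ℕ) (hw : ∀ i ∈ w, i < chevF4.rank) (hneg : NegChain chevF4 w LP)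
    (hnw : C.Fx (nWU (packF K).sem w)) :
    Nat.card (C.FS w) = Nat.card K * Nat.card (C.FS (w ++ LP)) ∧
    ((∀ u ∈ C.FS (w ++ LP), u ∈ twistedF4 K e) → ∀ u ∈ C.FS w, u ∈ twistedF4 K e) := by
  have hXf : ∀ t : K, Pp K C.Θ C.τ t = XL (packF K).sem LP [C.τ t, t] := by
    intro t
    rw [C.XL_LP]
    exact (xf_comm K C.Θ 33 24 cokF_33_24 _ _).symm
  obtain ⟨h1, h2⟩ := C.step w LP hw hneg hnw C.Fx_nLP (P := K) (fun t => Pp K C.Θ C.τ t)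
    (fun t => [C.τ t, t]) (fun _ => rfl) hXf (fun t => C.Fx_of_mem _ (C.Pp_mem t))
    (fun a b h => (List.cons.inj (List.cons.inj h).2).1)
    (by
      intro l hl
      obtain ⟨t₁, t₂, rfl⟩ := len2 l hl
      obtain ⟨hG, h⟩ := C.sig_XLP t₁ t₂
      exact ⟨hG, _, rfl, h⟩)
    (by
      intro l hl hfx
      obtain ⟨t₁, t₂, rfl⟩ := len2 l hl
      obtain ⟨hG, h⟩ := C.sig_XLP t₁ t₂
      obtain ⟨hG', h'⟩ := hfx
      have e1 : XL (packF K).sem LP [C.τ t₂, C.τ t₁ ^ 2] = XL (packF K).sem LP [t₁, t₂] := by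
        rw [← h, h']
      have e2 := XL_inj (K := K) w LP hw hneg _ _ rfl rfl e1
      have e3 : C.τ t₂ = t₁ := (List.cons.inj e2).1
      exact ⟨t₂, by rw [hXf, e3]⟩)
  exact ⟨h1, fun h => h2 h (fun t => C.Pp_mem t) (by rw [← C.nPg_coe]; exact C.nPg_mem)⟩

theorem stepB (w : List ℕ) (hw : ∀ i ∈ w, i < chevF4.rank) (hneg : NegChain chevF4 w LB)
    (hnw : C.Fx (nWU (packF K).sem w)) :
    Nat.card (C.FS w) = Nat.card (K × K) * Nat.card (C.FS (w ++ LB)) ∧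
    ((∀ u ∈ C.FS (w ++ LB), u ∈ twistedF4 K e) → ∀ u ∈ C.FS w, u ∈ twistedF4 K e) := by
  have hXf : ∀ p : K × K, (sysP K C.Θ).W C.τ p.1 p.2 =
      XL (packF K).sem LB [p.1, C.τ p.1 * p.1 + p.2, C.τ p.2 ^ 2, C.τ p.1] := by
    intro p
    rw [C.XL_LB]
    rfl
  obtain ⟨h1, h2⟩ := C.step w LB hw hneg hnw C.Fx_nLB (P := K × K)
    (fun p => (sysP K C.Θ).W C.τ p.1 p.2)
    (fun p => [p.1, C.τ p.1 * p.1 + p.2, C.τ p.2 ^ 2, C.τ p.1]) (fun _ => rfl) hXf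
    (fun p => C.Fx_of_mem _ (C.Bp_mem p.1 p.2))
    (by
      rintro ⟨a, b⟩ ⟨a', b'⟩ h
      have ha : a = a' := (List.cons.inj h).1
      have hb : C.τ a * a + b = C.τ a' * a' + b' := (List.cons.inj (List.cons.inj h).2).1
      subst ha
      rw [add_right_inj] at hb
      rw [hb])
    (by
      intro l hl
      obtain ⟨t₁, t₂, t₃, t₄, rfl⟩ := len4 l hl
      obtain ⟨hG, h⟩ := C.sig_XLB t₁ t₂ t₃ t₄
      exact ⟨hG, _, rfl, h⟩)
    (by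
      intro l hl hfx
      obtain ⟨t₁, t₂, t₃, t₄, rfl⟩ := len4 l hl
      obtain ⟨hG, h⟩ := C.sig_XLB t₁ t₂ t₃ t₄
      obtain ⟨hG', h'⟩ := hfx
      have e1 : XL (packF K).sem LB [C.τ t₄ ^ 2, C.τ t₁ * C.τ t₄ ^ 2 + C.τ t₃,
          C.τ t₁ ^ 2 * C.τ t₄ ^ 2 + C.τ t₂ ^ 2, C.τ t₁] =
          XL (packF K).sem LB [t₁, t₂, t₃, t₄] := by
        rw [← h, h']
      have e2 := XL_inj (K := K) w LB hw hneg _ _ rfl rfl e1
      have q1 : C.τ t₄ ^ 2 = t₁ := (List.cons.inj e2).1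
      have q2 : C.τ t₁ * C.τ t₄ ^ 2 + C.τ t₃ = t₂ := (List.cons.inj (List.cons.inj e2).2).1
      have q4 : C.τ t₁ = t₄ :=
        (List.cons.inj (List.cons.inj (List.cons.inj (List.cons.inj e2).2).2).2).1
      refine ⟨(t₁, C.τ t₃), ?_⟩
      rw [hXf]
      show _ = XL (packF K).sem LB [t₁, C.τ t₁ * t₁ + C.τ t₃, C.τ (C.τ t₃) ^ 2, C.τ t₁]
      rw [C.hτ, q4, ← q2, q1, q4])
  exact ⟨h1, fun h => h2 h (fun p => C.Bp_mem p.1 p.2) (by rw [← C.nBg_coe]; exact C.nBg_mem)⟩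

include C in
/-- the fixed points in `U` lie in the twisted group, and there are `q¹²` of them -/
theorem card_FS0 : Nat.card (C.FS (Vw 0)) = Nat.card K ^ 12 ∧
    ∀ u ∈ C.FS (Vw 0), u ∈ twistedF4 K e := by
  have hP := packF K
  have hV := semVF K
  have sP := Vw_succ.1
  have sB := Vw_succ.2.1
  have s8 := Vw_succ.2.2
  obtain ⟨c0, g0⟩ := C.stepP (Vw 0) (Vw_lt 0 (by decide)) (Vw_negP 0 (by decide))
    (C.Fx_Vw 0 (by decide))
  obtain ⟨c1, g1⟩ := C.stepB (Vw 1) (Vw_lt 1 (by decide)) (Vw_negB 1 (by decide))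
    (C.Fx_Vw 1 (by decide))
  obtain ⟨c2, g2⟩ := C.stepP (Vw 2) (Vw_lt 2 (by decide)) (Vw_negP 2 (by decide))
    (C.Fx_Vw 2 (by decide))
  obtain ⟨c3, g3⟩ := C.stepB (Vw 3) (Vw_lt 3 (by decide)) (Vw_negB 3 (by decide))
    (C.Fx_Vw 3 (by decide))
  obtain ⟨c4, g4⟩ := C.stepP (Vw 4) (Vw_lt 4 (by decide)) (Vw_negP 4 (by decide))
    (C.Fx_Vw 4 (by decide))
  obtain ⟨c5, g5⟩ := C.stepB (Vw 5) (Vw_lt 5 (by decide)) (Vw_negB 5 (by decide))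
    (C.Fx_Vw 5 (by decide))
  obtain ⟨c6, g6⟩ := C.stepP (Vw 6) (Vw_lt 6 (by decide)) (Vw_negP 6 (by decide))
    (C.Fx_Vw 6 (by decide))
  obtain ⟨c7, g7⟩ := C.stepB (Vw 7) (Vw_lt 7 (by decide)) (Vw_negB 7 (by decide))
    (C.Fx_Vw 7 (by decide))
  rw [← sP 0 (by decide)] at c0 g0
  rw [← sB 1 (by decide)] at c1 g1
  rw [← sP 2 (by decide)] at c2 g2
  rw [← sB 3 (by decide)] at c3 g3
  rw [← sP 4 (by decide)] at c4 g4
  rw [← sB 5 (by decide)] at c5 g5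
  rw [← sP 6 (by decide)] at c6 g6
  rw [← sB 7 (by decide)] at c7 g7
  have h8 : C.FS (Vw 8) = {1} := by
    ext u
    unfold FS
    rw [s8, UmG_eq_bot' hP hV (wPB 8) (wPB_lt 8) inv_PB8]
    simp only [Set.mem_setOf_eq, Subgroup.mem_bot, Set.mem_singleton_iff]
    constructor
    · exact fun h => h.1
    · intro h; exact ⟨h, by rw [h]; exact C.Fx_one⟩
  have c8 : Nat.card (C.FS (Vw 8)) = 1 := by
    rw [h8]; simp
  have g8 : ∀ u ∈ C.FS (Vw 8), u ∈ twistedF4 K e := by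
    intro u hu
    rw [h8, Set.mem_singleton_iff] at hu
    rw [hu]; exact one_mem _
  refine ⟨?_, g0 (g1 (g2 (g3 (g4 (g5 (g6 (g7 g8)))))))⟩
  rw [c0, c1, c2, c3, c4, c5, c6, c7, c8, Nat.card_prod]
  ring

include C in
/-- `|U ∩ ²F₄| = |K|¹²` -/
theorem card_U1 : Nat.card ↥(chevF4.posUnipotent K ⊓ twistedF4 K e) = Nat.card K ^ 12 := by
  obtain ⟨h1, h2⟩ := C.card_FS0
  have hU : UmG chevF4 K (nWU (packF K).sem (Vw 0)) = chevF4.posUnipotent K :=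
    UmG_eq_pos (packF K) (Vw 0) (Vw_lt 0 (by decide)) (fun r hr => Vw0_all r hr.1 hr)
  have hset : ∀ u : GL chevF4.Idx K, u ∈ chevF4.posUnipotent K ⊓ twistedF4 K e ↔ u ∈ C.FS (Vw 0) := by
    intro u
    constructor
    · intro hu
      have hu' := Subgroup.mem_inf.mp hu
      exact ⟨by rw [hU]; exact hu'.1, C.Fx_of_mem u hu'.2⟩
    · intro hu
      have h3 := hu.1
      rw [hU] at h3
      exact Subgroup.mem_inf.mpr ⟨h3, h2 u hu⟩
  rw [← h1]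
  exact Nat.card_congr (Equiv.subtypeEquivRight hset)

end Ctx4

end Cfsg.Agent.H22.TF4
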