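import Cfsg.Agent.H22.GraphExTwist
import Cfsg.Agent.H22.ChevHAll
import Cfsg.Agent.H22.TF4Abs
import Cfsg.Prelude.Def_LieTwisted
/-!
`²F₄(2^(2m+1))` is perfect for `m ≥ 1` (helper22): a torus element `h_{p₁}(s^θ) h_{p₄}(s)` lies in
the group and acts on the four families of generators by nontrivial characters.
-/
set_option autoImplicit false
open Cfsg Cfsg.Lie

namespace Cfsg.Agent.H22.TF4

open Cfsg.Agent.H22 Cfsg.Agent.H22.GEx

theorem cokF_33_24 : commOK chevF4 2 33 24 := by decide +kernel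
theorem cokF_33_23 : commOK chevF4 2 33 23 := by decide +kernel
theorem cokF_14_24 : commOK chevF4 2 14 24 := by decide +kernel
theorem cokF_14_23 : commOK chevF4 2 14 23 := by decide +kernel
theorem cokF_27_28 : commOK chevF4 2 27 28 := by decide +kernel
theorem cokF_27_30 : commOK chevF4 2 27 30 := by decide +kernel
theorem cokF_25_28 : commOK chevF4 2 25 28 := by decide +kernel
theorem cokF_25_30 : commOK chevF4 2 25 30 := by decide +kernel
theorem cokF_28_30 : commOK chevF4 2 28 30 := by decide +kernel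
theorem cokF_20_19 : commOK chevF4 2 20 19 := by decide +kernel
theorem cokF_20_17 : commOK chevF4 2 20 17 := by decide +kernel
theorem cokF_22_19 : commOK chevF4 2 22 19 := by decide +kernel
theorem cokF_22_17 : commOK chevF4 2 22 17 := by decide +kernel
theorem cokF_19_17 : commOK chevF4 2 19 17 := by decide +kernel

theorem commTermsF_27_25 : chevF4.commTerms 27 25 = [(28, -1, 1, 1), (30, -1, 2, 1)] := by
  decide +kernel

theorem commTermsF_20_22 : chevF4.commTerms 20 22 = [(19, 1, 1, 1), (17, -1, 2, 1)] := by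
  decide +kernel

theorem charP_two_of_card {K : Type*} [Field K] [Fintype K] {n : ℕ}
    (hK : Fintype.card K = 2 ^ (n + 1)) : CharP K 2 := by
  obtain ⟨p, hp⟩ := CharP.exists K
  obtain ⟨k, hpp, hk⟩ := FiniteField.card K p
  have h1 : p ∣ 2 ^ (n + 1) := by
    rw [← hK, hk]
    exact dvd_pow_self p k.ne_zero
  have h2 : p ∣ 2 := hpp.dvd_of_dvd_pow h1
  have h3 : p = 2 := (Nat.prime_dvd_prime_iff_eq hpp Nat.prime_two).mp h2
  subst h3
  exact hp

/-- the character of `h_{p₁}(a) h_{p₄}(b)` on the root `r` -/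
def chiF {K : Type*} [Field K] (a b : K) (r : ℕ) : K :=
  a ^ pairZ chevF4 33 r * b ^ pairZ chevF4 24 r

theorem chiF_vals {K : Type*} [Field K] (a b : K) :
    (chiF a b 33 = a ^ 2 ∧ chiF a b 24 = b ^ 2 ∧ chiF a b 14 = (a ^ 2)⁻¹ ∧
      chiF a b 23 = (b ^ 2)⁻¹) ∧
    (chiF a b 27 = a⁻¹ ∧ chiF a b 25 = b⁻¹ ∧ chiF a b 28 = a⁻¹ * b⁻¹ ∧
      chiF a b 30 = (a ^ 2)⁻¹ * b⁻¹) ∧
    (chiF a b 20 = a ∧ chiF a b 22 = b ∧ chiF a b 19 = a * b ∧ chiF a b 17 = a ^ 2 * b) := by
  have p1 : pairZ chevF4 33 33 = 2 := by decide +kernel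
  have q1 : pairZ chevF4 24 33 = 0 := by decide +kernel
  have p2 : pairZ chevF4 33 24 = 0 := by decide +kernel
  have q2 : pairZ chevF4 24 24 = 2 := by decide +kernel
  have p3 : pairZ chevF4 33 14 = -2 := by decide +kernel
  have q3 : pairZ chevF4 24 14 = 0 := by decide +kernel
  have p4 : pairZ chevF4 33 23 = 0 := by decide +kernel
  have q4 : pairZ chevF4 24 23 = -2 := by decide +kernel
  have p5 : pairZ chevF4 33 27 = -1 := by decide +kernel
  have q5 : pairZ chevF4 24 27 = 0 := by decide +kernel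
  have p6 : pairZ chevF4 33 25 = 0 := by decide +kernel
  have q6 : pairZ chevF4 24 25 = -1 := by decide +kernel
  have p7 : pairZ chevF4 33 28 = -1 := by decide +kernel
  have q7 : pairZ chevF4 24 28 = -1 := by decide +kernel
  have p8 : pairZ chevF4 33 30 = -2 := by decide +kernel
  have q8 : pairZ chevF4 24 30 = -1 := by decide +kernel
  have p9 : pairZ chevF4 33 20 = 1 := by decide +kernel
  have q9 : pairZ chevF4 24 20 = 0 := by decide +kernel
  have p10 : pairZ chevF4 33 22 = 0 := by decide +kernel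
  have q10 : pairZ chevF4 24 22 = 1 := by decide +kernel
  have p11 : pairZ chevF4 33 19 = 1 := by decide +kernel
  have q11 : pairZ chevF4 24 19 = 1 := by decide +kernel
  have p12 : pairZ chevF4 33 17 = 2 := by decide +kernel
  have q12 : pairZ chevF4 24 17 = 1 := by decide +kernel
  unfold chiF
  rw [p1, q1, p2, q2, p3, q3, p4, q4, p5, q5, p6, q6, p7, q7, p8, q8, p9, q9, p10, q10, p11, q11,
    p12, q12]
  have z2 : ∀ c : K, c ^ (2 : ℤ) = c ^ 2 := fun c => zpow_ofNat c 2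
  have zm2 : ∀ c : K, c ^ (-2 : ℤ) = (c ^ 2)⁻¹ := fun c => by rw [zpow_neg, z2]
  refine ⟨⟨?_, ?_, ?_, ?_⟩, ⟨?_, ?_, ?_, ?_⟩, ⟨?_, ?_, ?_, ?_⟩⟩ <;>
    simp only [z2, zm2, zpow_zero, zpow_one, zpow_neg_one, mul_one, one_mul]

section St

variable (K : Type*) [Field K]

/-- the pair word `x_{p₁}(t^θ) x_{p₄}(t)` in the presented group -/
def PpS (τ : K →+* K) (t : K) : chevF4.SteinbergGroup K :=
  chevF4.stGen K 33 (τ t) * chevF4.stGen K 24 t

/-- the pair word `x_{-p₁}(t^θ) x_{-p₄}(t)` in the presented group -/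
def PmS (τ : K →+* K) (t : K) : chevF4.SteinbergGroup K :=
  chevF4.stGen K 14 (τ t) * chevF4.stGen K 23 t

/-- the torus element `h_{p₁}(s^θ) h_{p₄}(s)` is a product of pair words -/
theorem torus_eq [CharP K 2] (τ : K →+* K) (s : K) :
    hEl chevF4 K 33 (τ s) * hEl chevF4 K 24 s =
      PpS K τ s * PmS K τ s⁻¹ * PpS K τ s * (PpS K τ 1 * PmS K τ 1⁻¹ * PpS K τ 1) := by
  have c1 : ∀ u v : K, Commute (chevF4.stGen K 33 u) (chevF4.stGen K 24 v) :=
    commute_of_commOK chevF4 K 2 33 24 cokF_33_24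
  have c2 : ∀ u v : K, Commute (chevF4.stGen K 33 u) (chevF4.stGen K 23 v) :=
    commute_of_commOK chevF4 K 2 33 23 cokF_33_23
  have c3 : ∀ u v : K, Commute (chevF4.stGen K 14 u) (chevF4.stGen K 24 v) :=
    commute_of_commOK chevF4 K 2 14 24 cokF_14_24
  have c4 : ∀ u v : K, Commute (chevF4.stGen K 14 u) (chevF4.stGen K 23 v) :=
    commute_of_commOK chevF4 K 2 14 23 cokF_14_23
  have n33 : ∀ a : K, nEl chevF4 K 33 a =
      chevF4.stGen K 33 a * chevF4.stGen K 14 a⁻¹ * chevF4.stGen K 33 a := by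
    intro a
    have h14 : chevF4.neg 33 = 14 := by decide
    rw [nEl_eq, h14, CharTwo.neg_eq]
  have n24 : ∀ b : K, nEl chevF4 K 24 b =
      chevF4.stGen K 24 b * chevF4.stGen K 23 b⁻¹ * chevF4.stGen K 24 b := by
    intro b
    have h23 : chevF4.neg 24 = 23 := by decide
    rw [nEl_eq, h23, CharTwo.neg_eq]
  have hn : ∀ a b : K, Commute (nEl chevF4 K 33 a) (nEl chevF4 K 24 b) := by
    intro a b
    rw [n33, n24]
    have k1 : ∀ u : K, Commute (chevF4.stGen K 33 u)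
        (chevF4.stGen K 24 b * chevF4.stGen K 23 b⁻¹ * chevF4.stGen K 24 b) :=
      fun u => ((c1 u b).mul_right (c2 u _)).mul_right (c1 u b)
    have k2 : ∀ u : K, Commute (chevF4.stGen K 14 u)
        (chevF4.stGen K 24 b * chevF4.stGen K 23 b⁻¹ * chevF4.stGen K 24 b) :=
      fun u => ((c3 u b).mul_right (c4 u _)).mul_right (c3 u b)
    exact ((k1 a).mul_left (k2 _)).mul_left (k1 a)
  have key : ∀ s : K, nEl chevF4 K 33 (τ s) * nEl chevF4 K 24 s =
      PpS K τ s * PmS K τ s⁻¹ * PpS K τ s := by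
    intro s
    rw [n33, n24]
    unfold PpS PmS
    rw [map_inv₀]
    exact (rearr _ _ _ _ (c3 _ _).symm.eq (c2 _ _).symm.eq (c1 _ _).symm.eq).symm
  have hm1 : (-1 : K) = 1 := CharTwo.neg_eq 1
  rw [hEl_eq_nEl, hEl_eq_nEl, hm1]
  have k1 := key 1
  rw [map_one] at k1
  rw [← key s, ← k1]
  calc nEl chevF4 K 33 (τ s) * nEl chevF4 K 33 1 * (nEl chevF4 K 24 s * nEl chevF4 K 24 1)
      = nEl chevF4 K 33 (τ s) * (nEl chevF4 K 33 1 * nEl chevF4 K 24 s) * nEl chevF4 K 24 1 := by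
        simp only [mul_assoc]
    _ = nEl chevF4 K 33 (τ s) * (nEl chevF4 K 24 s * nEl chevF4 K 33 1) * nEl chevF4 K 24 1 := by
        rw [(hn 1 s).eq]
    _ = _ := by simp only [mul_assoc]

end St

section GLsec

variable (K : Type*) [Field K] (Θ : chevF4.SteinbergGroup K →* GL chevF4.Idx K)

/-- root elements of the group -/
def xf (r : ℕ) (t : K) : GL chevF4.Idx K := Θ (chevF4.stGen K r t)

theorem xf_add (r : ℕ) (hr : r < chevF4.nroots) (s t : K) :
    xf K Θ r (s + t) = xf K Θ r s * xf K Θ r t := by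
  unfold xf; rw [← map_mul, R1 chevF4 K r hr]

theorem xf_comm [CharP K 2] (k1 k2 : ℕ) (h : commOK chevF4 2 k1 k2) (s t : K) :
    xf K Θ k2 t * xf K Θ k1 s = xf K Θ k1 s * xf K Θ k2 t := by
  unfold xf; rw [← map_mul, ← map_mul]; congr 1
  exact (commute_of_commOK chevF4 K 2 k1 k2 h s t).symm.eq

theorem swapF_pos [CharP K 2] (s t : K) :
    xf K Θ 25 t * xf K Θ 27 s =
      xf K Θ 27 s * xf K Θ 25 t * (xf K Θ 28 (s * t) * xf K Θ 30 (s ^ 2 * t)) := by
  have h := R2 chevF4 K 27 25 (by decide) (by decide) (by decide) (by decide) s t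
  unfold ChevalleyDatum.commWord at h
  rw [commTermsF_27_25] at h
  simp only [List.map_cons, List.map_nil, List.prod_cons, List.prod_nil, mul_one] at h
  have h2 : (2 : K) = 0 := CharTwo.two_eq_zero
  have e28 : ((-1 : ℤ) : K) * (-s) ^ 1 * t ^ 1 = s * t := by push_cast; ring
  have e30 : ((-1 : ℤ) : K) * (-s) ^ 2 * t ^ 1 = s ^ 2 * t := by
    push_cast; linear_combination (-(s ^ 2 * t)) * h2
  rw [e28, e30] at h
  have h' := congrArg Θ h
  simp only [map_mul, map_inv] at h'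
  unfold xf
  rw [← h']
  group

theorem swapF_neg [CharP K 2] (s t : K) :
    xf K Θ 22 t * xf K Θ 20 s =
      xf K Θ 20 s * xf K Θ 22 t * (xf K Θ 19 (s * t) * xf K Θ 17 (s ^ 2 * t)) := by
  have h := R2 chevF4 K 20 22 (by decide) (by decide) (by decide) (by decide) s t
  unfold ChevalleyDatum.commWord at h
  rw [commTermsF_20_22] at h
  simp only [List.map_cons, List.map_nil, List.prod_cons, List.prod_nil, mul_one] at h
  have h2 : (2 : K) = 0 := CharTwo.two_eq_zero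
  have e19 : ((1 : ℤ) : K) * (-s) ^ 1 * t ^ 1 = s * t := by
    push_cast; linear_combination (-(s * t)) * h2
  have e17 : ((-1 : ℤ) : K) * (-s) ^ 2 * t ^ 1 = s ^ 2 * t := by
    push_cast; linear_combination (-(s ^ 2 * t)) * h2
  rw [e19, e17] at h
  have h' := congrArg Θ h
  simp only [map_mul, map_inv] at h'
  unfold xf
  rw [← h']
  group

/-- the positive class system -/
def sysP [CharP K 2] : BSys K (GL chevF4.Idx K) where
  xa := xf K Θ 27
  xb := xf K Θ 25
  y1 := xf K Θ 28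
  y2 := xf K Θ 30
  xa_add := xf_add K Θ 27 (by decide)
  xb_add := xf_add K Θ 25 (by decide)
  y1_add := xf_add K Θ 28 (by decide)
  y2_add := xf_add K Θ 30 (by decide)
  ca1 := fun s c => xf_comm K Θ 27 28 cokF_27_28 s c
  ca2 := fun s c => xf_comm K Θ 27 30 cokF_27_30 s c
  cb1 := fun t c => xf_comm K Θ 25 28 cokF_25_28 t c
  cb2 := fun t c => xf_comm K Θ 25 30 cokF_25_30 t c
  c12 := fun c d => xf_comm K Θ 28 30 cokF_28_30 c d
  swap := swapF_pos K Θ

/-- the negative class system -/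
def sysM [CharP K 2] : BSys K (GL chevF4.Idx K) where
  xa := xf K Θ 20
  xb := xf K Θ 22
  y1 := xf K Θ 19
  y2 := xf K Θ 17
  xa_add := xf_add K Θ 20 (by decide)
  xb_add := xf_add K Θ 22 (by decide)
  y1_add := xf_add K Θ 19 (by decide)
  y2_add := xf_add K Θ 17 (by decide)
  ca1 := fun s c => xf_comm K Θ 20 19 cokF_20_19 s c
  ca2 := fun s c => xf_comm K Θ 20 17 cokF_20_17 s c
  cb1 := fun t c => xf_comm K Θ 22 19 cokF_22_19 t c
  cb2 := fun t c => xf_comm K Θ 22 17 cokF_22_17 t c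
  c12 := fun c d => xf_comm K Θ 19 17 cokF_19_17 c d
  swap := swapF_neg K Θ

/-- the pair words in the group -/
def Pp (τ : K →+* K) (t : K) : GL chevF4.Idx K := xf K Θ 33 (τ t) * xf K Θ 24 t

/-- the negative pair words in the group -/
def Pm (τ : K →+* K) (t : K) : GL chevF4.Idx K := xf K Θ 14 (τ t) * xf K Θ 23 t

theorem Pp_eq (τ : K →+* K) (t : K) : Pp K Θ τ t = Θ (PpS K τ t) := (map_mul Θ _ _).symm

theorem Pm_eq (τ : K →+* K) (t : K) : Pm K Θ τ t = Θ (PmS K τ t) := (map_mul Θ _ _).symm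

theorem Pp_add [CharP K 2] (τ : K →+* K) (s t : K) :
    Pp K Θ τ (s + t) = Pp K Θ τ s * Pp K Θ τ t := by
  unfold Pp
  rw [map_add, xf_add K Θ 33 (by decide), xf_add K Θ 24 (by decide)]
  calc xf K Θ 33 (τ s) * xf K Θ 33 (τ t) * (xf K Θ 24 s * xf K Θ 24 t)
      = xf K Θ 33 (τ s) * (xf K Θ 33 (τ t) * xf K Θ 24 s) * xf K Θ 24 t := by
        simp only [mul_assoc]
    _ = xf K Θ 33 (τ s) * (xf K Θ 24 s * xf K Θ 33 (τ t)) * xf K Θ 24 t := by
        rw [xf_comm K Θ 33 24 cokF_33_24]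
    _ = _ := by simp only [mul_assoc]

theorem Pm_add [CharP K 2] (τ : K →+* K) (s t : K) :
    Pm K Θ τ (s + t) = Pm K Θ τ s * Pm K Θ τ t := by
  unfold Pm
  rw [map_add, xf_add K Θ 14 (by decide), xf_add K Θ 23 (by decide)]
  calc xf K Θ 14 (τ s) * xf K Θ 14 (τ t) * (xf K Θ 23 s * xf K Θ 23 t)
      = xf K Θ 14 (τ s) * (xf K Θ 14 (τ t) * xf K Θ 23 s) * xf K Θ 23 t := by
        simp only [mul_assoc]
    _ = xf K Θ 14 (τ s) * (xf K Θ 23 s * xf K Θ 14 (τ t)) * xf K Θ 23 t := by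
        rw [xf_comm K Θ 14 23 cokF_14_23]
    _ = _ := by simp only [mul_assoc]

/-- the torus element `h_{p₁}(a) h_{p₄}(b)` -/
def hf (a b : K) : GL chevF4.Idx K := Θ (hEl chevF4 K 33 a * hEl chevF4 K 24 b)

variable (hx : ∀ (r : ℕ) (t : K), r < chevF4.nroots →
  ((Θ (chevF4.stGen K r t) : GL chevF4.Idx K) : Matrix chevF4.Idx chevF4.Idx K) = chevF4.x K r t)

include hx

theorem Theta_word (w : List (ℕ × K)) (hw : ∀ q ∈ w, q.1 < chevF4.nroots) :
    ((Θ ((w.map fun q => chevF4.stGen K q.1 q.2).prod) : GL chevF4.Idx K) :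
      Matrix chevF4.Idx chevF4.Idx K) = chevF4.wordMat K w := by
  induction w with
  | nil => simp [ChevalleyDatum.wordMat]
  | cons q w ih =>
    have h1 : chevF4.wordMat K (q :: w) = chevF4.x K q.1 q.2 * chevF4.wordMat K w := by
      simp [ChevalleyDatum.wordMat]
    rw [List.map_cons, List.prod_cons, map_mul, Units.val_mul, h1,
      hx q.1 q.2 (hw q (List.mem_cons_self ..)),
      ih (fun q' hq' => hw q' (List.mem_cons_of_mem _ hq'))]

theorem xf_val (r : ℕ) (hr : r < chevF4.nroots) (t : K) :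
    ((xf K Θ r t : GL chevF4.Idx K) : Matrix chevF4.Idx chevF4.Idx K) = chevF4.x K r t :=
  hx r t hr

theorem hElF_val (r : ℕ) (hr : r < chevF4.nroots) (hr' : chevF4.neg r < chevF4.nroots) (t : K) :
    ((Θ (hEl chevF4 K r t) : GL chevF4.Idx K) : Matrix chevF4.Idx chevF4.Idx K) =
      chevF4.hMat K r t := by
  unfold hEl ChevalleyDatum.hMat
  apply Theta_word K Θ hx
  intro q hq
  unfold ChevalleyDatum.hWord ChevalleyDatum.nWord at hq
  simp only [List.cons_append, List.nil_append, List.mem_cons, List.mem_nil_iff, or_false] at hq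
  rcases hq with rfl | rfl | rfl | rfl | rfl | rfl <;> assumption

theorem hf_val (a b : K) :
    ((hf K Θ a b : GL chevF4.Idx K) : Matrix chevF4.Idx chevF4.Idx K) =
      chevF4.hMat K 33 a * chevF4.hMat K 24 b := by
  unfold hf
  rw [map_mul, Units.val_mul, hElF_val K Θ hx 33 (by decide) (by decide),
    hElF_val K Θ hx 24 (by decide) (by decide)]

theorem hf_conj (a b : K) (ha : a ≠ 0) (hb : b ≠ 0) (r : ℕ) (hr : r < chevF4.nroots) (t : K) :
    hf K Θ a b * xf K Θ r t * (hf K Θ a b)⁻¹ = xf K Θ r (chiF a b r * t) := by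
  have hD : chevF4 ∈ [chevG2, chevB2, chevD4, chevF4, chevE6, chevE7, chevE8] := by simp
  have e : hf K Θ a b * xf K Θ r t = xf K Θ r (chiF a b r * t) * hf K Θ a b := by
    apply Units.ext
    rw [Units.val_mul, Units.val_mul, xf_val K Θ hx r hr, xf_val K Θ hx r hr, hf_val K Θ hx,
      mul_assoc, hMat_mul_x chevF4 hD 24 r (by decide) hr b hb, ← mul_assoc,
      hMat_mul_x chevF4 hD 33 r (by decide) hr a ha, mul_assoc]
    unfold chiF
    rw [mul_assoc]
  rw [e, mul_inv_cancel_right]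

theorem Pp_val (τ : K →+* K) (e : ℕ) (hτe : ∀ c, τ c = c ^ e) (t : K) :
    ((Pp K Θ τ t : GL chevF4.Idx K) : Matrix chevF4.Idx chevF4.Idx K) =
      chevF4.wordMat K (f4PairWord e f4p1 f4p4 t) := by
  unfold Pp
  rw [Units.val_mul, xf_val K Θ hx 33 (by decide), xf_val K Θ hx 24 (by decide), hτe]
  simp [ChevalleyDatum.wordMat, f4PairWord, f4p1, f4p4]

theorem Pm_val (τ : K →+* K) (e : ℕ) (hτe : ∀ c, τ c = c ^ e) (t : K) :
    ((Pm K Θ τ t : GL chevF4.Idx K) : Matrix chevF4.Idx chevF4.Idx K) =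
      chevF4.wordMat K (f4PairWord e f4m1 f4m4 t) := by
  unfold Pm
  rw [Units.val_mul, xf_val K Θ hx 14 (by decide), xf_val K Θ hx 23 (by decide), hτe]
  simp [ChevalleyDatum.wordMat, f4PairWord, f4m1, f4m4]

theorem Bp_val [CharP K 2] (τ : K →+* K) (e : ℕ) (hτe : ∀ c, τ c = c ^ e) (t u : K) :
    (((sysP K Θ).W τ t u : GL chevF4.Idx K) : Matrix chevF4.Idx chevF4.Idx K) =
      chevF4.wordMat K (b2ClassWord e f4a f4b f4ab f4aab t u) := by
  show ((xf K Θ 27 (τ t) * xf K Θ 25 t * (xf K Θ 28 (τ t * t + u) * xf K Θ 30 (τ u ^ 2)) :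
    GL chevF4.Idx K) : Matrix chevF4.Idx chevF4.Idx K) = _
  have e1 : τ t * t + u = t ^ (e + 1) + u := by rw [hτe, pow_succ]
  have e2 : τ u ^ 2 = u ^ (2 * e) := by rw [hτe, ← pow_mul, mul_comm]
  rw [Units.val_mul, Units.val_mul, Units.val_mul, xf_val K Θ hx 27 (by decide),
    xf_val K Θ hx 25 (by decide), xf_val K Θ hx 28 (by decide), xf_val K Θ hx 30 (by decide),
    e1, e2, hτe t]
  simp [ChevalleyDatum.wordMat, b2ClassWord, f4a, f4b, f4ab, f4aab, mul_assoc]

theorem Bm_val [CharP K 2] (τ : K →+* K) (e : ℕ) (hτe : ∀ c, τ c = c ^ e) (t u : K) :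
    (((sysM K Θ).W τ t u : GL chevF4.Idx K) : Matrix chevF4.Idx chevF4.Idx K) =
      chevF4.wordMat K (b2ClassWord e f4ma f4mb f4mab f4maab t u) := by
  show ((xf K Θ 20 (τ t) * xf K Θ 22 t * (xf K Θ 19 (τ t * t + u) * xf K Θ 17 (τ u ^ 2)) :
    GL chevF4.Idx K) : Matrix chevF4.Idx chevF4.Idx K) = _
  have e1 : τ t * t + u = t ^ (e + 1) + u := by rw [hτe, pow_succ]
  have e2 : τ u ^ 2 = u ^ (2 * e) := by rw [hτe, ← pow_mul, mul_comm]
  rw [Units.val_mul, Units.val_mul, Units.val_mul, xf_val K Θ hx 20 (by decide),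
    xf_val K Θ hx 22 (by decide), xf_val K Θ hx 19 (by decide), xf_val K Θ hx 17 (by decide),
    e1, e2, hτe t]
  simp [ChevalleyDatum.wordMat, b2ClassWord, f4ma, f4mb, f4mab, f4maab, mul_assoc]

end GLsec

end Cfsg.Agent.H22.TF4
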