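import Cfsg.Agent.H22.TF4Perf
import Cfsg.Agent.H22.ChevNorm
import Cfsg.Agent.H22.ChevData
import Cfsg.Agent.H22.ChevTorus
/-!
The Suzuki element of `²F₄` (helper22): for the central class word `W(0,u)` of the `B₂`-class,
`W⁻(t₁,0) W(0,u) W⁻(t₁,u⁻¹) = n_b(u²/v) n_{2a+b}(v)` with `v = u^{2θ}`, `t₁ = v/u²`.  Hence the
torus elements `h_b(u²/v) h_{2a+b}(v)` lie in the group generated by the class words.
-/
set_option autoImplicit false
open Cfsg Cfsg.Lie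

namespace Cfsg.Agent.H22.TF4

open Cfsg.Agent.H22 Cfsg.Agent.H22.GEx

/-- `-X/Y` -/
def pA : Poly := [⟨0, 1, 1, 0, 0, 1⟩]
/-- `X/Y` -/
def pA' : Poly := [⟨1, 0, 1, 0, 0, 1⟩]
/-- `-Y/X²` -/
def pB : Poly := [⟨0, 1, 0, 2, 1, 0⟩]
/-- `-1/X` -/
def pC : Poly := [⟨0, 1, 0, 1, 0, 0⟩]
/-- `-1/Y` -/
def pD : Poly := [⟨0, 1, 0, 0, 0, 1⟩]
/-- `X` -/
def pX : Poly := [⟨1, 0, 1, 0, 0, 0⟩]
/-- `Y` -/
def pY : Poly := [⟨1, 0, 0, 0, 1, 0⟩]
/-- `X²/Y` -/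
def pE : Poly := [⟨1, 0, 2, 0, 0, 1⟩]

/-- the word `W⁻ · W(0,X) · W⁻` -/
def suzL : List (ℕ × Poly) :=
  [(20, pA), (22, pB), (19, pC), (17, []), (27, []), (25, []), (28, pX), (30, pY),
   (20, pA'), (22, pB), (19, []), (17, pD)]

/-- the word `n_b(X²/Y) n_{2a+b}(Y)` -/
def suzR : List (ℕ × Poly) :=
  [(25, pE), (22, pB), (25, pE), (30, pY), (17, pD), (30, pY)]

theorem suz_check : wordEqCheckN chevF4 64 32 64 32 suzL suzR = true := by decide +kernel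

section evals

variable {F : Type*} [Field F] (ρ : Val F)

theorem pA_eval : Poly.eval ρ pA = -(ρ.x * ρ.y⁻¹) := by simp [pA, Mono.eval, Mono.mon]
theorem pA'_eval : Poly.eval ρ pA' = ρ.x * ρ.y⁻¹ := by simp [pA', Mono.eval, Mono.mon]
theorem pB_eval : Poly.eval ρ pB = -(ρ.y * (ρ.x ^ 2)⁻¹) := by
  simp [pB, Mono.eval, Mono.mon, mul_comm]
theorem pC_eval : Poly.eval ρ pC = -ρ.x⁻¹ := by simp [pC, Mono.eval, Mono.mon]
theorem pD_eval : Poly.eval ρ pD = -ρ.y⁻¹ := by simp [pD, Mono.eval, Mono.mon]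
theorem pX_eval : Poly.eval ρ pX = ρ.x := by simp [pX, Mono.eval, Mono.mon]
theorem pY_eval : Poly.eval ρ pY = ρ.y := by simp [pY, Mono.eval, Mono.mon]
theorem pE_eval : Poly.eval ρ pE = ρ.x ^ 2 * ρ.y⁻¹ := by simp [pE, Mono.eval, Mono.mon]

end evals

/-- the Suzuki identity in characteristic 2 -/
theorem suz_mat {K : Type*} [Field K] [CharP K 2] (u v : K) (hu : u ≠ 0) (hv : v ≠ 0) :
    chevF4.wordMat K [(20, u * v⁻¹), (22, v * (u ^ 2)⁻¹), (19, u⁻¹), (17, 0), (27, 0), (25, 0),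
      (28, u), (30, v), (20, u * v⁻¹), (22, v * (u ^ 2)⁻¹), (19, 0), (17, v⁻¹)] =
    chevF4.wordMat K [(25, u ^ 2 * v⁻¹), (22, v * (u ^ 2)⁻¹), (25, u ^ 2 * v⁻¹), (30, v),
      (17, v⁻¹), (30, v)] := by
  have h := wordMat_eq_of_checkN tablesCheck_F4 maskCheck_F4 64 32 64 32 suzL suzR suz_check
    (⟨u, v, hu, hv⟩ : Val K)
  simp only [evalWord, suzL, suzR, List.map_cons, List.map_nil, pA_eval, pA'_eval, pB_eval,
    pC_eval, pD_eval, pX_eval, pY_eval, pE_eval, Poly.eval_nil, CharTwo.neg_eq] at h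
  exact h

theorem cokF_25_17 : commOK chevF4 2 25 17 := by decide +kernel
theorem cokF_22_30 : commOK chevF4 2 22 30 := by decide +kernel

/-- `h_b(β) h_{2a+b}(δ)` as a product of two `n_b n_{2a+b}` -/
theorem hh_eq_nn (K : Type*) [Field K] [CharP K 2] (β δ : K) :
    hEl chevF4 K 25 β * hEl chevF4 K 30 δ =
      nEl chevF4 K 25 β * nEl chevF4 K 30 δ * (nEl chevF4 K 25 1 * nEl chevF4 K 30 1) := by
  have c1 : ∀ u v : K, Commute (chevF4.stGen K 25 u) (chevF4.stGen K 30 v) :=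
    commute_of_commOK chevF4 K 2 25 30 cokF_25_30
  have c2 : ∀ u v : K, Commute (chevF4.stGen K 25 u) (chevF4.stGen K 17 v) :=
    commute_of_commOK chevF4 K 2 25 17 cokF_25_17
  have c3 : ∀ u v : K, Commute (chevF4.stGen K 22 u) (chevF4.stGen K 30 v) :=
    commute_of_commOK chevF4 K 2 22 30 cokF_22_30
  have c4 : ∀ u v : K, Commute (chevF4.stGen K 22 u) (chevF4.stGen K 17 v) :=
    commute_of_commOK chevF4 K 2 22 17 cokF_22_17
  have h22 : chevF4.neg 25 = 22 := by decide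
  have h17 : chevF4.neg 30 = 17 := by decide
  have hn : ∀ a b : K, Commute (nEl chevF4 K 25 a) (nEl chevF4 K 30 b) := by
    intro a b
    rw [nEl_eq, nEl_eq, h22, h17]
    have k1 : ∀ u : K, Commute (chevF4.stGen K 25 u)
        (chevF4.stGen K 30 b * chevF4.stGen K 17 (-b⁻¹) * chevF4.stGen K 30 b) :=
      fun u => ((c1 u b).mul_right (c2 u _)).mul_right (c1 u b)
    have k2 : ∀ u : K, Commute (chevF4.stGen K 22 u)
        (chevF4.stGen K 30 b * chevF4.stGen K 17 (-b⁻¹) * chevF4.stGen K 30 b) :=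
      fun u => ((c3 u b).mul_right (c4 u _)).mul_right (c3 u b)
    exact ((k1 a).mul_left (k2 _)).mul_left (k1 a)
  have hm1 : (-1 : K) = 1 := CharTwo.neg_eq 1
  rw [hEl_eq_nEl, hEl_eq_nEl, hm1]
  calc nEl chevF4 K 25 β * nEl chevF4 K 25 1 * (nEl chevF4 K 30 δ * nEl chevF4 K 30 1)
      = nEl chevF4 K 25 β * (nEl chevF4 K 25 1 * nEl chevF4 K 30 δ) * nEl chevF4 K 30 1 := by
        simp only [mul_assoc]
    _ = nEl chevF4 K 25 β * (nEl chevF4 K 30 δ * nEl chevF4 K 25 1) * nEl chevF4 K 30 1 := by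
        rw [(hn 1 δ).eq]
    _ = _ := by simp only [mul_assoc]

section GLsec

variable (K : Type*) [Field K] (Θ : chevF4.SteinbergGroup K →* GL chevF4.Idx K)

/-- the Suzuki element `W⁻(t₁,0) W(0,u) W⁻(t₁,u⁻¹)` -/
def nB [CharP K 2] (τ : K →+* K) (u : K) : GL chevF4.Idx K :=
  (sysM K Θ).W τ (τ u ^ 2 * (u ^ 2)⁻¹) 0 * (sysP K Θ).W τ 0 u *
    (sysM K Θ).W τ (τ u ^ 2 * (u ^ 2)⁻¹) u⁻¹

theorem nB_mem [CharP K 2] (τ : K →+* K) (G : Subgroup (GL chevF4.Idx K))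
    (hP : ∀ t u : K, (sysP K Θ).W τ t u ∈ G) (hM : ∀ t u : K, (sysM K Θ).W τ t u ∈ G) (u : K) :
    nB K Θ τ u ∈ G :=
  G.mul_mem (G.mul_mem (hM _ _) (hP _ _)) (hM _ _)

variable (hx : ∀ (r : ℕ) (t : K), r < chevF4.nroots →
  ((Θ (chevF4.stGen K r t) : GL chevF4.Idx K) : Matrix chevF4.Idx chevF4.Idx K) = chevF4.x K r t)

include hx

theorem Wp_val [CharP K 2] (τ : K →+* K) (t u : K) :
    (((sysP K Θ).W τ t u : GL chevF4.Idx K) : Matrix chevF4.Idx chevF4.Idx K) =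
      chevF4.wordMat K [(27, τ t), (25, t), (28, τ t * t + u), (30, τ u ^ 2)] := by
  show ((xf K Θ 27 (τ t) * xf K Θ 25 t * (xf K Θ 28 (τ t * t + u) * xf K Θ 30 (τ u ^ 2)) :
    GL chevF4.Idx K) : Matrix chevF4.Idx chevF4.Idx K) = _
  rw [Units.val_mul, Units.val_mul, Units.val_mul, xf_val K Θ hx 27 (by decide),
    xf_val K Θ hx 25 (by decide), xf_val K Θ hx 28 (by decide), xf_val K Θ hx 30 (by decide)]
  simp [ChevalleyDatum.wordMat, mul_assoc]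

theorem Wm_val [CharP K 2] (τ : K →+* K) (t u : K) :
    (((sysM K Θ).W τ t u : GL chevF4.Idx K) : Matrix chevF4.Idx chevF4.Idx K) =
      chevF4.wordMat K [(20, τ t), (22, t), (19, τ t * t + u), (17, τ u ^ 2)] := by
  show ((xf K Θ 20 (τ t) * xf K Θ 22 t * (xf K Θ 19 (τ t * t + u) * xf K Θ 17 (τ u ^ 2)) :
    GL chevF4.Idx K) : Matrix chevF4.Idx chevF4.Idx K) = _
  rw [Units.val_mul, Units.val_mul, Units.val_mul, xf_val K Θ hx 20 (by decide),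
    xf_val K Θ hx 22 (by decide), xf_val K Θ hx 19 (by decide), xf_val K Θ hx 17 (by decide)]
  simp [ChevalleyDatum.wordMat, mul_assoc]

/-- the Suzuki element is `n_b(u²/v) n_{2a+b}(v)` -/
theorem nB_eq [CharP K 2] (τ : K →+* K) (hτ : ∀ c : K, τ (τ c) ^ 2 = c) (u : K) (hu : u ≠ 0) :
    nB K Θ τ u =
      Θ (nEl chevF4 K 25 (u ^ 2 * (τ u ^ 2)⁻¹) * nEl chevF4 K 30 (τ u ^ 2)) := by
  apply Units.ext
  obtain ⟨v, hv⟩ : ∃ v : K, v = τ u ^ 2 := ⟨_, rfl⟩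
  have hv0 : v ≠ 0 := by rw [hv]; exact pow_ne_zero _ ((map_ne_zero τ).mpr hu)
  have hτv : τ v = u := by rw [hv, map_pow, hτ]
  obtain ⟨t1, ht1⟩ : ∃ t1 : K, t1 = v * (u ^ 2)⁻¹ := ⟨_, rfl⟩
  have a1 : τ t1 = u * v⁻¹ := by rw [ht1, map_mul, map_inv₀, map_pow, ← hv, hτv]
  have a2 : τ t1 * t1 = u⁻¹ := by rw [a1, ht1]; field_simp
  have a3 : τ t1 * t1 + 0 = u⁻¹ := by rw [a2, add_zero]
  have a11 : τ t1 * t1 + u⁻¹ = 0 := by rw [a2]; exact CharTwo.add_self_eq_zero _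
  have a12 : τ u⁻¹ ^ 2 = v⁻¹ := by rw [map_inv₀, inv_pow, ← hv]
  have a4 : τ (0 : K) ^ 2 = 0 := by simp
  have a7 : τ (0 : K) * 0 + u = u := by simp
  unfold nB
  rw [← hv, ← ht1, Units.val_mul, Units.val_mul, Wm_val K Θ hx, Wp_val K Θ hx, Wm_val K Θ hx,
    ← wordMat_append chevF4, ← wordMat_append chevF4]
  have hR : ((Θ (nEl chevF4 K 25 (u ^ 2 * v⁻¹) * nEl chevF4 K 30 v) : GL chevF4.Idx K) :
      Matrix chevF4.Idx chevF4.Idx K) =
      chevF4.wordMat K [(25, u ^ 2 * v⁻¹), (22, v * (u ^ 2)⁻¹), (25, u ^ 2 * v⁻¹), (30, v),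
        (17, v⁻¹), (30, v)] := by
    have e : nEl chevF4 K 25 (u ^ 2 * v⁻¹) * nEl chevF4 K 30 v =
        (([(25, u ^ 2 * v⁻¹), (22, v * (u ^ 2)⁻¹), (25, u ^ 2 * v⁻¹), (30, v), (17, v⁻¹),
          (30, v)] : List (ℕ × K)).map fun q => chevF4.stGen K q.1 q.2).prod := by
      have h22 : chevF4.neg 25 = 22 := by decide
      have h17 : chevF4.neg 30 = 17 := by decide
      have hb : (u ^ 2 * v⁻¹)⁻¹ = v * (u ^ 2)⁻¹ := by rw [mul_inv, inv_inv, mul_comm]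
      rw [nEl_eq, nEl_eq, h22, h17, CharTwo.neg_eq, CharTwo.neg_eq, hb]
      simp only [List.map_cons, List.map_nil, List.prod_cons, List.prod_nil, mul_one, mul_assoc]
    rw [e]
    apply Theta_word K Θ hx
    intro q hq
    simp only [List.mem_cons, List.mem_nil_iff, or_false] at hq
    rcases hq with rfl | rfl | rfl | rfl | rfl | rfl <;> (dsimp only; decide)
  rw [hR, ← suz_mat u v hu hv0]
  congr 1
  simp only [List.cons_append, List.nil_append]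
  rw [a3, a11, a1, a4, a7, a12, map_zero, ← hv, ht1]

/-- the torus elements `h_b(u²/v) h_{2a+b}(v)`, `v = u^{2θ}`, lie in any subgroup containing the
class words -/
theorem TB_mem [CharP K 2] (τ : K →+* K) (hτ : ∀ c : K, τ (τ c) ^ 2 = c)
    (G : Subgroup (GL chevF4.Idx K))
    (hP : ∀ t u : K, (sysP K Θ).W τ t u ∈ G) (hM : ∀ t u : K, (sysM K Θ).W τ t u ∈ G)
    (u : K) (hu : u ≠ 0) :
    Θ (hEl chevF4 K 25 (u ^ 2 * (τ u ^ 2)⁻¹) * hEl chevF4 K 30 (τ u ^ 2)) ∈ G := by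
  have h1 := nB_eq K Θ hx τ hτ 1 one_ne_zero
  simp only [map_one, one_pow, inv_one, mul_one] at h1
  rw [hh_eq_nn, map_mul, ← nB_eq K Θ hx τ hτ u hu, ← h1]
  exact G.mul_mem (nB_mem K Θ τ G hP hM u) (nB_mem K Θ τ G hP hM 1)

end GLsec

end Cfsg.Agent.H22.TF4
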