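import Cfsg.Agent.H22.TF4Suz
import Cfsg.Agent.H22.GraphExData
/-!
The torus of `F₄` and its intersection with `²F₄`: `|H ∩ ²F₄(q)| = (q - 1)²` (helper22).
-/
set_option autoImplicit false
open Cfsg Cfsg.Lie

namespace Cfsg.Agent.H22.TF4

open Cfsg.Agent.H22 Cfsg.Agent.H22.GEx

/-- parameters of a torus element of `F₄` -/
def cc4 {K : Type*} (c0 c1 c2 c3 : K) : ℕ → K :=
  fun i => if i = 0 then c0 else if i = 1 then c1 else if i = 2 then c2 else c3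

/-- the torus matrix `h_{p₁}(c0) h_{p₂}(c1) h_{p₃}(c2) h_{p₄}(c3)` -/
def dgF {K : Type*} [Field K] (c0 c1 c2 c3 : K) : Matrix chevF4.Idx chevF4.Idx K :=
  Matrix.diagonal (torusDiag chevF4 (cc4 c0 c1 c2 c3))

section torus

variable {K : Type*} [Field K]

theorem torusDiagF_inr (c : ℕ → K) (s : Fin chevF4.nroots) :
    torusDiag chevF4 c (Sum.inr s) = c 0 ^ chevF4.cartan 0 s * (c 1 ^ chevF4.cartan 1 s *
      (c 2 ^ chevF4.cartan 2 s * c 3 ^ chevF4.cartan 3 s)) := by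
  show ((List.range 4).map fun i => c i ^ chevF4.cartan i s).prod = _
  simp [List.range_succ]

theorem torusDiagF_cc (c : ℕ → K) :
    torusDiag chevF4 c = torusDiag chevF4 (cc4 (c 0) (c 1) (c 2) (c 3)) := by
  funext j
  rcases j with i | s
  · rfl
  · rw [torusDiagF_inr, torusDiagF_inr]; rfl

theorem dgF_mul (c0 c1 c2 c3 d0 d1 d2 d3 : K) :
    dgF c0 c1 c2 c3 * dgF d0 d1 d2 d3 = dgF (c0 * d0) (c1 * d1) (c2 * d2) (c3 * d3) := by
  unfold dgF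
  rw [Matrix.diagonal_mul_diagonal]
  congr 1
  have h := torusDiag_mul chevF4 (cc4 c0 c1 c2 c3) (cc4 d0 d1 d2 d3)
  have h2 : (fun i => cc4 c0 c1 c2 c3 i * cc4 d0 d1 d2 d3 i) =
      cc4 (c0 * d0) (c1 * d1) (c2 * d2) (c3 * d3) := by
    funext i; unfold cc4; split_ifs <;> rfl
  rw [h2] at h
  rw [h]

theorem dgF_inj (c0 c1 c2 c3 d0 d1 d2 d3 : K) (hc0 : c0 ≠ 0) (hc1 : c1 ≠ 0) (hc2 : c2 ≠ 0)
    (hc3 : c3 ≠ 0) (hd0 : d0 ≠ 0) (hd1 : d1 ≠ 0) (hd2 : d2 ≠ 0) (hd3 : d3 ≠ 0)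
    (h : dgF c0 c1 c2 c3 = dgF d0 d1 d2 d3) : c0 = d0 ∧ c1 = d1 ∧ c2 = d2 ∧ c3 = d3 := by
  unfold dgF at h
  have h0 := Matrix.diagonal_injective h
  have h33 := congrFun h0 (Sum.inr ⟨33, by decide⟩)
  have h27 := congrFun h0 (Sum.inr ⟨27, by decide⟩)
  have h25 := congrFun h0 (Sum.inr ⟨25, by decide⟩)
  have h24 := congrFun h0 (Sum.inr ⟨24, by decide⟩)
  rw [torusDiagF_inr, torusDiagF_inr] at h33 h27 h25 h24
  have k00 : chevF4.cartan 0 (33 : ℕ) = 2 := by decide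
  have k10 : chevF4.cartan 1 (33 : ℕ) = -1 := by decide
  have k20 : chevF4.cartan 2 (33 : ℕ) = 0 := by decide
  have k30 : chevF4.cartan 3 (33 : ℕ) = 0 := by decide
  have k01 : chevF4.cartan 0 (27 : ℕ) = -1 := by decide
  have k11 : chevF4.cartan 1 (27 : ℕ) = 2 := by decide
  have k21 : chevF4.cartan 2 (27 : ℕ) = -1 := by decide
  have k31 : chevF4.cartan 3 (27 : ℕ) = 0 := by decide
  have k02 : chevF4.cartan 0 (25 : ℕ) = 0 := by decide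
  have k12 : chevF4.cartan 1 (25 : ℕ) = -2 := by decide
  have k22 : chevF4.cartan 2 (25 : ℕ) = 2 := by decide
  have k32 : chevF4.cartan 3 (25 : ℕ) = -1 := by decide
  have k03 : chevF4.cartan 0 (24 : ℕ) = 0 := by decide
  have k13 : chevF4.cartan 1 (24 : ℕ) = 0 := by decide
  have k23 : chevF4.cartan 2 (24 : ℕ) = -1 := by decide
  have k33 : chevF4.cartan 3 (24 : ℕ) = 2 := by decide
  simp only [cc4, if_true, one_ne_zero, if_false, OfNat.ofNat_ne_zero, OfNat.ofNat_ne_one,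
    Nat.succ_ne_self] at h33 h27 h25 h24
  rw [k00, k10, k20, k30] at h33
  rw [k01, k11, k21, k31] at h27
  rw [k02, k12, k22, k32] at h25
  rw [k03, k13, k23, k33] at h24
  have z2 : ∀ c : K, c ^ (2 : ℤ) = c ^ 2 := fun c => zpow_ofNat c 2
  have zm2 : ∀ c : K, c ^ (-2 : ℤ) = (c ^ 2)⁻¹ := fun c => by rw [zpow_neg, z2]
  simp only [z2, zm2, zpow_zero, zpow_neg_one, mul_one, one_mul] at h33 h27 h25 h24
  have e0 : ∀ a b c d : K, a ≠ 0 → b ≠ 0 → c ≠ 0 → d ≠ 0 →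
      (a ^ 2 * b⁻¹) ^ 2 * (a⁻¹ * (b ^ 2 * c⁻¹)) ^ 3 * ((b ^ 2)⁻¹ * (c ^ 2 * d⁻¹)) ^ 2 *
        (c⁻¹ * d ^ 2) = a := by
    intro a b c d ha hb hc hd
    field_simp
  have e1 : ∀ a b c d : K, a ≠ 0 → b ≠ 0 → c ≠ 0 → d ≠ 0 →
      (a ^ 2 * b⁻¹) ^ 3 * (a⁻¹ * (b ^ 2 * c⁻¹)) ^ 6 * ((b ^ 2)⁻¹ * (c ^ 2 * d⁻¹)) ^ 4 *
        (c⁻¹ * d ^ 2) ^ 2 = b := by
    intro a b c d ha hb hc hd
    field_simp
  have e2 : ∀ a b c d : K, a ≠ 0 → b ≠ 0 → c ≠ 0 → d ≠ 0 →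
      (a ^ 2 * b⁻¹) ^ 4 * (a⁻¹ * (b ^ 2 * c⁻¹)) ^ 8 * ((b ^ 2)⁻¹ * (c ^ 2 * d⁻¹)) ^ 6 *
        (c⁻¹ * d ^ 2) ^ 3 = c := by
    intro a b c d ha hb hc hd
    field_simp
  have e3 : ∀ a b c d : K, a ≠ 0 → b ≠ 0 → c ≠ 0 → d ≠ 0 →
      (a ^ 2 * b⁻¹) ^ 2 * (a⁻¹ * (b ^ 2 * c⁻¹)) ^ 4 * ((b ^ 2)⁻¹ * (c ^ 2 * d⁻¹)) ^ 3 *
        (c⁻¹ * d ^ 2) ^ 2 = d := by
    intro a b c d ha hb hc hd
    field_simp
  refine ⟨?_, ?_, ?_, ?_⟩
  · rw [← e0 c0 c1 c2 c3 hc0 hc1 hc2 hc3, ← e0 d0 d1 d2 d3 hd0 hd1 hd2 hd3, h33, h27, h25, h24]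
  · rw [← e1 c0 c1 c2 c3 hc0 hc1 hc2 hc3, ← e1 d0 d1 d2 d3 hd0 hd1 hd2 hd3, h33, h27, h25, h24]
  · rw [← e2 c0 c1 c2 c3 hc0 hc1 hc2 hc3, ← e2 d0 d1 d2 d3 hd0 hd1 hd2 hd3, h33, h27, h25, h24]
  · rw [← e3 c0 c1 c2 c3 hc0 hc1 hc2 hc3, ← e3 d0 d1 d2 d3 hd0 hd1 hd2 hd3, h33, h27, h25, h24]

theorem hMat_torus (r : ℕ) (hr : r < chevF4.nroots) (t : K) (ht : t ≠ 0) :
    chevF4.hMat K r t = dgF (t ^ corootF chevF4 r 0) (t ^ corootF chevF4 r 1)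
      (t ^ corootF chevF4 r 2) (t ^ corootF chevF4 r 3) := by
  have hD : chevF4 ∈ [chevG2, chevB2, chevD4, chevF4, chevE6, chevE7, chevE8] := by simp
  unfold dgF
  rw [← torusDiagF_cc (fun i => t ^ corootF chevF4 r i), hMat_eq_diagonal chevF4 hD r hr t ht]
  congr 1
  funext j
  rcases j with a | s
  · rfl
  · simp only [torusDiag, Sum.elim_inr]
    have h1 : ((List.range chevF4.rank).map fun i =>
        (t ^ corootF chevF4 r i) ^ chevF4.cartan i s) =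
        (List.range chevF4.rank).map fun i => t ^ (corootF chevF4 r i * cartanF chevF4 i s) := by
      apply List.map_congr_left
      intro i hi
      rw [cartanF_eq (tablesCheck_all chevF4 hD) i s (List.mem_range.mp hi) s.isLt, zpow_mul]
    rw [h1, prod_zpow t ht, pairZ_eq]

theorem corootF_vals :
    (corootF chevF4 33 0 = 1 ∧ corootF chevF4 33 1 = 0 ∧ corootF chevF4 33 2 = 0 ∧
      corootF chevF4 33 3 = 0) ∧
    (corootF chevF4 27 0 = 0 ∧ corootF chevF4 27 1 = 1 ∧ corootF chevF4 27 2 = 0 ∧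
      corootF chevF4 27 3 = 0) ∧
    (corootF chevF4 25 0 = 0 ∧ corootF chevF4 25 1 = 0 ∧ corootF chevF4 25 2 = 1 ∧
      corootF chevF4 25 3 = 0) ∧
    (corootF chevF4 24 0 = 0 ∧ corootF chevF4 24 1 = 0 ∧ corootF chevF4 24 2 = 0 ∧
      corootF chevF4 24 3 = 1) ∧
    (corootF chevF4 30 0 = 0 ∧ corootF chevF4 30 1 = 1 ∧ corootF chevF4 30 2 = 1 ∧
      corootF chevF4 30 3 = 0) := by decide +kernel

theorem hMat33 (t : K) (ht : t ≠ 0) : chevF4.hMat K 33 t = dgF t 1 1 1 := by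
  obtain ⟨⟨a, b, c, d⟩, -, -, -, -⟩ := corootF_vals
  rw [hMat_torus 33 (by decide) t ht, a, b, c, d, zpow_one, zpow_zero]

theorem hMat27 (t : K) (ht : t ≠ 0) : chevF4.hMat K 27 t = dgF 1 t 1 1 := by
  obtain ⟨-, ⟨a, b, c, d⟩, -, -, -⟩ := corootF_vals
  rw [hMat_torus 27 (by decide) t ht, a, b, c, d, zpow_one, zpow_zero]

theorem hMat25 (t : K) (ht : t ≠ 0) : chevF4.hMat K 25 t = dgF 1 1 t 1 := by
  obtain ⟨-, -, ⟨a, b, c, d⟩, -, -⟩ := corootF_vals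
  rw [hMat_torus 25 (by decide) t ht, a, b, c, d, zpow_one, zpow_zero]

theorem hMat24 (t : K) (ht : t ≠ 0) : chevF4.hMat K 24 t = dgF 1 1 1 t := by
  obtain ⟨-, -, -, ⟨a, b, c, d⟩, -⟩ := corootF_vals
  rw [hMat_torus 24 (by decide) t ht, a, b, c, d, zpow_one, zpow_zero]

theorem hMat30 (t : K) (ht : t ≠ 0) : chevF4.hMat K 30 t = dgF 1 t t 1 := by
  obtain ⟨-, -, -, -, ⟨a, b, c, d⟩⟩ := corootF_vals
  rw [hMat_torus 30 (by decide) t ht, a, b, c, d, zpow_one, zpow_zero]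

end torus

/-- the class words are fixed by an endomorphism of graph-field type (abstract form) -/
theorem BSys.W_fixed {K : Type*} [Field K] {Γ : Type*} [Group Γ] (S : BSys K Γ) (τ : K →+* K)
    (h2 : (2 : K) = 0) (hτ : ∀ c, τ (τ c) ^ 2 = c) (t u : K) :
    S.xb (τ (τ t) ^ 2) * S.xa (τ t) * (S.y2 (τ (τ t * t + u) ^ 2) * S.y1 (τ (τ u ^ 2))) =
      S.W τ t u := by
  have e1 : τ (τ u ^ 2) = u := by rw [map_pow, hτ]
  have e2 : τ t ^ 2 * t + τ (τ t * t + u) ^ 2 = τ u ^ 2 := by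
    rw [map_add, map_mul]
    linear_combination (τ t) ^ 2 * hτ t + (t * τ t ^ 2 + τ (τ t) * τ t * τ u) * h2
  have e3 : S.y2 (τ (τ t * t + u) ^ 2) * S.y1 u = S.Y u (τ (τ t * t + u) ^ 2) := S.c12 _ _
  rw [hτ t, e1, e3, S.swap', mul_assoc, S.Y_add, e2]
  rfl

section St2

variable (K : Type*) [Field K]

/-- the positive class word in the presented group -/
def BpS (τ : K →+* K) (t u : K) : chevF4.SteinbergGroup K :=
  chevF4.stGen K 27 (τ t) * chevF4.stGen K 25 t *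
    (chevF4.stGen K 28 (τ t * t + u) * chevF4.stGen K 30 (τ u ^ 2))

/-- the negative class word in the presented group -/
def BmS (τ : K →+* K) (t u : K) : chevF4.SteinbergGroup K :=
  chevF4.stGen K 20 (τ t) * chevF4.stGen K 22 t *
    (chevF4.stGen K 19 (τ t * t + u) * chevF4.stGen K 17 (τ u ^ 2))

variable (Θ : chevF4.SteinbergGroup K →* GL chevF4.Idx K)

theorem Wp_eq [CharP K 2] (τ : K →+* K) (t u : K) :
    (sysP K Θ).W τ t u = Θ (BpS K τ t u) := by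
  show xf K Θ 27 (τ t) * xf K Θ 25 t * (xf K Θ 28 (τ t * t + u) * xf K Θ 30 (τ u ^ 2)) = _
  unfold BpS xf
  simp only [map_mul]

theorem Wm_eq [CharP K 2] (τ : K →+* K) (t u : K) :
    (sysM K Θ).W τ t u = Θ (BmS K τ t u) := by
  show xf K Θ 20 (τ t) * xf K Θ 22 t * (xf K Θ 19 (τ t * t + u) * xf K Θ 17 (τ u ^ 2)) = _
  unfold BmS xf
  simp only [map_mul]

variable (τ : K →+* K) (ψ : chevF4.SteinbergGroup K →* chevF4.SteinbergGroup K)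
  (hψ : ∀ (r : ℕ) (t : K), r < chevF4.nroots →
    ψ (chevF4.stGen K r t) = chevF4.stGen K (rhoF4 r) (τ t ^ lamF4 r))
  (hτ : ∀ c : K, τ (τ c) ^ 2 = c)

include hψ hτ

theorem psi_Wp [CharP K 2] (t u : K) : Θ (ψ (BpS K τ t u)) = (sysP K Θ).W τ t u := by
  have h2 : (2 : K) = 0 := CharTwo.two_eq_zero
  unfold BpS
  simp only [map_mul]
  rw [hψ 27 _ (by decide), hψ 25 _ (by decide), hψ 28 _ (by decide), hψ 30 _ (by decide)]
  have r27 : rhoF4 27 = 25 := rfl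
  have r25 : rhoF4 25 = 27 := rfl
  have r28 : rhoF4 28 = 30 := rfl
  have r30 : rhoF4 30 = 28 := rfl
  have l27 : lamF4 27 = 2 := rfl
  have l25 : lamF4 25 = 1 := rfl
  have l28 : lamF4 28 = 2 := rfl
  have l30 : lamF4 30 = 1 := rfl
  rw [r27, r25, r28, r30, l27, l25, l28, l30, pow_one, pow_one]
  exact (sysP K Θ).W_fixed τ h2 hτ t u

theorem psi_Wm [CharP K 2] (t u : K) : Θ (ψ (BmS K τ t u)) = (sysM K Θ).W τ t u := by
  have h2 : (2 : K) = 0 := CharTwo.two_eq_zero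
  unfold BmS
  simp only [map_mul]
  rw [hψ 20 _ (by decide), hψ 22 _ (by decide), hψ 19 _ (by decide), hψ 17 _ (by decide)]
  have r20 : rhoF4 20 = 22 := rfl
  have r22 : rhoF4 22 = 20 := rfl
  have r19 : rhoF4 19 = 17 := rfl
  have r17 : rhoF4 17 = 19 := rfl
  have l20 : lamF4 20 = 2 := rfl
  have l22 : lamF4 22 = 1 := rfl
  have l19 : lamF4 19 = 2 := rfl
  have l17 : lamF4 17 = 1 := rfl
  rw [r20, r22, r19, r17, l20, l22, l19, l17, pow_one, pow_one]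
  exact (sysM K Θ).W_fixed τ h2 hτ t u

omit Θ in
theorem psi_PpS [CharP K 2] (t : K) : ψ (PpS K τ t) = PpS K τ t := by
  unfold PpS
  rw [map_mul, hψ 33 _ (by decide), hψ 24 _ (by decide)]
  have r33 : rhoF4 33 = 24 := rfl
  have r24 : rhoF4 24 = 33 := rfl
  have l33 : lamF4 33 = 2 := rfl
  have l24 : lamF4 24 = 1 := rfl
  rw [r33, r24, l33, l24, pow_one, hτ]
  exact (commute_of_commOK chevF4 K 2 33 24 cokF_33_24 _ _).symm.eq

omit Θ in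
theorem psi_PmS [CharP K 2] (t : K) : ψ (PmS K τ t) = PmS K τ t := by
  unfold PmS
  rw [map_mul, hψ 14 _ (by decide), hψ 23 _ (by decide)]
  have r14 : rhoF4 14 = 23 := rfl
  have r23 : rhoF4 23 = 14 := rfl
  have l14 : lamF4 14 = 2 := rfl
  have l23 : lamF4 23 = 1 := rfl
  rw [r14, r23, l14, l23, pow_one, hτ]
  exact (commute_of_commOK chevF4 K 2 14 23 cokF_14_23 _ _).symm.eq

end St2

end Cfsg.Agent.H22.TF4
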