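import Cfsg.Agent.H23.CanonTab
/-!
Weyl-group bookkeeping in type `F₄` for the twisted group `²F₄` (helper22): inversion counts of
the two block words, elements `n_w` and the diagonal subgroup.
-/
set_option autoImplicit false
open Cfsg Cfsg.Lie

namespace Cfsg.Agent.H22.TF4

open Cfsg.Agent.H23

/-- the sign function of `F₄` -/
abbrev etaF (i s : ℕ) : ℤ := etaBit (etaF4.getD i 0) s

theorem packF (F : Type*) [Field F] : PackB chevF4 F (zR chevF4 ctblF4) etaF :=
  ⟨Cfsg.Agent.H23.chk_F4.sem F, nconj_F4.semN Cfsg.Agent.H23.chk_F4.tblOK F,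
    comm_F4.semC Cfsg.Agent.H23.chk_F4.tblOK F, tab_F4, tabC_F4, etaNeg_F4, tab2_F4⟩

theorem semVF (F : Type*) [Field F] : SemV chevF4 F :=
  trin_F4.semV Cfsg.Agent.H23.chk_F4.tblOK F

section generic

variable {D : ChevalleyDatum} {F : Type*} [Field F] {z η : ℕ → ℕ → ℤ}

theorem conj_diag_neg' (hS : Sem D F z) (h : GL D.Idx F) (hh : h ∈ D.diagonalSubgroup F)
    (v : GL D.Idx F) (hv : v ∈ D.negUnipotent F) : h * v * h⁻¹ ∈ D.negUnipotent F :=
  (Subgroup.mem_normalizer_iff.mp
    (diagonal_le_normalizer_rootGen hS D.IsNegRoot (fun _ hr => hr.1) hh) v).mp hv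

theorem conj_diag_pos' (hS : Sem D F z) (h : GL D.Idx F) (hh : h ∈ D.diagonalSubgroup F)
    (v : GL D.Idx F) (hv : v ∈ D.posUnipotent F) : h * v * h⁻¹ ∈ D.posUnipotent F :=
  (Subgroup.mem_normalizer_iff.mp
    (diagonal_le_normalizer_rootGen hS D.IsPosRoot (fun _ hr => hr.1) hh) v).mp hv

/-- An element `n_w` making no positive root negative lies in `H`. -/
theorem nWU_mem_diag_of_inv0 (hP : PackB D F z η) (w : List ℕ) (hw : ∀ i ∈ w, i < D.rank)
    (h0 : invN D w.reverse = 0) : nWU hP.sem w ∈ D.diagonalSubgroup F := by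
  have hS := hP.sem
  have hT := hP.tab
  unfold invN at h0
  rw [Finset.card_eq_zero, Finset.filter_eq_empty_iff, List.reverse_reverse] at h0
  have hposw : ∀ s, D.IsPosRoot s → D.IsPosRoot (reflW D w s) := by
    intro s hs
    have h1 := h0 (Finset.mem_range.mpr hs.1)
    exact (pos_or_neg hT _ (reflW_lt hT w hw s hs.1)).resolve_right (fun h => h1 ⟨hs, h⟩)
  have hmN := nWU_mem hS hT w hw
  have hmB : nWU hS w ∈ D.borelSubgroup F := by
    apply mem_borel_of_conj hP _ (monomial_le_group hS hmN)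
    intro b hb
    obtain ⟨u, hu, h', hh', rfl⟩ := exists_mul_of_mem_sup _ _
      (diagonal_le_normalizer_rootGen hS D.IsPosRoot (fun _ hr => hr.1)) b hb
    have e : nWU hS w * (u * h') * (nWU hS w)⁻¹ =
        (nWU hS w * u * (nWU hS w)⁻¹) * (nWU hS w * h' * (nWU hS w)⁻¹) := by group
    rw [e]
    apply Subgroup.mul_mem
    · apply (le_sup_left : D.posUnipotent F ≤ _)
      apply conj_mem_of_closure _ (D.posUnipotent F) _ _ u hu
      rintro x ⟨r, t, hr, hx⟩
      rw [eq_xU hS x r t hx]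
      obtain ⟨c, _, hc⟩ := nWU_conj hS hP.semN hT w hw r hr.1
      rw [hc t]
      exact xU_mem_rootGen hS D.IsPosRoot _ (hposw r hr) _
    · exact (le_sup_right : D.diagonalSubgroup F ≤ _)
        ((Subgroup.mem_normalizer_iff.mp
          (monomial_le_normalizer_diag hS hP.semN hT hP.etaNeg hmN) h').mp hh')
  rw [← borel_inf_monomial hS]
  exact ⟨hmB, hmN⟩

/-- An element `n_w` making some positive root negative does not lie in `H`. -/
theorem nWU_not_mem_diag (hP : PackB D F z η) (hV : SemV D F) (w : List ℕ)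
    (hw : ∀ i ∈ w, i < D.rank) (r : ℕ) (hr : D.IsPosRoot r) (hneg : D.IsNegRoot (reflW D w r)) :
    nWU hP.sem w ∉ D.diagonalSubgroup F := by
  intro hmem
  have hS := hP.sem
  have hT := hP.tab
  obtain ⟨c, hc1, hc⟩ := nWU_conj hS hP.semN hT w hw r hr.1
  have h1 := conj_diag_pos' hS _ hmem _ (xU_mem_rootGen hS D.IsPosRoot r hr (1 : F))
  rw [hc 1, mul_one] at h1
  have h2 : xU hS (reflW D w r) c ∈ D.posUnipotent F ⊓ D.negUnipotent F :=
    ⟨h1, xU_mem_rootGen hS D.IsNegRoot _ hneg c⟩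
  rw [pos_inf_neg hS hV, Subgroup.mem_bot] at h2
  have h3 := xU_eq_one_imp hS hT hP.tab2 _ hneg.1 c h2
  rcases hc1 with h | h <;> rw [h] at h3 <;> simp at h3

/-- appending a fundamental reflection which `w` makes negative lowers the inversion count -/
theorem inv_step (hT : Tab D) (w : List ℕ) (hw : ∀ i ∈ w, i < D.rank) (i : ℕ) (hi : i < D.rank)
    (hneg : D.IsNegRoot (reflW D w (D.simple i))) :
    invN D (w ++ [i]).reverse + 1 = invN D w.reverse := by
  have h := (invN_cons hT i hi w.reverse (fun j hj => hw j (List.mem_reverse.mp hj))).2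
    (by rw [List.reverse_reverse]; exact hneg)
  have e : (w ++ [i]).reverse = i :: w.reverse := by simp
  rw [e]; exact h

end generic

theorem simpleF : chevF4.simple 0 = 33 ∧ chevF4.simple 1 = 27 ∧ chevF4.simple 2 = 25 ∧
    chevF4.simple 3 = 24 ∧ chevF4.rank = 4 ∧ chevF4.nroots = 48 := by decide

theorem reflF : chevF4.reflectRoot 0 24 = 24 ∧ chevF4.reflectRoot 2 27 = 28 ∧
    chevF4.reflectRoot 1 28 = 28 ∧ chevF4.reflectRoot 1 25 = 30 ∧ chevF4.reflectRoot 2 30 = 30 ∧
    chevF4.reflectRoot 2 28 = 27 := by decide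

theorem ccD_neg_le : ∀ r < 48, chevF4.IsNegRoot r → ∀ j < 4, ccD chevF4 r j ≤ 0 := by
  decide +kernel

theorem ccD_ne_zero : ∀ r < 48, ∃ j < 4, ccD chevF4 r j ≠ 0 := by decide +kernel

theorem ccD_28_30 : (∀ k < 4, ccD chevF4 28 k = [0, 1, 2, 0].getD k 0) ∧
    (∀ k < 4, ccD chevF4 30 k = [0, 1, 1, 0].getD k 0) := by decide +kernel

/-- if `w` makes `a` and `b` negative then it makes `a + b` and `2a + b` negative -/
theorem neg_28_30 (w : List ℕ) (hw : ∀ i ∈ w, i < chevF4.rank)
    (h27 : chevF4.IsNegRoot (reflW chevF4 w 27)) (h25 : chevF4.IsNegRoot (reflW chevF4 w 25)) :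
    chevF4.IsNegRoot (reflW chevF4 w 28) ∧ chevF4.IsNegRoot (reflW chevF4 w 30) := by
  have hT := tab_F4
  have h4 : chevF4.rank = 4 := rfl
  have key : ∀ r < 48, (∀ j < 4, ccD chevF4 (reflW chevF4 w r) j ≤ 0) →
      chevF4.IsNegRoot (reflW chevF4 w r) := by
    intro r hr hle
    have hlt := reflW_lt hT w hw r hr
    rcases pos_or_neg hT _ hlt with hp | hn
    · exfalso
      obtain ⟨j, hj, hne⟩ := ccD_ne_zero _ hlt
      have h1 := tabL_F4.pos _ hlt hp j hj
      have h2 := hle j hj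
      omega
    · exact hn
  have e27 : ∀ j < 4, ccD chevF4 (reflW chevF4 w 27) j ≤ 0 :=
    fun j hj => ccD_neg_le _ h27.1 h27 j hj
  have e25 : ∀ j < 4, ccD chevF4 (reflW chevF4 w 25) j ≤ 0 :=
    fun j hj => ccD_neg_le _ h25.1 h25 j hj
  have s0 := simpleF.1
  have s1 := simpleF.2.1
  have s2 := simpleF.2.2.1
  have s3 := simpleF.2.2.2.1
  constructor
  · apply key 28 (by decide)
    intro j hj
    rw [cc_reflW hT tabT_F4 tabL_F4 w hw 28 (by decide) j hj, h4]
    simp only [Finset.sum_range_succ, Finset.sum_range_zero, zero_add]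
    rw [ccD_28_30.1 0 (by decide), ccD_28_30.1 1 (by decide), ccD_28_30.1 2 (by decide),
      ccD_28_30.1 3 (by decide), s1, s2]
    have a := e27 j hj
    have b := e25 j hj
    simp only [List.getD_cons_zero, List.getD_cons_succ, zero_mul, zero_add, add_zero, one_mul]
    omega
  · apply key 30 (by decide)
    intro j hj
    rw [cc_reflW hT tabT_F4 tabL_F4 w hw 30 (by decide) j hj, h4]
    simp only [Finset.sum_range_succ, Finset.sum_range_zero, zero_add]
    rw [ccD_28_30.2 0 (by decide), ccD_28_30.2 1 (by decide), ccD_28_30.2 2 (by decide),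
      ccD_28_30.2 3 (by decide), s1, s2]
    have a := e27 j hj
    have b := e25 j hj
    simp only [List.getD_cons_zero, List.getD_cons_succ, zero_mul, zero_add, add_zero, one_mul]
    omega

/-- the block word of the class `{p₁, p₄}` -/
def LP : List ℕ := [0, 3]
/-- the block word of the class `{p₂, p₃, p₂ + p₃, 2p₂ + p₃}` -/
def LB : List ℕ := [2, 1, 2, 1]

theorem LP_lt : ∀ i ∈ LP, i < chevF4.rank := by decide
theorem LB_lt : ∀ i ∈ LB, i < chevF4.rank := by decide

theorem append_lt (w L : List ℕ) (hw : ∀ i ∈ w, i < chevF4.rank) (hL : ∀ i ∈ L, i < chevF4.rank) :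
    ∀ i ∈ w ++ L, i < chevF4.rank := by
  intro i hi
  rcases List.mem_append.mp hi with h | h
  · exact hw i h
  · exact hL i h

theorem inv_LP (w : List ℕ) (hw : ∀ i ∈ w, i < chevF4.rank)
    (h33 : chevF4.IsNegRoot (reflW chevF4 w 33)) (h24 : chevF4.IsNegRoot (reflW chevF4 w 24)) :
    invN chevF4 (w ++ LP).reverse + 2 = invN chevF4 w.reverse := by
  have hT := tab_F4
  have a1 := inv_step hT w hw 0 (by decide) (by rw [simpleF.1]; exact h33)
  have hw1 := append_lt w [0] hw (by decide)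
  have a2 := inv_step hT (w ++ [0]) hw1 3 (by decide) (by
    rw [simpleF.2.2.2.1, reflW_append]
    show chevF4.IsNegRoot (reflW chevF4 w (chevF4.reflectRoot 0 24))
    rw [reflF.1]; exact h24)
  have e : w ++ [0] ++ [3] = w ++ LP := by simp [LP]
  rw [e] at a2
  omega

theorem inv_LB (w : List ℕ) (hw : ∀ i ∈ w, i < chevF4.rank)
    (h27 : chevF4.IsNegRoot (reflW chevF4 w 27)) (h25 : chevF4.IsNegRoot (reflW chevF4 w 25)) :
    invN chevF4 (w ++ LB).reverse + 4 = invN chevF4 w.reverse := by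
  have hT := tab_F4
  obtain ⟨h28, h30⟩ := neg_28_30 w hw h27 h25
  have a1 := inv_step hT w hw 2 (by decide) (by rw [simpleF.2.2.1]; exact h25)
  have hw1 := append_lt w [2] hw (by decide)
  have a2 := inv_step hT (w ++ [2]) hw1 1 (by decide) (by
    rw [simpleF.2.1, reflW_append]
    show chevF4.IsNegRoot (reflW chevF4 w (chevF4.reflectRoot 2 27))
    rw [reflF.2.1]; exact h28)
  have hw2 := append_lt (w ++ [2]) [1] hw1 (by decide)
  have a3 := inv_step hT (w ++ [2] ++ [1]) hw2 2 (by decide) (by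
    rw [simpleF.2.2.1, reflW_append, reflW_append]
    show chevF4.IsNegRoot (reflW chevF4 w (chevF4.reflectRoot 2 (chevF4.reflectRoot 1 25)))
    rw [reflF.2.2.2.1, reflF.2.2.2.2.1]; exact h30)
  have hw3 := append_lt (w ++ [2] ++ [1]) [2] hw2 (by decide)
  have a4 := inv_step hT (w ++ [2] ++ [1] ++ [2]) hw3 1 (by decide) (by
    rw [simpleF.2.1, reflW_append, reflW_append, reflW_append]
    show chevF4.IsNegRoot (reflW chevF4 w (chevF4.reflectRoot 2 (chevF4.reflectRoot 1
      (chevF4.reflectRoot 2 27))))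
    rw [reflF.2.1, reflF.2.2.1, reflF.2.2.2.2.2]; exact h27)
  have e : w ++ [2] ++ [1] ++ [2] ++ [1] = w ++ LB := by simp [LB]
  rw [e] at a4
  omega

end Cfsg.Agent.H22.TF4
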