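import Cfsg.Agent.H22.TF4Wa
import Cfsg.Agent.H22.TF4H1
import Cfsg.Agent.H22.TF4Core2
/-!
The twisted group `²F₄`: the graph-field automorphism, fixed points in `N` (helper22).
-/
set_option autoImplicit false
open Cfsg Cfsg.Lie

namespace Cfsg.Agent.H22.TF4

open Cfsg.Agent.H22 Cfsg.Agent.H22.GEx

theorem rhoF_pos : ∀ r < 48, chevF4.IsPosRoot r → chevF4.IsPosRoot (rhoF4 r) := by decide +kernel
theorem rhoF_neg : ∀ r < 48, chevF4.IsNegRoot r → chevF4.IsNegRoot (rhoF4 r) := by decide +kernel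
theorem rhoF_lt : ∀ r < 48, rhoF4 r < 48 := by decide +kernel
theorem rhoF_simple : rhoF4 33 = 24 ∧ rhoF4 24 = 33 ∧ rhoF4 27 = 25 ∧ rhoF4 25 = 27 := by decide

/-- the data of the twisted group: Steinberg's presentation map and the graph-field automorphism -/
structure Ctx4 (K : Type*) [Field K] [CharP K 2] (e : ℕ) where
  θ : chevF4.SteinbergGroup K →* ↥(chevF4.group K)
  hx : ∀ (r : ℕ) (t : K), r < chevF4.nroots →
    ((θ (chevF4.stGen K r t) : GL chevF4.Idx K) : Matrix chevF4.Idx chevF4.Idx K) = chevF4.x K r t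
  τ : K →+* K
  τ_eq : ∀ c : K, τ c = c ^ e
  hτ : ∀ c : K, τ (τ c) ^ 2 = c
  σ : ↥(chevF4.group K) ≃* ↥(chevF4.group K)
  ψ : chevF4.SteinbergGroup K →* chevF4.SteinbergGroup K
  hσψ : ∀ x, σ (θ x) = θ (ψ x)
  hψ : ∀ (r : ℕ) (t : K), r < chevF4.nroots →
    ψ (chevF4.stGen K r t) = chevF4.stGen K (rhoF4 r) (τ t ^ lamF4 r)

namespace Ctx4

variable {K : Type*} [Field K] [CharP K 2] {e : ℕ} (C : Ctx4 K e)

/-- the presentation map into the general linear group -/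
def Θ : chevF4.SteinbergGroup K →* GL chevF4.Idx K := (chevF4.group K).subtype.comp C.θ

theorem hxΘ : ∀ (r : ℕ) (t : K), r < chevF4.nroots →
    ((C.Θ (chevF4.stGen K r t) : GL chevF4.Idx K) : Matrix chevF4.Idx chevF4.Idx K) =
      chevF4.x K r t := C.hx

/-- root elements of the group -/
def xg (r : ℕ) (t : K) : ↥(chevF4.group K) := C.θ (chevF4.stGen K r t)

theorem xg_coe (r : ℕ) (hr : r < chevF4.nroots) (t : K) :
    (C.xg r t : GL chevF4.Idx K) = Cfsg.Agent.H23.xU (packF K).sem r t := Units.ext (C.hx r t hr)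

theorem hσ (r : ℕ) (t : K) (hr : r < chevF4.nroots) :
    C.σ (C.xg r t) = C.xg (rhoF4 r) (C.τ t ^ lamF4 r) := by
  unfold xg; rw [C.hσψ, C.hψ r t hr]

theorem Pp_mem (t : K) : Pp K C.Θ C.τ t ∈ twistedF4 K e :=
  Subgroup.subset_closure ⟨_, Or.inl ⟨t, Or.inl rfl⟩, Pp_val K C.Θ C.hxΘ C.τ e C.τ_eq t⟩

theorem Pm_mem (t : K) : Pm K C.Θ C.τ t ∈ twistedF4 K e :=
  Subgroup.subset_closure ⟨_, Or.inl ⟨t, Or.inr rfl⟩, Pm_val K C.Θ C.hxΘ C.τ e C.τ_eq t⟩

theorem Bp_mem (t u : K) : (sysP K C.Θ).W C.τ t u ∈ twistedF4 K e :=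
  Subgroup.subset_closure ⟨_, Or.inr ⟨t, u, Or.inl rfl⟩, Bp_val K C.Θ C.hxΘ C.τ e C.τ_eq t u⟩

theorem Bm_mem (t u : K) : (sysM K C.Θ).W C.τ t u ∈ twistedF4 K e :=
  Subgroup.subset_closure ⟨_, Or.inr ⟨t, u, Or.inr rfl⟩, Bm_val K C.Θ C.hxΘ C.τ e C.τ_eq t u⟩

/-- elements of the twisted group are fixed -/
theorem fixed_of_mem (x : GL chevF4.Idx K) (hx' : x ∈ twistedF4 K e) :
    ∃ hG : x ∈ chevF4.group K, C.σ ⟨x, hG⟩ = ⟨x, hG⟩ := by
  have key : ∃ w : chevF4.SteinbergGroup K, C.Θ w = x ∧ C.Θ (C.ψ w) = x := by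
    unfold twistedF4 ChevalleyDatum.genSubgroup at hx'
    induction hx' using Subgroup.closure_induction with
    | mem y hy =>
      obtain ⟨w, hw, hyw⟩ := hy
      rcases hw with ⟨t, hw | hw⟩ | ⟨t, u, hw | hw⟩
      · have hy' : y = Pp K C.Θ C.τ t :=
          Units.ext (by rw [hyw, hw, Pp_val K C.Θ C.hxΘ C.τ e C.τ_eq t])
        rw [hy']
        exact ⟨PpS K C.τ t, (Pp_eq K C.Θ C.τ t).symm, by
          rw [psi_PpS K C.τ C.ψ C.hψ C.hτ t]; exact (Pp_eq K C.Θ C.τ t).symm⟩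
      · have hy' : y = Pm K C.Θ C.τ t :=
          Units.ext (by rw [hyw, hw, Pm_val K C.Θ C.hxΘ C.τ e C.τ_eq t])
        rw [hy']
        exact ⟨PmS K C.τ t, (Pm_eq K C.Θ C.τ t).symm, by
          rw [psi_PmS K C.τ C.ψ C.hψ C.hτ t]; exact (Pm_eq K C.Θ C.τ t).symm⟩
      · have hy' : y = (sysP K C.Θ).W C.τ t u :=
          Units.ext (by rw [hyw, hw, Bp_val K C.Θ C.hxΘ C.τ e C.τ_eq t u])
        rw [hy']
        exact ⟨BpS K C.τ t u, (Wp_eq K C.Θ C.τ t u).symm, psi_Wp K C.Θ C.τ C.ψ C.hψ C.hτ t u⟩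
      · have hy' : y = (sysM K C.Θ).W C.τ t u :=
          Units.ext (by rw [hyw, hw, Bm_val K C.Θ C.hxΘ C.τ e C.τ_eq t u])
        rw [hy']
        exact ⟨BmS K C.τ t u, (Wm_eq K C.Θ C.τ t u).symm, psi_Wm K C.Θ C.τ C.ψ C.hψ C.hτ t u⟩
    | one => exact ⟨1, map_one _, by rw [map_one, map_one]⟩
    | mul a b _ _ iha ihb =>
      obtain ⟨wa, ha1, ha2⟩ := iha
      obtain ⟨wb, hb1, hb2⟩ := ihb
      exact ⟨wa * wb, by rw [map_mul, ha1, hb1], by rw [map_mul, map_mul, ha2, hb2]⟩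
    | inv a _ iha =>
      obtain ⟨wa, ha1, ha2⟩ := iha
      exact ⟨wa⁻¹, by rw [map_inv, ha1], by rw [map_inv, map_inv, ha2]⟩
  obtain ⟨w, h1, h2⟩ := key
  have hG : x ∈ chevF4.group K := by rw [← h1]; exact (C.θ w).2
  refine ⟨hG, ?_⟩
  have e1 : (⟨x, hG⟩ : ↥(chevF4.group K)) = C.θ w := Subtype.ext h1.symm
  rw [e1, C.hσψ]
  exact Subtype.ext (h2.trans h1.symm)

theorem closure_sig (S : Set (GL chevF4.Idx K)) (T : Subgroup (GL chevF4.Idx K))
    (hS : ∀ y ∈ S, ∃ hy : y ∈ chevF4.group K, (C.σ ⟨y, hy⟩ : GL chevF4.Idx K) ∈ T)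
    (x : ↥(chevF4.group K)) (hx : (x : GL chevF4.Idx K) ∈ Subgroup.closure S) :
    (C.σ x : GL chevF4.Idx K) ∈ T := by
  have key : ∀ y ∈ Subgroup.closure S,
      ∃ hy : y ∈ chevF4.group K, (C.σ ⟨y, hy⟩ : GL chevF4.Idx K) ∈ T := by
    intro y hy
    induction hy using Subgroup.closure_induction with
    | mem y hy => exact hS y hy
    | one =>
      refine ⟨one_mem _, ?_⟩
      have : (⟨1, one_mem _⟩ : ↥(chevF4.group K)) = 1 := rfl
      rw [this, map_one]; exact one_mem T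
    | mul a b _ _ iha ihb =>
      obtain ⟨ha, ha'⟩ := iha
      obtain ⟨hb, hb'⟩ := ihb
      refine ⟨mul_mem ha hb, ?_⟩
      have : (⟨a * b, mul_mem ha hb⟩ : ↥(chevF4.group K)) = ⟨a, ha⟩ * ⟨b, hb⟩ := rfl
      rw [this, map_mul]; exact mul_mem ha' hb'
    | inv a _ iha =>
      obtain ⟨ha, ha'⟩ := iha
      refine ⟨inv_mem ha, ?_⟩
      have : (⟨a⁻¹, inv_mem ha⟩ : ↥(chevF4.group K)) = (⟨a, ha⟩)⁻¹ := rfl
      rw [this, map_inv]; exact inv_mem ha'
  obtain ⟨hy, h⟩ := key x hx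
  exact h

theorem eq_xg (y : GL chevF4.Idx K) (r : ℕ) (hr : r < chevF4.nroots) (t : K)
    (h : (y : Matrix chevF4.Idx chevF4.Idx K) = chevF4.x K r t) :
    y = (C.xg r t : GL chevF4.Idx K) :=
  Units.ext (by rw [h]; exact (C.hx r t hr).symm)

theorem xg_mem_V (r : ℕ) (hr : chevF4.IsNegRoot r) (t : K) :
    (C.xg r t : GL chevF4.Idx K) ∈ chevF4.negUnipotent K :=
  Subgroup.subset_closure ⟨r, t, hr, C.hx r t hr.1⟩

theorem xg_mem_U (r : ℕ) (hr : chevF4.IsPosRoot r) (t : K) :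
    (C.xg r t : GL chevF4.Idx K) ∈ chevF4.posUnipotent K :=
  Subgroup.subset_closure ⟨r, t, hr, C.hx r t hr.1⟩

theorem sig_U (x : ↥(chevF4.group K)) (hx : (x : GL chevF4.Idx K) ∈ chevF4.posUnipotent K) :
    (C.σ x : GL chevF4.Idx K) ∈ chevF4.posUnipotent K := by
  refine C.closure_sig _ _ ?_ x hx
  rintro y ⟨r, t, hr, hy⟩
  have hy' := C.eq_xg y r hr.1 t hy
  subst hy'
  refine ⟨(C.xg r t).2, ?_⟩
  have e1 : (⟨(C.xg r t : GL chevF4.Idx K), (C.xg r t).2⟩ : ↥(chevF4.group K)) = C.xg r t := rfl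
  rw [e1, C.hσ r t hr.1]
  exact C.xg_mem_U _ (rhoF_pos r hr.1 hr) _

theorem sig_V (x : ↥(chevF4.group K)) (hx : (x : GL chevF4.Idx K) ∈ chevF4.negUnipotent K) :
    (C.σ x : GL chevF4.Idx K) ∈ chevF4.negUnipotent K := by
  refine C.closure_sig _ _ ?_ x hx
  rintro y ⟨r, t, hr, hy⟩
  have hy' := C.eq_xg y r hr.1 t hy
  subst hy'
  refine ⟨(C.xg r t).2, ?_⟩
  have e1 : (⟨(C.xg r t : GL chevF4.Idx K), (C.xg r t).2⟩ : ↥(chevF4.group K)) = C.xg r t := rfl
  rw [e1, C.hσ r t hr.1]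
  exact C.xg_mem_V _ (rhoF_neg r hr.1 hr) _

open Cfsg.Agent.H23 in
/-- negativity of `w(r)` passes to `w(ρ r)` when `h n_w` is fixed -/
theorem neg_transfer (g : ↥(chevF4.group K)) (hfix : C.σ g = g) (h : GL chevF4.Idx K)
    (hh : h ∈ chevF4.diagonalSubgroup K) (w : List ℕ) (hw : ∀ i ∈ w, i < chevF4.rank)
    (hg : (g : GL chevF4.Idx K) = h * nWU (packF K).sem w) (r : ℕ) (hr : r < 48)
    (hneg : chevF4.IsNegRoot (reflW chevF4 w r)) :
    chevF4.IsNegRoot (reflW chevF4 w (rhoF4 r)) := by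
  have hP := packF K
  have hS := hP.sem
  have hT := hP.tab
  have hr' : rhoF4 r < 48 := rhoF_lt r hr
  obtain ⟨c, hc, e⟩ := nWU_conj hS hP.semN hT w hw r hr
  obtain ⟨c', hc', e'⟩ := nWU_conj hS hP.semN hT w hw (rhoF4 r) hr'
  have key : ∀ (s : ℕ) (hs : s < 48) (d : K),
      (∀ t, nWU hS w * xU hS s t * (nWU hS w)⁻¹ = xU hS (reflW chevF4 w s) (d * t)) →
      ((g * C.xg s 1 * g⁻¹ : ↥(chevF4.group K)) : GL chevF4.Idx K) =
        h * xU hS (reflW chevF4 w s) (d * 1) * h⁻¹ := by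
    intro s hs d hd
    rw [Subgroup.coe_mul, Subgroup.coe_mul, Subgroup.coe_inv, hg, C.xg_coe s hs, ← hd 1]
    group
  have h1 : ((g * C.xg r 1 * g⁻¹ : ↥(chevF4.group K)) : GL chevF4.Idx K) ∈
      chevF4.negUnipotent K := by
    rw [key r hr c e]
    exact conj_diag_neg' hS h hh _ (xU_mem_rootGen hS chevF4.IsNegRoot _ hneg _)
  have h2 := C.sig_V _ h1
  have e2 : C.σ (g * C.xg r 1 * g⁻¹) = g * C.xg (rhoF4 r) 1 * g⁻¹ := by
    rw [map_mul, map_mul, map_inv, hfix, C.hσ r 1 hr, map_one, one_pow]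
  rw [e2, key (rhoF4 r) hr' c' e'] at h2
  have h3 := conj_diag_neg' hS h⁻¹ (inv_mem hh) _ h2
  have e3 : h⁻¹ * (h * xU hS (reflW chevF4 w (rhoF4 r)) (c' * 1) * h⁻¹) * h⁻¹⁻¹ =
      xU hS (reflW chevF4 w (rhoF4 r)) (c' * 1) := by group
  rw [e3] at h3
  by_contra hcon
  have hpos := (pos_or_neg hT _ (reflW_lt hT w hw _ hr')).resolve_right hcon
  refine xU_pos_not_mem_neg hP (semVF K) _ hpos (c' * 1) ?_ h3
  rcases hc' with h | h <;> rw [h] <;> simp

open Cfsg.Agent.H23 in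
/-- a fixed element of `N` is a word in the two block elements, up to `H` -/
theorem fix_mono (nP nB : ↥(chevF4.group K)) (hσP : C.σ nP = nP) (hσB : C.σ nB = nB)
    (hnP : (nP : GL chevF4.Idx K) = nWU (packF K).sem LP)
    (hnB : ∃ hB ∈ chevF4.diagonalSubgroup K, (nB : GL chevF4.Idx K) = hB * nWU (packF K).sem LB) :
    ∀ k : ℕ, ∀ w : List ℕ, (∀ i ∈ w, i < chevF4.rank) → invN chevF4 w.reverse < k →
    ∀ h ∈ chevF4.diagonalSubgroup K, ∀ g : ↥(chevF4.group K),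
      (g : GL chevF4.Idx K) = h * nWU (packF K).sem w → C.σ g = g →
      ∃ h' ∈ chevF4.diagonalSubgroup K,
        ∃ m ∈ Subgroup.closure {(nP : GL chevF4.Idx K), (nB : GL chevF4.Idx K)},
          (g : GL chevF4.Idx K) = h' * m := by
  have hP := packF K
  have hS := hP.sem
  have hT := hP.tab
  obtain ⟨hB, hhB, hnB'⟩ := hnB
  intro k
  induction k with
  | zero => intro w _ hk; omega
  | succ k ih =>
    intro w hw hk h hh g hg hfix
    by_cases h0 : invN chevF4 w.reverse = 0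
    · refine ⟨(g : GL chevF4.Idx K), ?_, 1, one_mem _, (mul_one _).symm⟩
      rw [hg]; exact mul_mem hh (nWU_mem_diag_of_inv0 hP w hw h0)
    · have hpos : 0 < invN chevF4 w.reverse := Nat.pos_of_ne_zero h0
      unfold invN at hpos
      rw [Finset.card_pos] at hpos
      obtain ⟨a, ha⟩ := hpos
      rw [Finset.mem_filter, Finset.mem_range, List.reverse_reverse] at ha
      obtain ⟨i, hi, hineg⟩ := exists_simple_neg hT tabT_F4 tabL_F4 w hw a ha.1 ha.2.1 ha.2.2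
      have hi4 : i < 4 := hi
      have tr := fun (r : ℕ) (hr : r < 48) hn => C.neg_transfer g hfix h hh w hw hg r hr hn
      have hcase : (chevF4.IsNegRoot (reflW chevF4 w 33) ∧ chevF4.IsNegRoot (reflW chevF4 w 24)) ∨
          (chevF4.IsNegRoot (reflW chevF4 w 27) ∧ chevF4.IsNegRoot (reflW chevF4 w 25)) := by
        interval_cases i
        · rw [simpleF.1] at hineg
          have := tr 33 (by decide) hineg
          rw [rhoF_simple.1] at this
          exact Or.inl ⟨hineg, this⟩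
        · rw [simpleF.2.1] at hineg
          have := tr 27 (by decide) hineg
          rw [rhoF_simple.2.2.1] at this
          exact Or.inr ⟨hineg, this⟩
        · rw [simpleF.2.2.1] at hineg
          have := tr 25 (by decide) hineg
          rw [rhoF_simple.2.2.2] at this
          exact Or.inr ⟨this, hineg⟩
        · rw [simpleF.2.2.2.1] at hineg
          have := tr 24 (by decide) hineg
          rw [rhoF_simple.2.1] at this
          exact Or.inl ⟨this, hineg⟩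
      rcases hcase with ⟨h33, h24⟩ | ⟨h27, h25⟩
      · have hinv := inv_LP w hw h33 h24
        have hwL := append_lt w LP hw LP_lt
        have hg' : ((g * nP : ↥(chevF4.group K)) : GL chevF4.Idx K) = h * nWU hS (w ++ LP) := by
          rw [Subgroup.coe_mul, hg, hnP, nWU_append, mul_assoc]
        have hfix' : C.σ (g * nP) = g * nP := by rw [map_mul, hfix, hσP]
        obtain ⟨h', hh', m, hm, e⟩ := ih (w ++ LP) hwL (by omega) h hh (g * nP) hg' hfix'
        refine ⟨h', hh', m * (nP : GL chevF4.Idx K)⁻¹,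
          mul_mem hm (inv_mem (Subgroup.subset_closure (by simp))), ?_⟩
        rw [← mul_assoc, ← e, Subgroup.coe_mul, mul_inv_cancel_right]
      · have hinv := inv_LB w hw h27 h25
        have hwL := append_lt w LB hw LB_lt
        have hnW : nWU hS w ∈ chevF4.monomialSubgroup K := nWU_mem hS hT w hw
        have hconj : nWU hS w * hB * (nWU hS w)⁻¹ ∈ chevF4.diagonalSubgroup K :=
          (Subgroup.mem_normalizer_iff.mp
            (monomial_le_normalizer_diag hS hP.semN hT hP.etaNeg hnW) hB).mp hhB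
        have hg' : ((g * nB : ↥(chevF4.group K)) : GL chevF4.Idx K) =
            (h * (nWU hS w * hB * (nWU hS w)⁻¹)) * nWU hS (w ++ LB) := by
          rw [Subgroup.coe_mul, hg, hnB', nWU_append]; group
        have hfix' : C.σ (g * nB) = g * nB := by rw [map_mul, hfix, hσB]
        obtain ⟨h', hh', m, hm, e⟩ :=
          ih (w ++ LB) hwL (by omega) _ (mul_mem hh hconj) (g * nB) hg' hfix'
        refine ⟨h', hh', m * (nB : GL chevF4.Idx K)⁻¹,
          mul_mem hm (inv_mem (Subgroup.subset_closure (by simp))), ?_⟩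
        rw [← mul_assoc, ← e, Subgroup.coe_mul, mul_inv_cancel_right]

end Ctx4

end Cfsg.Agent.H22.TF4
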